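import Mathlib
import Cfsg.Agent.Lib.Helper43.SPStmt

/-! S2720/SPIN piece DETADJ (helper57): the adjoint has the same determinant. -/

set_option autoImplicit false

namespace Cfsg.Agent.Lib.Helper57.SPDETADJ

open Module QuadraticMap
open Cfsg.Agent.Lib.Helper44.QSpace Cfsg.Agent.Lib.Helper44.OGroup
open Cfsg.Agent.Lib.Helper44.Parity Cfsg.Agent.Lib.Helper44.Spinor
open Cfsg.Agent.Lib.Helper44.OConj Cfsg.Agent.Lib.Helper43.SPStmt

universe u

theorem main : DetAdj.{u} := by
  intro F _ U _ _ _ Q hβ φ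
  classical
  let b := Module.finBasis F U
  have hcomp : LinearMap.BilinForm.compLeft (polarBilin Q) (st hβ φ)
      = LinearMap.BilinForm.compRight (polarBilin Q) φ :=
    LinearMap.ext₂ (fun u v => st_spec hβ φ u v)
  have hmat := congrArg (LinearMap.BilinForm.toMatrix b) hcomp
  rw [LinearMap.BilinForm.toMatrix_compLeft, LinearMap.BilinForm.toMatrix_compRight] at hmat
  have hdet := congrArg Matrix.det hmat
  rw [Matrix.det_mul, Matrix.det_mul, Matrix.det_transpose, LinearMap.det_toMatrix,
    LinearMap.det_toMatrix] at hdet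
  have hG : (LinearMap.BilinForm.toMatrix b (polarBilin Q)).det ≠ 0 :=
    (LinearMap.BilinForm.nondegenerate_iff_det_ne_zero b).mp hβ
  rw [mul_comm] at hdet
  exact mul_left_cancel₀ hG hdet

end Cfsg.Agent.Lib.Helper57.SPDETADJ
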