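import Mathlib
import Cfsg.Agent.Lib.Helper43.SPStmt

/-! S2720/SPIN piece FIXND (helper57): the fixed space of a semisimple isometry is
nondegenerate. -/

set_option autoImplicit false

namespace Cfsg.Agent.Lib.Helper57.SPFIXND

open Module QuadraticMap
open Cfsg.Agent.Lib.Helper44.QSpace Cfsg.Agent.Lib.Helper44.OGroup
open Cfsg.Agent.Lib.Helper44.Parity Cfsg.Agent.Lib.Helper44.Spinor
open Cfsg.Agent.Lib.Helper44.OConj Cfsg.Agent.Lib.Helper43.SPStmt

universe u

theorem main : FixNd.{u} := by
  intro F _ V _ _ _ Q hS s r hs hr hsr x hx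
  have hxfix : s (x : V) = x := mem_fixS.mp x.2
  have hpow : ∀ i : ℕ, (s ^ i) (x : V) = x := by
    intro i
    induction i with
    | zero => simp
    | succ i ih => rw [pow_succ, LinearEquiv.mul_apply, hxfix, ih]
  have hpowO : ∀ i : ℕ, s ^ i ∈ O Q := fun i => Subgroup.pow_mem _ hs i
  have key : ∀ v : V, polar Q (x : V) v = 0 := by
    intro v
    have hPfix : (∑ i ∈ Finset.range r, (s ^ i) v) ∈ fixS s := by
      rw [mem_fixS, map_sum]
      have h1 : ∀ i ∈ Finset.range r, s ((s ^ i) v) = (s ^ (i + 1)) v := by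
        intro i _
        rw [pow_succ', LinearEquiv.mul_apply]
      rw [Finset.sum_congr rfl h1]
      have h2 := Finset.sum_range_succ (fun i => (s ^ i) v) r
      have h3 := Finset.sum_range_succ' (fun i => (s ^ i) v) r
      rw [h2] at h3
      simp only [hsr, pow_zero] at h3
      exact (add_right_cancel h3).symm
    have h0 : polar Q (x : V) (∑ i ∈ Finset.range r, (s ^ i) v) = 0 := hx ⟨_, hPfix⟩
    have hsum : polar Q (x : V) (∑ i ∈ Finset.range r, (s ^ i) v)
        = ∑ i ∈ Finset.range r, polar Q (x : V) ((s ^ i) v) :=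
      map_sum (polarBilin Q (x : V)) (fun i => (s ^ i) v) (Finset.range r)
    have hterm : ∀ i ∈ Finset.range r, polar Q (x : V) ((s ^ i) v) = polar Q (x : V) v := by
      intro i _
      have := polar_of_mem_O (hpowO i) (x : V) v
      rw [hpow i] at this
      exact this
    rw [hsum, Finset.sum_congr rfl hterm, Finset.sum_const, Finset.card_range,
      nsmul_eq_mul] at h0
    exact (mul_eq_zero.mp h0).resolve_left hr
  exact Subtype.ext (hS (x : V) key)

end Cfsg.Agent.Lib.Helper57.SPFIXND
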