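import Mathlib

/-!
# Orbit counting for the automorphism group (helper57)

General lemmas used for S4067: Burnside counting over `MulAut G`, the comparison with
conjugacy classes, and some index arithmetic with the least prime divisor of `|G|`.
-/

set_option autoImplicit false

namespace Cfsg.Agent.Helper57.AOB

open Subgroup

variable {G : Type*} [Group G]

/-- The fixed-point subgroup of an automorphism. -/
def fixSub (α : MulAut G) : Subgroup G where
  carrier := {x | α x = x}
  mul_mem' := by
    intro a b ha hb
    change α a = a at ha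
    change α b = b at hb
    change α (a * b) = a * b
    rw [map_mul, ha, hb]
  one_mem' := by simp
  inv_mem' := by
    intro a ha
    change α a = a at ha
    change α a⁻¹ = a⁻¹
    rw [map_inv, ha]

theorem mem_fixSub {α : MulAut G} {x : G} : x ∈ fixSub α ↔ α x = x := Iff.rfl

theorem fixSub_one : fixSub (1 : MulAut G) = ⊤ := by
  ext x; simp [mem_fixSub]

theorem card_fixedBy_eq (α : MulAut G) :
    Nat.card (MulAction.fixedBy G α) = Nat.card (fixSub α) :=
  Nat.card_congr (Equiv.subtypeEquivRight (fun _ => Iff.rfl))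

variable [Finite G]

theorem minFac_mul_card_le_of_lt {H K : Subgroup G} (h : H < K) :
    (Nat.card G).minFac * Nat.card H ≤ Nat.card K := by
  have hle := h.le
  obtain ⟨m, hm⟩ := Subgroup.card_dvd_of_le hle
  have hK : Nat.card K ∣ Nat.card G := Subgroup.card_subgroup_dvd_card K
  have hHpos : 0 < Nat.card H := Nat.card_pos
  have hKpos : 0 < Nat.card K := Nat.card_pos
  have hm1 : m ≠ 1 := by
    rintro rfl
    rw [mul_one] at hm
    exact h.ne (Subgroup.eq_of_le_of_card_ge hle hm.le)
  have hm0 : m ≠ 0 := by
    rintro rfl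
    omega
  have hmdvd : m ∣ Nat.card G := Dvd.dvd.trans ⟨Nat.card H, by rw [hm, mul_comm]⟩ hK
  have hmin : (Nat.card G).minFac ≤ m := Nat.minFac_le_of_dvd (by omega) hmdvd
  calc (Nat.card G).minFac * Nat.card H ≤ m * Nat.card H := Nat.mul_le_mul_right _ hmin
    _ = Nat.card K := by rw [hm, mul_comm]

theorem minFac_mul_card_le_of_ne_top {H : Subgroup G} (h : H ≠ ⊤) :
    (Nat.card G).minFac * Nat.card H ≤ Nat.card G := by
  have := minFac_mul_card_le_of_lt (lt_top_iff_ne_top.mpr h)
  rwa [Subgroup.card_top] at this

/-- Burnside counting: `p` automorphisms with fixed-point subgroups of index at least `p ^ 2`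
force at most `|G| / p` orbits. -/
theorem orbits_le_of_autos (S : Finset (MulAut G))
    (hS : (Nat.card G).minFac ≤ S.card)
    (h : ∀ α ∈ S, (Nat.card G).minFac ^ 2 * Nat.card (fixSub α) ≤ Nat.card G) :
    Nat.card (MulAction.orbitRel.Quotient (MulAut G) G) ≤
      Nat.card G / (Nat.card G).minFac := by
  classical
  haveI : Fintype G := Fintype.ofFinite G
  haveI : Fintype (MulAut G) := Fintype.ofFinite _
  haveI : Fintype (MulAction.orbitRel.Quotient (MulAut G) G) := Fintype.ofFinite _
  haveI : ∀ a : MulAut G, Fintype (MulAction.fixedBy G a) := fun a => Fintype.ofFinite _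
  have hNpos : 0 < Nat.card G := Nat.card_pos
  by_cases hN1 : Nat.card G = 1
  · rw [hN1]
    simp only [Nat.minFac_one, Nat.div_one]
    rw [← hN1]
    exact Nat.card_le_card_of_surjective (Quotient.mk (MulAction.orbitRel (MulAut G) G))
      Quotient.mk_surjective
  have hpp : (Nat.card G).minFac.Prime := Nat.minFac_prime hN1
  have hburn := MulAction.sum_card_fixedBy_eq_card_orbits_mul_card_group (MulAut G) G
  generalize hp : (Nat.card G).minFac = p at *
  generalize hN : Nat.card G = N at *
  have hp2 : 2 ≤ p := hpp.two_le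
  obtain ⟨q, rfl⟩ : ∃ q, p = q + 1 := ⟨p - 1, by omega⟩
  have hpt : ∀ α : MulAut G,
      (q + 1) ^ 2 * Nat.card (fixSub α) + (if α ∈ S then q * N else 0)
        ≤ (q + 1) * N + (if α = 1 then (q + 1) * q * N else 0) := by
    intro α
    by_cases h1 : α = 1
    · subst h1
      have h1S : (1 : MulAut G) ∉ S := by
        intro hmem
        have := h 1 hmem
        rw [fixSub_one, Subgroup.card_top, hN] at this
        have h4 : 4 * N ≤ (q + 1) ^ 2 * N := Nat.mul_le_mul_right N (by nlinarith)
        omega
      rw [if_neg h1S, if_pos rfl, fixSub_one, Subgroup.card_top, hN]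
      nlinarith
    · rw [if_neg h1]
      have hne : fixSub α ≠ ⊤ := by
        intro htop
        apply h1
        ext x
        have : x ∈ fixSub α := by rw [htop]; trivial
        simpa [mem_fixSub] using this
      have hb := minFac_mul_card_le_of_ne_top hne
      rw [hN, hp] at hb
      by_cases hS' : α ∈ S
      · rw [if_pos hS']
        have := h α hS'
        nlinarith
      · rw [if_neg hS']
        nlinarith
  have hsum := Finset.sum_le_sum (fun α (_ : α ∈ (Finset.univ : Finset (MulAut G))) => hpt α)
  rw [Finset.sum_add_distrib, Finset.sum_add_distrib, ← Finset.mul_sum] at hsum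
  have e1 : ∑ α : MulAut G, Nat.card (fixSub α) =
      Nat.card (MulAction.orbitRel.Quotient (MulAut G) G) * Nat.card (MulAut G) := by
    rw [Nat.card_eq_fintype_card, Nat.card_eq_fintype_card, ← hburn]
    refine Finset.sum_congr rfl (fun a _ => ?_)
    rw [← card_fixedBy_eq, Nat.card_eq_fintype_card]
  have e2 : ∑ α : MulAut G, (if α ∈ S then q * N else 0) = S.card * (q * N) := by
    rw [Finset.sum_ite_mem, Finset.univ_inter, Finset.sum_const, smul_eq_mul]
  have e3 : ∑ α : MulAut G, (if α = 1 then (q + 1) * q * N else 0) = (q + 1) * q * N := by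
    rw [Finset.sum_ite_eq' Finset.univ (1 : MulAut G) (fun _ => (q + 1) * q * N)]
    simp
  have e4 : ∑ _α : MulAut G, (q + 1) * N = Nat.card (MulAut G) * ((q + 1) * N) := by
    rw [Finset.sum_const, smul_eq_mul, Finset.card_univ, Nat.card_eq_fintype_card]
  rw [e1, e2, e3, e4] at hsum
  have hApos : 0 < Nat.card (MulAut G) := Nat.card_pos
  generalize Nat.card (MulAut G) = A at *
  generalize Nat.card (MulAction.orbitRel.Quotient (MulAut G) G) = ω at *
  rw [Nat.le_div_iff_mul_le (by omega)]
  -- (q+1)^2 * (ω * A) + |S| * (q * N) ≤ A * ((q+1) * N) + (q+1) * q * N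
  have h5 : (q + 1) * (q * N) ≤ S.card * (q * N) := Nat.mul_le_mul_right _ hS
  have h6 : (q + 1) ^ 2 * (ω * A) ≤ A * ((q + 1) * N) := by nlinarith
  have h7 : A * ((q + 1) * (ω * (q + 1))) ≤ A * ((q + 1) * N) := by
    calc A * ((q + 1) * (ω * (q + 1))) = (q + 1) ^ 2 * (ω * A) := by ring
      _ ≤ _ := h6
  have h8 := Nat.le_of_mul_le_mul_left h7 hApos
  exact Nat.le_of_mul_le_mul_left h8 (by omega)

/-- The automorphism group has at most as many orbits as there are conjugacy classes. -/
theorem orbits_le_conjClasses :
    Nat.card (MulAction.orbitRel.Quotient (MulAut G) G) ≤ Nat.card (ConjClasses G) := by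
  let f : ConjClasses G → MulAction.orbitRel.Quotient (MulAut G) G :=
    Quotient.lift (fun a => (Quotient.mk (MulAction.orbitRel (MulAut G) G) a))
      (fun a b hab => by
        obtain ⟨c, hc⟩ := isConj_iff.mp hab
        refine Quotient.sound ?_
        change a ∈ MulAction.orbit (MulAut G) b
        refine ⟨MulAut.conj c⁻¹, ?_⟩
        rw [← hc]
        simp [MulAut.smul_def, mul_assoc])
  refine Nat.card_le_card_of_surjective f ?_
  intro q
  induction q using Quotient.inductionOn with
  | h a => exact ⟨ConjClasses.mk a, rfl⟩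

/-- The number of commuting pairs as a sum of centralizer orders. -/
theorem card_comm_eq_sum [Fintype G] :
    Nat.card { p : G × G // Commute p.1 p.2 } =
      ∑ g : G, Nat.card (Subgroup.centralizer ({g} : Set G)) := by
  classical
  rw [Nat.card_congr (Equiv.subtypeProdEquivSigmaSubtype Commute), Nat.card_sigma]
  refine Finset.sum_congr rfl (fun g _ => ?_)
  refine Nat.card_congr (Equiv.subtypeEquivRight (fun b => ?_))
  rw [Subgroup.mem_centralizer_iff]
  simp [Commute, SemiconjBy]

/-- The good case: few commuting pairs. -/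
theorem orbits_le_of_comm
    (hgood : (Nat.card G).minFac * Nat.card { p : G × G // Commute p.1 p.2 } ≤
      Nat.card G ^ 2) :
    Nat.card (MulAction.orbitRel.Quotient (MulAut G) G) ≤
      Nat.card G / (Nat.card G).minFac := by
  have h1 := card_comm_eq_card_conjClasses_mul_card G
  have h2 := orbits_le_conjClasses (G := G)
  have hNpos : 0 < Nat.card G := Nat.card_pos
  rw [Nat.le_div_iff_mul_le (Nat.minFac_pos _)]
  rw [h1] at hgood
  have h3 : (Nat.card G).minFac * Nat.card (ConjClasses G) ≤ Nat.card G := by
    by_contra hlt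
    rw [not_le] at hlt
    nlinarith
  calc _ ≤ Nat.card (ConjClasses G) * (Nat.card G).minFac := Nat.mul_le_mul_right _ h2
    _ ≤ _ := by rw [mul_comm]; exact h3

/-- Index arithmetic: a non-prime divisor `n ≠ 1` of `N` is at least `p ^ 2`, and equals
`p ^ 2` when below `p * (p + 1)`, where `p` is the least prime factor of `N`. -/
theorem sq_minFac_le {N n : ℕ} (hN : N ≠ 0) (hn : n ∣ N) (h1 : n ≠ 1) (hnp : ¬ n.Prime) :
    N.minFac ^ 2 ≤ n ∧ (n < N.minFac * (N.minFac + 1) → n = N.minFac ^ 2) := by
  have hn0 : n ≠ 0 := by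
    rintro rfl
    exact hN (zero_dvd_iff.mp hn)
  have hq : n.minFac.Prime := Nat.minFac_prime h1
  obtain ⟨m, hm⟩ := Nat.minFac_dvd n
  have hm0 : m ≠ 0 := by
    rintro rfl
    exact hn0 (by rw [hm, mul_zero])
  have hm1 : m ≠ 1 := by
    rintro rfl
    rw [mul_one] at hm
    exact hnp (hm ▸ hq)
  have hmN : m ∣ N := Dvd.dvd.trans ⟨n.minFac, by rw [mul_comm]; exact hm⟩ hn
  have hqN : n.minFac ∣ N := (Nat.minFac_dvd n).trans hn
  have hpm : N.minFac ≤ m := Nat.minFac_le_of_dvd (by omega) hmN
  have hpq : N.minFac ≤ n.minFac := Nat.minFac_le_of_dvd hq.two_le hqN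
  generalize N.minFac = p at *
  generalize n.minFac = q at *
  subst hm
  refine ⟨by nlinarith, fun hlt => ?_⟩
  have hq' : q = p := by
    by_contra hne
    have : p + 1 ≤ q := by omega
    nlinarith
  have hm' : m = p := by
    by_contra hne
    have : p + 1 ≤ m := by omega
    nlinarith
  rw [hq', hm', sq]

theorem center_index_facts (hna : ¬ IsMulCommutative G) :
    (Subgroup.center G).index ≠ 1 ∧ ¬ (Subgroup.center G).index.Prime := by
  constructor
  · intro h1
    apply hna
    rw [Subgroup.index_eq_one] at h1
    refine isMulCommutative_iff.mpr (fun a b => ?_)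
    have hb : b ∈ Subgroup.center G := by rw [h1]; trivial
    exact (Subgroup.mem_center_iff.mp hb) a
  · intro hp
    apply hna
    haveI : Fact (Subgroup.center G).index.Prime := ⟨hp⟩
    haveI : IsCyclic (G ⧸ Subgroup.center G) :=
      isCyclic_of_prime_card (p := (Subgroup.center G).index)
        (Subgroup.index_eq_card (Subgroup.center G)).symm
    exact MonoidHom.isMulCommutative_of_isCyclic_of_ker_le_center
      (QuotientGroup.mk' (Subgroup.center G)) (by rw [QuotientGroup.ker_mk'])

theorem sq_minFac_le_index_center (hna : ¬ IsMulCommutative G) :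
    (Nat.card G).minFac ^ 2 ≤ (Subgroup.center G).index :=
  (sq_minFac_le (Nat.card_pos (α := G)).ne' (Subgroup.index_dvd_card _)
    (center_index_facts hna).1 (center_index_facts hna).2).1

end Cfsg.Agent.Helper57.AOB
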