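import Mathlib

/-!
Group-theoretic lemmas for the three-automorphism-orbit theorem (S4081):
norms under fixed-point-free conjugation, the situation `Sit` (normal abelian `N` of exponent `p`
and prime index `q` with fixed-point-free action of the elements outside `N`), and the extension
of a compatible map on `N` to an automorphism of the whole group.
-/

set_option autoImplicit false

namespace Cfsg.Agent.Lib.Helper57.AutOrbGrp

open scoped IsMulCommutative

variable {G : Type*} [Group G]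

/-- The norm of `x` under a cyclic group of fixed-point-free conjugations is trivial. -/
theorem norm_eq_one (N : Subgroup G) [N.Normal] [IsMulCommutative ↥N] (w : G) (n : ℕ)
    (hw : w ^ n = 1) (hfix : ∀ x : ↥N, MulAut.conjNormal w x = x → x = 1) (x : ↥N) :
    ∏ k ∈ Finset.range n, MulAut.conjNormal (w ^ k) x = 1 := by
  apply hfix
  rw [map_prod]
  have h1 : ∀ k, MulAut.conjNormal w (MulAut.conjNormal (w ^ k) x) =
      MulAut.conjNormal (w ^ (k + 1)) x := by
    intro k
    rw [pow_succ', map_mul, MulAut.mul_apply]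
  simp only [h1]
  have h2 := Finset.prod_range_succ (fun k => MulAut.conjNormal (w ^ k) x) n
  have h3 := Finset.prod_range_succ' (fun k => MulAut.conjNormal (w ^ k) x) n
  rw [h2] at h3
  simp only [hw, pow_zero] at h3
  exact (mul_right_cancel h3).symm

/-- If all the cyclic norms of a non-cyclic abelian group of exponent `q` vanish, the module has
exponent `q`. -/
theorem pow_eq_one_of_norms {E A : Type*} [Group E] [CommGroup A] (ρ : E →* MulAut A) (q : ℕ)
    (hq0 : 0 < q) (u v : E) (huv : Commute u v)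
    (h1 : ∀ k, 0 < k → k < q → ∀ x : A, ∏ i ∈ Finset.range q, ρ ((v ^ k) ^ i) x = 1)
    (h2 : ∀ i : ℕ, ∀ x : A, ∏ k ∈ Finset.range q, ρ ((u * v ^ i) ^ k) x = 1) (x : A) :
    x ^ q = 1 := by
  obtain ⟨q', rfl⟩ : ∃ q', q = q' + 1 := ⟨q - 1, by omega⟩
  have hA : ∏ i ∈ Finset.range (q' + 1), ∏ k ∈ Finset.range (q' + 1),
      ρ ((u * v ^ i) ^ k) x = 1 :=
    Finset.prod_eq_one (fun i _ => h2 i x)
  rw [Finset.prod_comm] at hA
  have hterm : ∀ k i : ℕ, ρ ((u * v ^ i) ^ k) x = ρ (u ^ k) (ρ ((v ^ k) ^ i) x) := by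
    intro k i
    rw [(huv.pow_right i).mul_pow, map_mul, MulAut.mul_apply, ← pow_mul, ← pow_mul, mul_comm i k]
  simp only [hterm] at hA
  rw [Finset.prod_range_succ'] at hA
  have hrest : ∏ k ∈ Finset.range q', ∏ i ∈ Finset.range (q' + 1),
      ρ (u ^ (k + 1)) (ρ ((v ^ (k + 1)) ^ i) x) = 1 := by
    apply Finset.prod_eq_one
    intro k hk
    have hk' := Finset.mem_range.1 hk
    rw [← map_prod, h1 (k + 1) (by omega) (by omega) x, map_one]
  rw [hrest, one_mul] at hA
  simpa using hA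

/-- The situation: `N` normal abelian of exponent `p` and index `q`, elements outside `N` act
without fixed points. -/
structure Sit (p q : ℕ) (N : Subgroup G) : Prop where
  normal : N.Normal
  comm : ∀ x ∈ N, ∀ x' ∈ N, x * x' = x' * x
  exp : ∀ x ∈ N, x ^ p = 1
  ne_bot : N ≠ ⊥
  index : N.index = q
  fpf : ∀ g : G, g ∉ N → ∀ x ∈ N, g * x * g⁻¹ = x → x = 1

namespace Sit

variable {p q : ℕ} [hq : Fact q.Prime] {N : Subgroup G} (hS : Sit p q N)
include hS

omit hq in
theorem pow_q_eq_one {g : G} (hg : g ∉ N) : g ^ q = 1 := by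
  have := hS.normal
  have h1 : g ^ q ∈ N := by
    have h0 := N.pow_index_mem g
    rwa [hS.index] at h0
  apply hS.fpf g hg _ h1
  group

theorem orderOf_eq {g : G} (hg : g ∉ N) : orderOf g = q :=
  orderOf_eq_prime (hS.pow_q_eq_one hg) (fun h => hg (h ▸ N.one_mem))

omit hq in
theorem zpowers_inf {y : G} (hy : y ∉ N) {c : G} (hc : c ∈ Subgroup.zpowers y) (hcN : c ∈ N) :
    c = 1 := by
  obtain ⟨k, rfl⟩ := Subgroup.mem_zpowers_iff.1 hc
  apply hS.fpf y hy _ hcN
  group

theorem pow_not_mem {y : G} (hy : y ∉ N) {i : ℕ} (hi : ¬ q ∣ i) : y ^ i ∉ N := by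
  intro h
  have h1 := hS.zpowers_inf hy (Subgroup.npow_mem_zpowers y i) h
  have h2 := orderOf_dvd_of_pow_eq_one h1
  rw [hS.orderOf_eq hy] at h2
  exact hi h2

theorem decomp {y : G} (hy : y ∉ N) (g : G) : ∃ z ∈ N, ∃ i : ℕ, g = z * y ^ i := by
  have := hS.normal
  have hcard : Nat.card (G ⧸ N) = q := hS.index
  have hy1 : (y : G ⧸ N) ≠ 1 := fun h => hy ((QuotientGroup.eq_one_iff y).1 h)
  have htop := zpowers_eq_top_of_prime_card hcard hy1
  have hmem : (g : G ⧸ N) ∈ Subgroup.zpowers (y : G ⧸ N) := by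
    rw [htop]
    trivial
  have : Finite (G ⧸ N) := Nat.finite_of_card_ne_zero (by rw [hcard]; exact hq.out.ne_zero)
  rw [← mem_powers_iff_mem_zpowers] at hmem
  obtain ⟨i, hi⟩ := hmem
  refine ⟨g * (y ^ i)⁻¹, ?_, i, by group⟩
  rw [← QuotientGroup.eq_one_iff]
  have hi' : (y : G ⧸ N) ^ i = (g : G ⧸ N) := hi
  simp [← hi']

theorem exists_not_mem : ∃ y : G, y ∉ N := by
  by_contra h
  push Not at h
  have h1 : N = ⊤ := (Subgroup.eq_top_iff' N).2 h
  have h2 := hS.index
  rw [h1, Subgroup.index_top] at h2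
  exact hq.out.ne_one h2.symm

end Sit

/-- Extension of a compatible map on `N` to an automorphism of `G = N ⟨y⟩`. -/
theorem exists_aut_extend [Finite G] (N : Subgroup G) [hN : N.Normal]
    (y : G) (q : ℕ) (hq : q.Prime) (hy : orderOf y = q)
    (hyN : ∀ c ∈ Subgroup.zpowers y, c ∈ N → c = 1)
    (hD : ∀ g : G, ∃ z ∈ N, ∃ i : ℕ, g = z * y ^ i)
    (a : G → G) (haN : ∀ x ∈ N, a x ∈ N) (hamul : ∀ x ∈ N, ∀ x' ∈ N, a (x * x') = a x * a x')
    (hainj : ∀ x ∈ N, a x = 1 → x = 1)
    (j : ℕ) (hj : ¬ q ∣ j)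
    (hay : ∀ x ∈ N, a (y * x * y⁻¹) = y ^ j * a x * (y ^ j)⁻¹) :
    ∃ φ : MulAut G, (∀ x ∈ N, φ x = a x) ∧ φ y = y ^ j := by
  classical
  have ha1 : a 1 = 1 := by
    have h := hamul 1 N.one_mem 1 N.one_mem
    rw [mul_one] at h
    exact mul_left_cancel (a := a 1) (b := a 1) (c := 1) (by rw [mul_one]; exact h.symm)
  have hconj : ∀ (i : ℕ) (x : G), x ∈ N → y ^ i * x * (y ^ i)⁻¹ ∈ N :=
    fun i x hx => hN.conj_mem x hx _
  have hay_pow : ∀ (i : ℕ) (x : G), x ∈ N →
      a (y ^ i * x * (y ^ i)⁻¹) = (y ^ i) ^ j * a x * ((y ^ i) ^ j)⁻¹ := by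
    intro i
    induction i with
    | zero =>
      intro x hx
      simp
    | succ i ih =>
      intro x hx
      have e1 : y ^ (i + 1) * x * (y ^ (i + 1))⁻¹ = y * (y ^ i * x * (y ^ i)⁻¹) * y⁻¹ := by
        rw [pow_succ']
        group
      rw [e1, hay _ (hconj i x hx), ih x hx]
      have e2 : (y ^ (i + 1)) ^ j = y ^ j * (y ^ i) ^ j := by
        rw [← pow_mul, ← pow_mul, ← pow_add]
        congr 1
        ring
      rw [e2]
      group
  have huniq : ∀ z ∈ N, ∀ z' ∈ N, ∀ i i' : ℕ, z * y ^ i = z' * y ^ i' →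
      z = z' ∧ y ^ i = y ^ i' := by
    intro z hz z' hz' i i' h
    have h1 : y ^ i * (y ^ i')⁻¹ = z⁻¹ * z' := by
      have h0 : y ^ i = z⁻¹ * z' * y ^ i' := by
        rw [mul_assoc, ← h]
        group
      rw [h0]
      group
    have h2 : y ^ i * (y ^ i')⁻¹ = 1 := by
      apply hyN
      · exact Subgroup.mul_mem _ (Subgroup.npow_mem_zpowers y i)
          (Subgroup.inv_mem _ (Subgroup.npow_mem_zpowers y i'))
      · rw [h1]
        exact N.mul_mem (N.inv_mem hz) hz'
    have h3 : y ^ i = y ^ i' := mul_inv_eq_one.1 h2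
    refine ⟨?_, h3⟩
    rw [h3] at h
    exact mul_right_cancel h
  let F : G → G := fun g =>
    a (Classical.choose (hD g)) * (y ^ Classical.choose (Classical.choose_spec (hD g)).2) ^ j
  have hF : ∀ z ∈ N, ∀ i : ℕ, F (z * y ^ i) = a z * (y ^ i) ^ j := by
    intro z hz i
    have hs := Classical.choose_spec (hD (z * y ^ i))
    have hs2 := Classical.choose_spec hs.2
    obtain ⟨e1, e2⟩ := huniq z hz _ hs.1 i _ hs2
    exact congrArg₂ (fun s t => a s * t ^ j) e1.symm e2.symm
  have hFmul : ∀ g g', F (g * g') = F g * F g' := by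
    intro g g'
    obtain ⟨z, hz, i, rfl⟩ := hD g
    obtain ⟨z', hz', i', rfl⟩ := hD g'
    have e1 : z * y ^ i * (z' * y ^ i') = (z * (y ^ i * z' * (y ^ i)⁻¹)) * y ^ (i + i') := by
      rw [pow_add]
      group
    rw [e1, hF _ (N.mul_mem hz (hconj i z' hz')) (i + i'), hF z hz i, hF z' hz' i',
      hamul z hz _ (hconj i z' hz'), hay_pow i z' hz']
    have e2 : (y ^ (i + i')) ^ j = (y ^ i) ^ j * (y ^ i') ^ j := by
      rw [← pow_mul, ← pow_mul, ← pow_mul, ← pow_add]
      congr 1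
      ring
    rw [e2]
    group
  let Fh : G →* G := MonoidHom.mk' F hFmul
  have hinj : Function.Injective Fh := by
    rw [injective_iff_map_eq_one]
    intro g hg
    obtain ⟨z, hz, i, rfl⟩ := hD g
    have hg' : a z * (y ^ i) ^ j = 1 := by
      rw [← hF z hz i]
      exact hg
    have h1 : (y ^ i) ^ j = 1 := by
      apply hyN
      · exact Subgroup.pow_mem _ (Subgroup.npow_mem_zpowers y i) j
      · have h0 : (y ^ i) ^ j = (a z)⁻¹ := eq_inv_of_mul_eq_one_right hg'
        rw [h0]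
        exact N.inv_mem (haN z hz)
    rw [h1, mul_one] at hg'
    have hz1 : z = 1 := hainj z hz hg'
    have h2 : y ^ i = 1 := by
      have hd1 : orderOf (y ^ i) ∣ j := orderOf_dvd_of_pow_eq_one h1
      have hd2 : orderOf (y ^ i) ∣ q := by
        apply orderOf_dvd_of_pow_eq_one
        rw [← pow_mul, mul_comm, pow_mul, ← hy, pow_orderOf_eq_one, one_pow]
      rcases (Nat.dvd_prime hq).1 hd2 with h | h
      · exact orderOf_eq_one_iff.1 h
      · exact absurd (h ▸ hd1) hj
    rw [hz1, h2, mul_one]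
  have hbij : Function.Bijective Fh := ⟨hinj, Finite.surjective_of_injective hinj⟩
  refine ⟨MulEquiv.ofBijective Fh hbij, ?_, ?_⟩
  · intro x hx
    have h0 := hF x hx 0
    simp only [pow_zero, mul_one, one_pow] at h0
    exact h0
  · have h0 := hF 1 N.one_mem 1
    simp only [pow_one, one_mul, ha1] at h0
    exact h0

end Cfsg.Agent.Lib.Helper57.AutOrbGrp
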