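import Mathlib

/-!
Linear algebra over `ZMod p` used for the three-automorphism-orbit theorem (S4081).
`V` is a finite `ZMod p`-module, `Y` an endomorphism killed by the `q`-th cyclotomic polynomial.
-/

set_option autoImplicit false

namespace Cfsg.Agent.Lib.Helper57.AutOrbLin

open Polynomial

variable {p q : ℕ} [hp : Fact p.Prime] [hq : Fact q.Prime]
variable {V : Type*} [AddCommGroup V] [Module (ZMod p) V]

/-- A semiconjugation `A Y = Y' A` extends to polynomials. -/
theorem aeval_semiconj (Y Y' A : Module.End (ZMod p) V) (h : A * Y = Y' * A) (f : (ZMod p)[X]) :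
    A * aeval Y f = aeval Y' f * A := by
  induction f using Polynomial.induction_on with
  | C a =>
    simp only [aeval_C]
    exact (Algebra.commutes a A).symm
  | add f g hf hg => simp only [map_add, mul_add, add_mul, hf, hg]
  | monomial n a ih =>
    have e1 : aeval Y (C a * X ^ (n + 1)) = aeval Y (C a * X ^ n) * Y := by
      rw [pow_succ, ← mul_assoc, map_mul, aeval_X]
    have e2 : aeval Y' (C a * X ^ (n + 1)) = aeval Y' (C a * X ^ n) * Y' := by
      rw [pow_succ, ← mul_assoc, map_mul, aeval_X]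
    rw [e1, e2, ← mul_assoc, ih, mul_assoc, h, mul_assoc]

variable [Finite V]

/-- Forward direction: if enough semilinear symmetries exist, `p` is a primitive root mod `q`. -/
theorem orderOf_eq_of_linear (hpq : p ≠ q) [Nontrivial V] (Y : Module.End (ZMod p) V)
    (hcyc : aeval Y (cyclotomic q (ZMod p)) = 0)
    (hT1 : ∀ v v' : V, v ≠ 0 → v' ≠ 0 → ∃ (A : Module.End (ZMod p) V) (j : ℕ),
      Function.Injective A ∧ A v = v' ∧ A * Y = Y ^ j * A)
    (hT2 : ∀ j : ℕ, 0 < j → j < q → ∃ A : Module.End (ZMod p) V,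
      Function.Injective A ∧ A * Y = Y ^ j * A) :
    orderOf ((p : ℕ) : ZMod q) = q - 1 := by
  classical
  set Z : V → Set V := fun v => Set.range (fun g : (ZMod p)[X] => aeval Y g v) with hZ
  have hZself : ∀ v, v ∈ Z v := fun v => ⟨1, by simp⟩
  have hZsub : ∀ v w, w ∈ Z v → Z w ⊆ Z v := by
    rintro v w ⟨h, rfl⟩ _ ⟨g, rfl⟩
    exact ⟨g * h, by simp [map_mul]⟩
  have hZsubtr : ∀ v a b, a ∈ Z v → b ∈ Z v → a - b ∈ Z v := by
    rintro v _ _ ⟨g, rfl⟩ ⟨h, rfl⟩
    exact ⟨g - h, by simp [map_sub]⟩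
  have hcard : ∀ v v', v ≠ 0 → v' ≠ 0 → (Z v).ncard ≤ (Z v').ncard := by
    intro v v' hv hv'
    obtain ⟨A, j, hA, hAv, hAY⟩ := hT1 v v' hv hv'
    apply Set.ncard_le_ncard_of_injOn A ?_ hA.injOn (Set.toFinite _)
    rintro _ ⟨g, rfl⟩
    refine ⟨g.comp (X ^ j), ?_⟩
    have h1 := congrArg (fun T : Module.End (ZMod p) V => T v) (aeval_semiconj Y (Y ^ j) A hAY g)
    simp only [Module.End.mul_apply] at h1
    simp only [aeval_comp, aeval_X_pow]
    rw [h1, hAv]
  have hmin : ∀ v w, v ≠ 0 → w ≠ 0 → w ∈ Z v → Z w = Z v := by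
    intro v w hv hw hwv
    exact Set.eq_of_subset_of_ncard_le (hZsub v w hwv) (hcard v w hv hw) (Set.toFinite _)
  have hnz : ∀ f : (ZMod p)[X], aeval Y f ≠ 0 → ∃ x', aeval Y f x' ≠ 0 := by
    intro f hne
    by_contra hcon
    push Not at hcon
    exact hne (LinearMap.ext hcon)
  have hcomm : ∀ (f h : (ZMod p)[X]) (x : V), aeval Y f (aeval Y h x) = aeval Y h (aeval Y f x) := by
    intro f h x
    have h1 : aeval Y f * aeval Y h = aeval Y h * aeval Y f := by
      rw [← map_mul, ← map_mul, mul_comm]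
    exact congrArg (fun T : Module.End (ZMod p) V => T x) h1
  -- the key claim
  have key : ∀ (f : (ZMod p)[X]) (x : V), x ≠ 0 → aeval Y f x = 0 → aeval Y f = 0 := by
    intro f x hx hfx
    by_contra hne
    obtain ⟨x', hx'⟩ := hnz f hne
    have hx'0 : x' ≠ 0 := by
      rintro rfl
      simp at hx'
    have hx'notin : x' ∉ Z x := by
      rintro ⟨h, rfl⟩
      apply hx'
      change aeval Y f (aeval Y h x) = 0
      rw [hcomm, hfx, map_zero]
    have hw0 : x + x' ≠ 0 := by
      intro h0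
      apply hx'notin
      have h1 : x' = -x := by
        rw [add_comm] at h0
        exact eq_neg_of_add_eq_zero_left h0
      rw [h1]
      exact ⟨-1, by simp⟩
    have htw : aeval Y f x' = aeval Y f (x + x') := by
      rw [map_add, hfx, zero_add]
    have h1 : Z (aeval Y f x') = Z x' := hmin x' _ hx'0 hx' ⟨f, rfl⟩
    have h2 : Z (aeval Y f x') = Z (x + x') := hmin (x + x') _ hw0 hx' ⟨f, htw.symm⟩
    have h3 : x ∈ Z x' := by
      have hwx' : x + x' ∈ Z x' := by
        rw [← h1, h2]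
        exact hZself _
      have h4 : x = x + x' - x' := by abel
      rw [h4]
      exact hZsubtr _ _ _ hwx' (hZself x')
    have h4 : Z x = Z x' := hmin x' x hx'0 hx h3
    exact hx'notin (h4 ▸ hZself x')
  -- the minimal polynomial is irreducible
  set μ := minpoly (ZMod p) Y with hμ
  have hint : IsIntegral (ZMod p) Y := ⟨cyclotomic q (ZMod p), cyclotomic.monic q _, hcyc⟩
  have hμ0 : μ ≠ 0 := minpoly.ne_zero hint
  have hμY : aeval Y μ = 0 := minpoly.aeval _ _
  have hμdvd : μ ∣ cyclotomic q (ZMod p) := minpoly.dvd _ _ hcyc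
  have hirr : Irreducible μ := by
    rw [irreducible_iff]
    refine ⟨minpoly.not_isUnit (ZMod p) Y, ?_⟩
    intro f g hfg
    have hprod : aeval Y f * aeval Y g = 0 := by rw [← map_mul, ← hfg, hμY]
    by_cases hg : aeval Y g = 0
    · left
      obtain ⟨h, hh⟩ := minpoly.dvd (ZMod p) Y hg
      have h1 : μ * (f * h) = μ * 1 := by
        rw [mul_one]
        nth_rewrite 2 [hfg]
        rw [hh]
        ring
      have h2 := mul_left_cancel₀ hμ0 h1
      exact IsUnit.of_mul_eq_one h h2
    · right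
      obtain ⟨x', hx'⟩ := hnz g hg
      have hf0 : aeval Y f = 0 := key f (aeval Y g x') hx' (by
        have h1 := congrArg (fun T : Module.End (ZMod p) V => T x') hprod
        simpa using h1)
      obtain ⟨h, hh⟩ := minpoly.dvd (ZMod p) Y hf0
      have h1 : μ * (g * h) = μ * 1 := by
        rw [mul_one]
        nth_rewrite 2 [hfg]
        rw [hh]
        ring
      have h2 := mul_left_cancel₀ hμ0 h1
      exact IsUnit.of_mul_eq_one h h2
  -- count roots of `μ` in the field `AdjoinRoot μ`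
  have : Fact (Irreducible μ) := ⟨hirr⟩
  have hcop : p.Coprime q := (Nat.coprime_primes hp.out hq.out).2 hpq
  have hζμ : aeval (AdjoinRoot.root μ) μ = 0 := by
    rw [AdjoinRoot.aeval_eq, AdjoinRoot.mk_self]
  have hζq : IsPrimitiveRoot (AdjoinRoot.root μ) q := by
    have hne : NeZero (q : AdjoinRoot μ) := by
      have hinj : Function.Injective (algebraMap (ZMod p) (AdjoinRoot μ)) :=
        (algebraMap (ZMod p) (AdjoinRoot μ)).injective
      have : CharP (AdjoinRoot μ) p := charP_of_injective_algebraMap hinj p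
      refine ⟨fun h0 => ?_⟩
      have h1 := (CharP.cast_eq_zero_iff (AdjoinRoot μ) p q).1 h0
      exact hpq ((Nat.prime_dvd_prime_iff_eq hp.out hq.out).1 h1)
    rw [← isRoot_cyclotomic_iff]
    obtain ⟨c, hc⟩ := hμdvd
    have h1 : aeval (AdjoinRoot.root μ) (cyclotomic q (ZMod p)) = 0 := by
      rw [hc, map_mul, hζμ, zero_mul]
    rw [IsRoot, ← map_cyclotomic q (algebraMap (ZMod p) (AdjoinRoot μ)), eval_map, ← aeval_def]
    exact h1
  have hroot : ∀ j : ℕ, 0 < j → j < q → aeval (AdjoinRoot.root μ ^ j) μ = 0 := by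
    intro j hj0 hjq
    obtain ⟨A, hA, hAY⟩ := hT2 j hj0 hjq
    have hsurj : Function.Surjective A := Finite.surjective_of_injective hA
    have h1 : aeval (Y ^ j) μ = 0 := by
      have h2 := aeval_semiconj Y (Y ^ j) A hAY μ
      rw [hμY, mul_zero] at h2
      apply LinearMap.ext
      intro v
      obtain ⟨u, rfl⟩ := hsurj v
      have h3 := congrArg (fun T : Module.End (ZMod p) V => T u) h2
      simpa using h3.symm
    have h3 : μ ∣ μ.comp (X ^ j) := minpoly.dvd _ _ (by rw [aeval_comp, aeval_X_pow]; exact h1)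
    obtain ⟨c, hc⟩ := h3
    have h4 : aeval (AdjoinRoot.root μ) (μ.comp (X ^ j)) = 0 := by rw [hc, map_mul, hζμ, zero_mul]
    rwa [aeval_comp, aeval_X_pow] at h4
  have hle : q - 1 ≤ μ.natDegree := by
    set S : Finset (AdjoinRoot μ) := (Finset.Ico 1 q).image (fun j => AdjoinRoot.root μ ^ j) with hS
    have hScard : S.card = q - 1 := by
      rw [hS, Finset.card_image_of_injOn, Nat.card_Ico]
      intro i hi j hj hij
      have hi' := Finset.mem_Ico.1 hi
      have hj' := Finset.mem_Ico.1 hj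
      exact hζq.pow_inj hi'.2 hj'.2 hij
    have hmap0 : μ.map (algebraMap (ZMod p) (AdjoinRoot μ)) ≠ 0 :=
      (Polynomial.map_ne_zero_iff (algebraMap (ZMod p) (AdjoinRoot μ)).injective).2 hμ0
    have hsub : S.val ⊆ (μ.map (algebraMap (ZMod p) (AdjoinRoot μ))).roots := by
      intro z hz
      obtain ⟨j, hj, rfl⟩ := Finset.mem_image.1 (Finset.mem_def.2 hz)
      have hj' := Finset.mem_Ico.1 hj
      rw [mem_roots hmap0, IsRoot, eval_map, ← aeval_def]
      exact hroot j hj'.1 hj'.2
    have h5 := card_le_degree_of_subset_roots hsub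
    rwa [hScard, natDegree_map] at h5
  have hdeg := natDegree_of_dvd_cyclotomic_of_irreducible (K := ZMod p) (p := p) (f := 1) (n := q)
    (by simp [ZMod.card]) hcop hμdvd hirr
  have hle2 : μ.natDegree ≤ q - 1 := by
    have h6 := natDegree_le_of_dvd hμdvd (cyclotomic_ne_zero q _)
    rwa [natDegree_cyclotomic, Nat.totient_prime hq.out] at h6
  have h7 : orderOf ((p : ℕ) : ZMod q) = μ.natDegree := by
    rw [hdeg, ← orderOf_units, ZMod.coe_unitOfCoprime]
    simp
  omega

/-- Backward direction: if `p` is a primitive root mod `q`, there are many symmetries. -/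
theorem exists_symm_of_orderOf (hpq : p ≠ q) (Y : Module.End (ZMod p) V)
    (hcyc : aeval Y (cyclotomic q (ZMod p)) = 0)
    (hord : orderOf ((p : ℕ) : ZMod q) = q - 1) :
    (∀ v v' : V, v ≠ 0 → v' ≠ 0 → ∃ B : V ≃+ V, B v = v' ∧ ∀ u, B (Y u) = Y (B u)) ∧
    (∃ A : V ≃+ V, ∀ u, A (Y u) = (Y ^ p) (A u)) := by
  classical
  set Φ := cyclotomic q (ZMod p) with hΦ
  have hcop : p.Coprime q := (Nat.coprime_primes hp.out hq.out).2 hpq
  have hpn : ¬ p ∣ q := fun h => hpq ((Nat.prime_dvd_prime_iff_eq hp.out hq.out).1 h)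
  have hirr : Irreducible Φ := by
    apply ZMod.irreducible_of_dvd_cyclotomic_of_natDegree hpn dvd_rfl
    rw [natDegree_cyclotomic, Nat.totient_prime hq.out, ← hord, ← orderOf_units,
      ZMod.coe_unitOfCoprime]
  have : Fact (Irreducible Φ) := ⟨hirr⟩
  let ρ : AdjoinRoot Φ →+* Module.End (ZMod p) V := by
    apply Ideal.Quotient.lift _ ((aeval Y : (ZMod p)[X] →ₐ[ZMod p] Module.End (ZMod p) V) :
      (ZMod p)[X] →+* Module.End (ZMod p) V)
    intro g H
    rcases Ideal.mem_span_singleton.1 H with ⟨c, hc⟩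
    rw [hc]
    simp [hcyc]
  have hρroot : ρ (AdjoinRoot.root Φ) = Y := by
    change ρ (Ideal.Quotient.mk _ X) = Y
    exact (Ideal.Quotient.lift_mk _ _ _).trans (by simp)
  let _ : Module (AdjoinRoot Φ) V := Module.compHom V ρ
  have hsmul : ∀ (k : AdjoinRoot Φ) (v : V), k • v = ρ k v := fun _ _ => rfl
  let b := Module.Free.chooseBasis (AdjoinRoot Φ) V
  have hfun : ∀ v : V, v ≠ 0 → ∃ f : V →ₗ[AdjoinRoot Φ] AdjoinRoot Φ, f v ≠ 0 := by
    intro v hv
    have h1 : b.repr v ≠ 0 := by simpa using hv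
    obtain ⟨i, hi⟩ := DFunLike.ne_iff.1 h1
    exact ⟨b.coord i, by simpa using hi⟩
  refine ⟨?_, ?_⟩
  · intro v v' hv hv'
    obtain ⟨f₁, hf₁⟩ := hfun v hv
    obtain ⟨f₂, hf₂⟩ := hfun v' hv'
    obtain ⟨f, hfv, hfv'⟩ : ∃ f : V →ₗ[AdjoinRoot Φ] AdjoinRoot Φ, f v ≠ 0 ∧ f v' ≠ 0 := by
      by_cases h1 : f₁ v' = 0
      · by_cases h2 : f₂ v = 0
        · exact ⟨f₁ + f₂, by simp [h2, hf₁], by simp [h1, hf₂]⟩
        · exact ⟨f₂, h2, hf₂⟩
      · exact ⟨f₁, hf₁, h1⟩
    set w : V := (f v)⁻¹ • (v' - v) with hw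
    let B : V →ₗ[AdjoinRoot Φ] V :=
      LinearMap.id + (LinearMap.toSpanSingleton (AdjoinRoot Φ) V w).comp f
    have hB : ∀ u, B u = u + f u • w := fun u => by simp [B]
    have hBv : B v = v' := by
      rw [hB, hw, smul_smul, mul_inv_cancel₀ hfv, one_smul]
      abel
    have hfw : f w = (f v)⁻¹ * (f v' - f v) := by simp [hw]
    have hinj : Function.Injective B := by
      rw [← LinearMap.ker_eq_bot, LinearMap.ker_eq_bot']
      intro u hu
      rw [hB] at hu
      have h1 : f u + f u * f w = 0 := by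
        have h0 := congrArg f hu
        simpa using h0
      have h2 : f u * ((f v)⁻¹ * f v') = 0 := by
        rw [hfw] at h1
        have h3 : f u + f u * ((f v)⁻¹ * (f v' - f v)) = f u * ((f v)⁻¹ * f v') := by
          field_simp
          ring
        rw [← h3]
        exact h1
      have h3 : f u = 0 := by
        rcases mul_eq_zero.1 h2 with h | h
        · exact h
        · exact absurd h (mul_ne_zero (inv_ne_zero hfv) hfv')
      rw [h3, zero_smul, add_zero] at hu
      exact hu
    have hbij : Function.Bijective B := ⟨hinj, Finite.surjective_of_injective hinj⟩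
    refine ⟨AddEquiv.ofBijective B.toAddMonoidHom hbij, hBv, ?_⟩
    intro u
    change B (Y u) = Y (B u)
    rw [← hρroot, ← hsmul, ← hsmul, map_smul]
  · have hfin0 := (cyclotomic.monic q (ZMod p)).finite_adjoinRoot
    have hfin : Finite (AdjoinRoot Φ) := Module.finite_of_finite (ZMod p)
    have : CharP (AdjoinRoot Φ) p :=
      charP_of_injective_algebraMap (algebraMap (ZMod p) (AdjoinRoot Φ)).injective p
    have hfrobinj : Function.Injective (frobenius (AdjoinRoot Φ) p) := frobenius_inj (AdjoinRoot Φ) p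
    let F : AdjoinRoot Φ ≃+ AdjoinRoot Φ :=
      AddEquiv.ofBijective (frobenius (AdjoinRoot Φ) p).toAddMonoidHom
        ⟨hfrobinj, Finite.surjective_of_injective hfrobinj⟩
    have hF : ∀ k, F k = k ^ p := fun k => rfl
    let A : V ≃+ V :=
      b.repr.toAddEquiv.trans ((Finsupp.mapRange.addEquiv F).trans b.repr.symm.toAddEquiv)
    refine ⟨A, ?_⟩
    intro u
    have h1 : Y u = AdjoinRoot.root Φ • u := by rw [hsmul, hρroot]
    have h2 : (Y ^ p) (A u) = (AdjoinRoot.root Φ) ^ p • A u := by rw [hsmul, map_pow, hρroot]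
    rw [h1, h2]
    change b.repr.symm (Finsupp.mapRange F (map_zero F) (b.repr (AdjoinRoot.root Φ • u))) =
      AdjoinRoot.root Φ ^ p • b.repr.symm (Finsupp.mapRange F (map_zero F) (b.repr u))
    have e1 : b.repr (AdjoinRoot.root Φ • u) = AdjoinRoot.root Φ • b.repr u := map_smul _ _ _
    have e2 : ∀ g, AdjoinRoot.root Φ ^ p • b.repr.symm g =
        b.repr.symm (AdjoinRoot.root Φ ^ p • g) := fun g => (map_smul _ _ _).symm
    rw [e1, e2]
    apply congrArg
    ext i
    simp [hF, mul_pow]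

end Cfsg.Agent.Lib.Helper57.AutOrbLin
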