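import Mathlib
import Cfsg.Agent.Lib.Helper57.AutOrbLin
import Cfsg.Agent.Lib.Helper57.AutOrbGrp

/-!
The two group-level halves of the three-automorphism-orbit theorem (S4081), for a group in the
situation `Sit p q N`: transitivity of the automorphism group on `N \ 1` and on `G \ N` forces `p`
to be a primitive root mod `q` (`prim_root`), and conversely (`trans_of_prim_root`).
-/

set_option autoImplicit false

namespace Cfsg.Agent.Lib.Helper57.AutOrbMain

open scoped IsMulCommutative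
open Polynomial Cfsg.Agent.Lib.Helper57.AutOrbLin Cfsg.Agent.Lib.Helper57.AutOrbGrp

variable {G : Type*} [Group G]

section Bridge

variable (N : Subgroup G) [N.Normal] [IsMulCommutative ↥N] (p : ℕ)
  [Module (ZMod p) (Additive ↥N)]

/-- The conjugation action on `N` as linear endomorphisms of `Additive N`. -/
noncomputable def act : G →* Module.End (ZMod p) (Additive ↥N) where
  toFun g :=
    (MonoidHom.toAdditive (MulAut.conjNormal g : ↥N ≃* ↥N).toMonoidHom).toZModLinearMap p
  map_one' := by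
    apply LinearMap.ext
    intro v
    change Additive.ofMul (MulAut.conjNormal (1 : G) (Additive.toMul v)) = v
    rw [map_one]
    rfl
  map_mul' g h := by
    apply LinearMap.ext
    intro v
    change Additive.ofMul (MulAut.conjNormal (g * h) (Additive.toMul v)) =
      Additive.ofMul (MulAut.conjNormal g (MulAut.conjNormal h (Additive.toMul v)))
    rw [map_mul]
    rfl

theorem act_apply (g : G) (v : Additive ↥N) :
    act N p g v = Additive.ofMul (MulAut.conjNormal g (Additive.toMul v)) := rfl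

omit [N.Normal] [IsMulCommutative ↥N] in
/-- Restriction to `N` of an automorphism of `G` preserving `N`, as a homomorphism. -/
noncomputable def resHom (φ : MulAut G) (h : ∀ x ∈ N, φ x ∈ N) : ↥N →* ↥N where
  toFun x := ⟨φ x, h x x.2⟩
  map_one' := Subtype.ext (by simp)
  map_mul' a b := Subtype.ext (by simp)

omit [N.Normal] in
/-- Restriction to `N` of an automorphism of `G` preserving `N`. -/
noncomputable def resEnd (φ : MulAut G) (h : ∀ x ∈ N, φ x ∈ N) :
    Module.End (ZMod p) (Additive ↥N) :=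
  (MonoidHom.toAdditive (resHom N φ h)).toZModLinearMap p

omit [N.Normal] in
theorem resEnd_apply (φ : MulAut G) (h : ∀ x ∈ N, φ x ∈ N) (v : Additive ↥N) :
    resEnd N p φ h v = Additive.ofMul (⟨φ (Additive.toMul v : ↥N), h _ (Additive.toMul v).2⟩ : ↥N) :=
  rfl

theorem act_cyc (q : ℕ) [Fact q.Prime] (y : G)
    (hnorm : ∀ x : ↥N, ∏ k ∈ Finset.range q, MulAut.conjNormal (y ^ k) x = 1) :
    aeval (act N p y) (cyclotomic q (ZMod p)) = 0 := by
  rw [cyclotomic_prime, map_sum]
  apply LinearMap.ext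
  intro v
  simp only [map_pow, aeval_X, LinearMap.sum_apply, LinearMap.zero_apply]
  have h1 : ∀ k, (act N p y ^ k) v =
      Additive.ofMul (MulAut.conjNormal (y ^ k) (Additive.toMul v)) := by
    intro k
    rw [← map_pow]
    rfl
  simp only [h1]
  rw [← ofMul_prod, hnorm]
  rfl

omit [N.Normal] in
theorem resEnd_injective (φ : MulAut G) (h : ∀ x ∈ N, φ x ∈ N) :
    Function.Injective (resEnd N p φ h) := by
  intro u u' huu'
  have h1 : (φ (Additive.toMul u : ↥N) : G) = φ (Additive.toMul u' : ↥N) :=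
    congrArg (fun w : Additive ↥N => ((Additive.toMul w : ↥N) : G)) huu'
  have h2 : ((Additive.toMul u : ↥N) : G) = (Additive.toMul u' : ↥N) := φ.injective h1
  have h3 : Additive.toMul u = Additive.toMul u' := Subtype.ext h2
  exact Additive.toMul.injective h3

theorem resEnd_act (hcomm : ∀ x ∈ N, ∀ x' ∈ N, x * x' = x' * x) (φ : MulAut G)
    (h : ∀ x ∈ N, φ x ∈ N) (y z : G) (hz : z ∈ N) (i : ℕ) (hφ : φ y = z * y ^ i) :
    resEnd N p φ h * act N p y = act N p y ^ i * resEnd N p φ h := by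
  apply LinearMap.ext
  intro u
  rw [← map_pow]
  change Additive.ofMul (_ : ↥N) = Additive.ofMul (_ : ↥N)
  apply congrArg
  apply Subtype.ext
  change φ (y * (Additive.toMul u : ↥N) * y⁻¹) =
    y ^ i * φ (Additive.toMul u : ↥N) * (y ^ i)⁻¹
  set t : G := φ (Additive.toMul u : ↥N) with ht
  have htN : t ∈ N := h _ (Additive.toMul u).2
  have hsN : y ^ i * t * (y ^ i)⁻¹ ∈ N := ‹N.Normal›.conj_mem t htN _
  have hc := hcomm z hz _ hsN
  rw [map_mul, map_mul, map_inv, hφ, ← ht]
  calc z * y ^ i * t * (z * y ^ i)⁻¹ = z * (y ^ i * t * (y ^ i)⁻¹) * z⁻¹ := by group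
    _ = y ^ i * t * (y ^ i)⁻¹ * z * z⁻¹ := by rw [hc]
    _ = y ^ i * t * (y ^ i)⁻¹ := by group

end Bridge

/-- Forward direction. -/
theorem prim_root [Finite G] {p q : ℕ} [hp : Fact p.Prime] [hq : Fact q.Prime] (hpq : p ≠ q)
    (N : Subgroup G) (hS : Sit p q N)
    (hchar : ∀ φ : MulAut G, ∀ x ∈ N, φ x ∈ N)
    (htp : ∀ x ∈ N, ∀ x' ∈ N, x ≠ 1 → x' ≠ 1 → ∃ φ : MulAut G, φ x = x')
    (htq : ∀ g g' : G, g ∉ N → g' ∉ N → ∃ φ : MulAut G, φ g = g') :
    orderOf ((p : ℕ) : ZMod q) = q - 1 := by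
  have hNn := hS.normal
  have hNc : IsMulCommutative ↥N := ⟨⟨fun a b => Subtype.ext (hS.comm a a.2 b b.2)⟩⟩
  obtain ⟨inst⟩ : Nonempty (Module (ZMod p) (Additive ↥N)) :=
    ⟨AddCommGroup.zmodModule (n := p) (fun v => by
      rw [← ofMul_toMul v, ← ofMul_pow]
      have h1 : (Additive.toMul v) ^ p = 1 :=
        Subtype.ext (by simpa using hS.exp _ (Additive.toMul v).2)
      rw [h1]
      rfl)⟩
  have hnt : Nontrivial (Additive ↥N) := by
    have : Nontrivial ↥N := (Subgroup.nontrivial_iff_ne_bot N).2 hS.ne_bot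
    infer_instance
  obtain ⟨y, hy⟩ := hS.exists_not_mem
  have hyq : y ^ q = 1 := hS.pow_q_eq_one hy
  have hnorm : ∀ x : ↥N, ∏ k ∈ Finset.range q, MulAut.conjNormal (y ^ k) x = 1 :=
    norm_eq_one N y q hyq (fun x hx => Subtype.ext (hS.fpf y hy x x.2 (by
      have h0 := congrArg Subtype.val hx
      simpa using h0)))
  apply orderOf_eq_of_linear hpq (act N p y) (act_cyc N p q y hnorm)
  · intro v v' hv hv'
    have hx1 : ((Additive.toMul v : ↥N) : G) ≠ 1 := by
      intro h
      apply hv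
      have h1 : Additive.toMul v = (1 : ↥N) := Subtype.ext h
      exact Additive.toMul.injective h1
    have hx'1 : ((Additive.toMul v' : ↥N) : G) ≠ 1 := by
      intro h
      apply hv'
      have h1 : Additive.toMul v' = (1 : ↥N) := Subtype.ext h
      exact Additive.toMul.injective h1
    obtain ⟨φ, hφ⟩ := htp _ (Additive.toMul v).2 _ (Additive.toMul v').2 hx1 hx'1
    obtain ⟨z, hz, i, hzi⟩ := hS.decomp hy (φ y)
    refine ⟨resEnd N p φ (hchar φ), i, resEnd_injective N p φ (hchar φ), ?_,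
      resEnd_act N p hS.comm φ (hchar φ) y z hz i hzi⟩
    apply Additive.toMul.injective
    exact Subtype.ext hφ
  · intro j hj0 hjq
    have hyj : y ^ j ∉ N := hS.pow_not_mem hy (Nat.not_dvd_of_pos_of_lt hj0 hjq)
    obtain ⟨φ, hφ⟩ := htq y (y ^ j) hy hyj
    exact ⟨resEnd N p φ (hchar φ), resEnd_injective N p φ (hchar φ),
      resEnd_act N p hS.comm φ (hchar φ) y 1 N.one_mem j (by rw [hφ, one_mul])⟩

/-- Backward direction. -/
theorem trans_of_prim_root [Finite G] {p q : ℕ} [hp : Fact p.Prime] [hq : Fact q.Prime]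
    (hpq : p ≠ q) (N : Subgroup G) (hS : Sit p q N)
    (hord : orderOf ((p : ℕ) : ZMod q) = q - 1) :
    (∀ x ∈ N, ∀ x' ∈ N, x ≠ 1 → x' ≠ 1 → ∃ φ : MulAut G, φ x = x') ∧
    (∀ g g' : G, g ∉ N → g' ∉ N → ∃ φ : MulAut G, φ g = g') := by
  classical
  have hNn := hS.normal
  have hNc : IsMulCommutative ↥N := ⟨⟨fun a b => Subtype.ext (hS.comm a a.2 b b.2)⟩⟩
  obtain ⟨inst⟩ : Nonempty (Module (ZMod p) (Additive ↥N)) :=
    ⟨AddCommGroup.zmodModule (n := p) (fun v => by
      rw [← ofMul_toMul v, ← ofMul_pow]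
      have h1 : (Additive.toMul v) ^ p = 1 :=
        Subtype.ext (by simpa using hS.exp _ (Additive.toMul v).2)
      rw [h1]
      rfl)⟩
  obtain ⟨y, hy⟩ := hS.exists_not_mem
  have hyq : y ^ q = 1 := hS.pow_q_eq_one hy
  have hyo : orderOf y = q := hS.orderOf_eq hy
  have hfix : ∀ c : G, c ∉ N → ∀ x : ↥N, MulAut.conjNormal c x = x → x = 1 :=
    fun c hc x hx => Subtype.ext (hS.fpf c hc x x.2 (by
      have h0 := congrArg Subtype.val hx
      simpa using h0))
  have hnorm : ∀ x : ↥N, ∏ k ∈ Finset.range q, MulAut.conjNormal (y ^ k) x = 1 :=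
    norm_eq_one N y q hyq (hfix y hy)
  have hY : ∃ Y : Module.End (ZMod p) (Additive ↥N), Y = act N p y := ⟨_, rfl⟩
  obtain ⟨Y, hY⟩ := hY
  have hcyc : aeval Y (cyclotomic q (ZMod p)) = 0 := by
    rw [hY]
    exact act_cyc N p q y hnorm
  obtain ⟨hL1, A, hA⟩ := exists_symm_of_orderOf hpq Y hcyc hord
  -- extension of a compatible additive automorphism to an automorphism of `G`
  have hext : ∀ (B : Additive ↥N ≃+ Additive ↥N) (j : ℕ), ¬ q ∣ j →
      (∀ u, B (Y u) = (Y ^ j) (B u)) →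
      ∃ φ : MulAut G, (∀ x : ↥N, φ x = ((Additive.toMul (B (Additive.ofMul x)) : ↥N) : G)) ∧
        φ y = y ^ j := by
    intro B j hj hB
    let a : G → G := fun g =>
      if h : g ∈ N then ((Additive.toMul (B (Additive.ofMul (⟨g, h⟩ : ↥N))) : ↥N) : G) else 1
    have ha : ∀ x : ↥N, a x = ((Additive.toMul (B (Additive.ofMul x)) : ↥N) : G) := by
      intro x
      simp only [a, dif_pos x.2]
    have haN : ∀ x ∈ N, a x ∈ N := by
      intro x hx
      rw [ha ⟨x, hx⟩]
      exact Subtype.property _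
    have hamul : ∀ x ∈ N, ∀ x' ∈ N, a (x * x') = a x * a x' := by
      intro x hx x' hx'
      have h3 := ha (⟨x, hx⟩ * ⟨x', hx'⟩)
      rw [ha ⟨x, hx⟩, ha ⟨x', hx'⟩]
      rw [ofMul_mul, map_add, toMul_add] at h3
      exact h3
    have hainj : ∀ x ∈ N, a x = 1 → x = 1 := by
      intro x hx h
      rw [ha ⟨x, hx⟩] at h
      have h3 : Additive.toMul (B (Additive.ofMul (⟨x, hx⟩ : ↥N))) = (1 : ↥N) := Subtype.ext h
      have h4 : B (Additive.ofMul (⟨x, hx⟩ : ↥N)) = 0 := Additive.toMul.injective h3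
      have h5 : Additive.ofMul (⟨x, hx⟩ : ↥N) = 0 := (map_eq_zero_iff B B.injective).1 h4
      have h6 : (⟨x, hx⟩ : ↥N) = 1 := Additive.ofMul.injective h5
      exact congrArg Subtype.val h6
    have hay : ∀ x ∈ N, a (y * x * y⁻¹) = y ^ j * a x * (y ^ j)⁻¹ := by
      intro x hx
      have hmem : y * x * y⁻¹ ∈ N := hNn.conj_mem x hx y
      rw [ha ⟨x, hx⟩, ha ⟨y * x * y⁻¹, hmem⟩]
      have h3 := hB (Additive.ofMul ⟨x, hx⟩)
      rw [hY, ← map_pow] at h3
      exact congrArg (fun w : Additive ↥N => ((Additive.toMul w : ↥N) : G)) h3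
    obtain ⟨φ, h1, h2⟩ := exists_aut_extend N y q hq.out hyo
      (fun c hc hcN => hS.zpowers_inf hy hc hcN) (hS.decomp hy) a haN hamul hainj j hj hay
    exact ⟨φ, fun x => (h1 x x.2).trans (ha x), h2⟩
  refine ⟨?_, ?_⟩
  · intro x hx x' hx' hx1 hx'1
    have hv : Additive.ofMul (⟨x, hx⟩ : ↥N) ≠ 0 := by
      intro h
      have h6 : (⟨x, hx⟩ : ↥N) = 1 := Additive.ofMul.injective h
      exact hx1 (congrArg Subtype.val h6)
    have hv' : Additive.ofMul (⟨x', hx'⟩ : ↥N) ≠ 0 := by
      intro h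
      have h6 : (⟨x', hx'⟩ : ↥N) = 1 := Additive.ofMul.injective h
      exact hx'1 (congrArg Subtype.val h6)
    obtain ⟨B, hBv, hBY⟩ := hL1 _ _ hv hv'
    obtain ⟨φ, h1, -⟩ := hext B 1 (fun h => hq.out.one_lt.ne' (Nat.dvd_one.1 h))
      (by simpa using hBY)
    refine ⟨φ, ?_⟩
    have h2 := h1 ⟨x, hx⟩
    rw [hBv] at h2
    exact h2
  · have hFrob : ∃ φF : MulAut G, φF y = y ^ p := by
      obtain ⟨φ, -, h2⟩ := hext A p
        (fun h => hpq.symm ((Nat.prime_dvd_prime_iff_eq hq.out hp.out).1 h)) hA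
      exact ⟨φ, h2⟩
    obtain ⟨φF, hφF⟩ := hFrob
    have hFpow : ∀ k : ℕ, (φF ^ k) y = y ^ (p ^ k) := by
      intro k
      induction k with
      | zero => simp
      | succ k ih =>
        rw [pow_succ', MulAut.mul_apply, ih, map_pow, hφF, ← pow_mul, pow_succ']
    have hall : ∀ g : G, g ∉ N → ∃ φ : MulAut G, φ y = g := by
      intro g hg
      obtain ⟨z, hz, i, rfl⟩ := hS.decomp hy g
      have hi : ¬ q ∣ i := by
        intro hdvd
        apply hg
        obtain ⟨c, rfl⟩ := hdvd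
        rw [pow_mul, hyq, one_pow, mul_one]
        exact hz
      have hcopi : Nat.Coprime i q :=
        (Nat.Coprime.symm ((Nat.Prime.coprime_iff_not_dvd hq.out).2 hi))
      have hcopp : Nat.Coprime p q := (Nat.coprime_primes hp.out hq.out).2 hpq
      obtain ⟨k, hk⟩ : ∃ k : ℕ, ((p : ℕ) : ZMod q) ^ k = (i : ZMod q) := by
        set u : (ZMod q)ˣ := ZMod.unitOfCoprime p hcopp with hu
        have hou : orderOf u = q - 1 := by
          rw [← hord, ← orderOf_units, hu, ZMod.coe_unitOfCoprime]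
        have htop : Subgroup.zpowers u = ⊤ := by
          apply Subgroup.eq_top_of_card_eq
          rw [Nat.card_zpowers, hou, Nat.card_eq_fintype_card, ZMod.card_units]
        have hmem : ZMod.unitOfCoprime i hcopi ∈ Subgroup.zpowers u := by
          rw [htop]
          trivial
        rw [← mem_powers_iff_mem_zpowers] at hmem
        obtain ⟨k, hk⟩ := hmem
        refine ⟨k, ?_⟩
        have hk' : u ^ k = ZMod.unitOfCoprime i hcopi := hk
        have h0 := congrArg (fun w : (ZMod q)ˣ => (w : ZMod q)) hk'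
        simpa [hu] using h0
      have hyi : y ^ (p ^ k) = y ^ i := by
        rw [pow_eq_pow_iff_modEq, hyo, ← ZMod.natCast_eq_natCast_iff]
        push_cast
        exact hk
      have hyiN : y ^ i ∉ N := hS.pow_not_mem hy hi
      obtain ⟨t, ht⟩ : ∃ t : ↥N, (t : G) * y ^ i * (t : G)⁻¹ = z * y ^ i := by
        let τ : ↥N → ↥N := fun t => t * (MulAut.conjNormal (y ^ i) t)⁻¹
        have hτinj : Function.Injective τ := by
          intro t t' htt'
          have h2 : t * (MulAut.conjNormal (y ^ i) t)⁻¹ =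
              t' * (MulAut.conjNormal (y ^ i) t')⁻¹ := htt'
          have h2' : t = t' * (MulAut.conjNormal (y ^ i) t')⁻¹ * MulAut.conjNormal (y ^ i) t :=
            mul_inv_eq_iff_eq_mul.1 h2
          have h3 : (MulAut.conjNormal (y ^ i) t')⁻¹ * MulAut.conjNormal (y ^ i) t = t'⁻¹ * t := by
            conv_rhs => rw [h2']
            group
          have h1 : MulAut.conjNormal (y ^ i) (t'⁻¹ * t) = t'⁻¹ * t := by
            rw [map_mul, map_inv]
            exact h3
          have h5 := hfix (y ^ i) hyiN _ h1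
          exact (inv_mul_eq_one.1 h5).symm
        obtain ⟨t, ht⟩ := Finite.surjective_of_injective hτinj ⟨z, hz⟩
        refine ⟨t, ?_⟩
        have h6 : (t : G) * (y ^ i * (t : G) * (y ^ i)⁻¹)⁻¹ = z := congrArg Subtype.val ht
        rw [← h6]
        group
      refine ⟨MulAut.conj (t : G) * φF ^ k, ?_⟩
      rw [MulAut.mul_apply, hFpow, hyi, MulAut.conj_apply]
      exact ht
    intro g g' hg hg'
    obtain ⟨φ, hφ⟩ := hall g hg
    obtain ⟨φ', hφ'⟩ := hall g' hg'
    refine ⟨φ' * φ⁻¹, ?_⟩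
    rw [MulAut.mul_apply, ← hφ, MulAut.inv_apply_self, hφ']

end Cfsg.Agent.Lib.Helper57.AutOrbMain
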