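import Mathlib
import Cfsg.Agent.Lib.Helper17.CMStmt

/-! S3905 piece A2 (helper57): `C_N(V) = V` for an abelian minimal normal subgroup `V`. -/

set_option autoImplicit false

namespace Cfsg.Agent.Lib.Helper57.CMA2

open Subgroup Cfsg.Agent.Lib.Helper17.CMStmt

universe u

theorem mem_cs {G : Type*} [Group G] {x g : G} :
    g ∈ centralizer ({x} : Set G) ↔ x * g = g * x := by
  rw [mem_centralizer_iff]
  simp

theorem coatom_eq {G : Type*} [Group G] {A B : Subgroup G} (hA : IsCoatom A) (hB : IsCoatom B)
    (h : A ≤ B) : A = B := by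
  rcases eq_or_lt_of_le h with h | h
  · exact h
  · exact absurd (hA.2 _ h) hB.1

theorem decomp {G : Type*} [Group G] (V M : Subgroup G) (hV : V.Normal) (h : V ⊔ M = ⊤) (g : G) :
    ∃ v ∈ V, ∃ m ∈ M, g = v * m := by
  have hg : g ∈ ((V ⊔ M : Subgroup G) : Set G) := by rw [h]; trivial
  rw [Subgroup.normal_mul] at hg
  obtain ⟨v, hv, m, hm, rfl⟩ := hg
  exact ⟨v, hv, m, hm, rfl⟩

theorem sup_top_of {G : Type*} [Group G] (V M : Subgroup G) (hM : IsCoatom M) (hV : V ≠ ⊥)
    (h : V ⊓ M = ⊥) : V ⊔ M = ⊤ := by
  apply hM.2
  refine lt_of_le_of_ne le_sup_right ?_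
  intro heq
  apply hV
  have hle : V ≤ M := le_sup_left.trans heq.ge
  exact (inf_eq_left.mpr hle).symm.trans h

theorem main : A2.{u} := by
  intro G _ _ N V hNn hR hmin hab hff
  obtain ⟨hZ, hNne, hco⟩ := hR
  obtain ⟨hVn, hVN, hVne, hVmin⟩ := hmin
  apply le_antisymm
  swap
  · intro v hv
    refine Subgroup.mem_inf.mpr ⟨hVN hv, ?_⟩
    rw [mem_centralizer_iff]
    intro h hh
    exact hab h hh v hv
  have hy : ∃ y ∈ N, y ∉ centralizer (V : Set G) := by
    by_contra hcon
    push Not at hcon
    apply hVne
    rw [eq_bot_iff, ← hZ]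
    intro v hv
    refine Subgroup.mem_inf.mpr ⟨hVN hv, ?_⟩
    rw [mem_centralizer_iff]
    intro n hn
    have := hcon n hn
    rw [mem_centralizer_iff] at this
    exact (this v hv).symm
  obtain ⟨y, hyN, hyV⟩ := hy
  have hy1 : y ≠ 1 := by
    rintro rfl
    exact hyV (one_mem _)
  have hMy := hco y hyN hy1
  have hVM : V ⊓ centralizer ({y} : Set G) = ⊥ := hff y hyN hyV
  have htop := sup_top_of V _ hMy hVne hVM
  intro k hk
  obtain ⟨hkN, hkC⟩ := Subgroup.mem_inf.mp hk
  obtain ⟨v, hv, m, hm, rfl⟩ := decomp V _ hVn htop k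
  have hmN : m ∈ N := by
    have : m = v⁻¹ * (v * m) := by group
    rw [this]; exact N.mul_mem (N.inv_mem (hVN hv)) hkN
  have hvC : v ∈ centralizer (V : Set G) := by
    rw [mem_centralizer_iff]; intro h hh; exact hab h hh v hv
  have hmC : m ∈ centralizer (V : Set G) := by
    have : m = v⁻¹ * (v * m) := by group
    rw [this]; exact mul_mem (inv_mem hvC) hkC
  suffices hm1 : m = 1 by rw [hm1, mul_one]; exact hv
  by_contra hm1
  have hMm := hco m hmN hm1
  have key : ∀ v' ∈ V, v' ≠ 1 →
      centralizer ({m} : Set G) ≤ centralizer ({v'} : Set G) := by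
    intro v' hv' hv'1
    have hwN : v' * m ∈ N := N.mul_mem (hVN hv') hmN
    have hw1 : v' * m ≠ 1 := by
      intro h
      apply hm1
      have hmV : m ∈ V := by
        have : m = v'⁻¹ := eq_inv_of_mul_eq_one_right h
        rw [this]; exact V.inv_mem hv'
      have : m ∈ V ⊓ centralizer ({y} : Set G) := Subgroup.mem_inf.mpr ⟨hmV, hm⟩
      rw [hVM] at this
      exact Subgroup.mem_bot.mp this
    have hMw := hco (v' * m) hwN hw1
    have hle : centralizer ({v' * m} : Set G) ≤
        centralizer ({m} : Set G) ⊓ centralizer ({v'} : Set G) := by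
      intro g hg
      obtain ⟨u, hu, h, hh, rfl⟩ := decomp V _ hVn htop g
      have huv' : v' * u = u * v' := hab v' hv' u hu
      have hum : m * u = u * m := ((mem_centralizer_iff.mp hmC) u hu).symm
      have hhw : (v' * m) * h = h * (v' * m) := by
        have hg' := mem_cs.mp hg
        have huw : (v' * m) * u = u * (v' * m) := by
          calc (v' * m) * u = v' * (m * u) := by group
            _ = v' * (u * m) := by rw [hum]
            _ = (v' * u) * m := by group
            _ = (u * v') * m := by rw [huv']
            _ = u * (v' * m) := by group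
        have : u * ((v' * m) * h) = u * (h * (v' * m)) := by
          calc u * ((v' * m) * h) = (u * (v' * m)) * h := by group
            _ = ((v' * m) * u) * h := by rw [huw]
            _ = (v' * m) * (u * h) := by group
            _ = (u * h) * (v' * m) := hg'
            _ = u * (h * (v' * m)) := by group
        exact mul_left_cancel this
      have hmem : v'⁻¹ * (h * v' * h⁻¹) ∈ V ⊓ centralizer ({y} : Set G) := by
        refine Subgroup.mem_inf.mpr ⟨V.mul_mem (V.inv_mem hv') (hVn.conj_mem v' hv' h), ?_⟩
        have e : h * v' = v' * m * h * m⁻¹ := by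
          rw [hhw]; group
        have : v'⁻¹ * (h * v' * h⁻¹) = m * (h * m * h⁻¹)⁻¹ := by
          calc v'⁻¹ * (h * v' * h⁻¹) = v'⁻¹ * ((h * v') * h⁻¹) := by group
            _ = v'⁻¹ * ((v' * m * h * m⁻¹) * h⁻¹) := by rw [e]
            _ = m * (h * m * h⁻¹)⁻¹ := by group
        rw [this]
        exact mul_mem hm (inv_mem (mul_mem (mul_mem hh hm) (inv_mem hh)))
      rw [hVM, Subgroup.mem_bot] at hmem
      have hhv' : v' * h = h * v' := by
        have h2 : h * v' * h⁻¹ = v' := by
          have := congrArg (fun z => v' * z) hmem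
          simpa using this
        calc v' * h = (h * v' * h⁻¹) * h := by rw [h2]
          _ = h * v' := by group
      have hhm : m * h = h * m := by
        have : v' * (m * h) = v' * (h * m) := by
          calc v' * (m * h) = (v' * m) * h := by group
            _ = h * (v' * m) := hhw
            _ = (h * v') * m := by group
            _ = (v' * h) * m := by rw [hhv']
            _ = v' * (h * m) := by group
        exact mul_left_cancel this
      refine Subgroup.mem_inf.mpr ⟨mem_cs.mpr ?_, mem_cs.mpr ?_⟩
      · calc m * (u * h) = (m * u) * h := by group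
          _ = (u * m) * h := by rw [hum]
          _ = u * (m * h) := by group
          _ = u * (h * m) := by rw [hhm]
          _ = (u * h) * m := by group
      · calc v' * (u * h) = (v' * u) * h := by group
          _ = (u * v') * h := by rw [huv']
          _ = u * (v' * h) := by group
          _ = u * (h * v') := by rw [hhv']
          _ = (u * h) * v' := by group
    have heq : centralizer ({v' * m} : Set G) = centralizer ({m} : Set G) :=
      coatom_eq hMw hMm (hle.trans inf_le_left)
    rw [← heq]
    exact hle.trans inf_le_right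
  have hyMm : y ∈ centralizer ({m} : Set G) := by
    rw [mem_cs]
    exact (mem_cs.mp hm).symm
  apply hyV
  rw [mem_centralizer_iff]
  intro v' hv'
  by_cases hv'1 : v' = 1
  · subst hv'1; simp
  · exact mem_cs.mp (key v' hv' hv'1 hyMm)

end Cfsg.Agent.Lib.Helper57.CMA2
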