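import Mathlib
import Cfsg.Agent.Lib.Helper17.CMStmt

/-! S3905 piece A3 (helper57): for `y ∈ N ∖ V`, `N = V · C_N(y)` and `C_N(y)` is a Frobenius
complement in `N`. -/

set_option autoImplicit false

namespace Cfsg.Agent.Lib.Helper57.CMA3

open Subgroup Cfsg.Agent.Lib.Helper17.CMStmt

universe u

theorem mem_cs {G : Type*} [Group G] {x g : G} :
    g ∈ centralizer ({x} : Set G) ↔ x * g = g * x := by
  rw [mem_centralizer_iff]
  simp

theorem mem_Cn {G : Type u} [Group G] {N : Subgroup G} {y a : G} :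
    a ∈ Cn N y ↔ a ∈ N ∧ a ∈ centralizer ({y} : Set G) := Subgroup.mem_inf

theorem decomp {G : Type*} [Group G] (V M : Subgroup G) (hV : V.Normal) (h : V ⊔ M = ⊤) (g : G) :
    ∃ v ∈ V, ∃ m ∈ M, g = v * m := by
  have hg : g ∈ ((V ⊔ M : Subgroup G) : Set G) := by rw [h]; trivial
  rw [Subgroup.normal_mul] at hg
  obtain ⟨v, hv, m, hm, rfl⟩ := hg
  exact ⟨v, hv, m, hm, rfl⟩

theorem sup_top_of {G : Type*} [Group G] (V M : Subgroup G) (hM : IsCoatom M) (hV : V ≠ ⊥)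
    (h : V ⊓ M = ⊥) : V ⊔ M = ⊤ := by
  apply hM.2
  refine lt_of_le_of_ne le_sup_right ?_
  intro heq
  apply hV
  have hle : V ≤ M := le_sup_left.trans heq.ge
  exact (inf_eq_left.mpr hle).symm.trans h

theorem main : A3.{u} := by
  intro G _ _ N V hNn hR hmin hab hff hCV y hyN hyV
  obtain ⟨hZ, hNne, hco⟩ := hR
  obtain ⟨hVn, hVN, hVne, hVmin⟩ := hmin
  have hnc : ∀ b ∈ N, b ∉ V → b ∉ centralizer (V : Set G) := by
    intro b hbN hbV hbC
    apply hbV; rw [← hCV]; exact Subgroup.mem_inf.mpr ⟨hbN, hbC⟩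
  have hyC := hnc y hyN hyV
  have hy1 : y ≠ 1 := by rintro rfl; exact hyV (one_mem _)
  have hMy := hco y hyN hy1
  have hVM : V ⊓ centralizer ({y} : Set G) = ⊥ := hff y hyN hyC
  have htop := sup_top_of V _ hMy hVne hVM
  have h1 : ∀ n ∈ N, ∃ v ∈ V, ∃ a ∈ Cn N y, n = v * a := by
    intro n hn
    obtain ⟨v, hv, m, hm, rfl⟩ := decomp V _ hVn htop n
    refine ⟨v, hv, m, mem_Cn.mpr ⟨?_, hm⟩, rfl⟩
    have : m = v⁻¹ * (v * m) := by group
    rw [this]; exact N.mul_mem (N.inv_mem (hVN hv)) hn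
  refine ⟨h1, ?_⟩
  intro g hgN hgQ a ha hgag
  obtain ⟨v, hv, q, hq, rfl⟩ := h1 g hgN
  have hv1 : v ≠ 1 := by
    rintro rfl
    apply hgQ; simpa using hq
  have hbQ : q * a * q⁻¹ ∈ Cn N y := mul_mem (mul_mem hq ha) (inv_mem hq)
  generalize hb : q * a * q⁻¹ = b at hbQ
  have hvb : v * b * v⁻¹ ∈ Cn N y := by
    have : v * b * v⁻¹ = v * q * a * (v * q)⁻¹ := by rw [← hb]; group
    rw [this]; exact hgag
  have hbQ' := mem_Cn.mp hbQ
  have hvb' := mem_Cn.mp hvb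
  have hmem : b⁻¹ * (v * b * v⁻¹) ∈ V ⊓ centralizer ({y} : Set G) := by
    refine Subgroup.mem_inf.mpr ⟨?_, ?_⟩
    · have : b⁻¹ * (v * b * v⁻¹) = (b⁻¹ * v * b⁻¹⁻¹) * v⁻¹ := by group
      rw [this]
      exact V.mul_mem (hVn.conj_mem v hv b⁻¹) (V.inv_mem hv)
    · exact mul_mem (inv_mem hbQ'.2) hvb'.2
  rw [hVM, Subgroup.mem_bot] at hmem
  have hcomm : b * v = v * b := by
    have h2 : v * b * v⁻¹ = b := by
      have := congrArg (fun z => b * z) hmem
      simpa using this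
    calc b * v = (v * b * v⁻¹) * v := by rw [h2]
      _ = v * b := by group
  have hb1 : b = 1 := by
    by_contra hb1
    have hbV : b ∉ V := by
      intro hbV
      have : b ∈ V ⊓ centralizer ({y} : Set G) := Subgroup.mem_inf.mpr ⟨hbV, hbQ'.2⟩
      rw [hVM, Subgroup.mem_bot] at this
      exact hb1 this
    have hbC := hnc b hbQ'.1 hbV
    have hfb := hff b hbQ'.1 hbC
    have hvmem : v ∈ V ⊓ centralizer ({b} : Set G) := Subgroup.mem_inf.mpr ⟨hv, mem_cs.mpr hcomm⟩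
    rw [hfb, Subgroup.mem_bot] at hvmem
    exact hv1 hvmem
  have : a = q⁻¹ * b * q := by rw [← hb]; group
  rw [this, hb1]; group

end Cfsg.Agent.Lib.Helper57.CMA3
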