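import Mathlib
import Cfsg.Agent.Lib.Helper17.CMStmt

/-! S3905 piece A4 (helper57): `C_N(y)` has prime order for `y ∈ N ∖ V`. -/

set_option autoImplicit false

namespace Cfsg.Agent.Lib.Helper57.CMA4

open Subgroup Cfsg.Agent.Lib.Helper17.CMStmt

universe u

theorem mem_cs {G : Type*} [Group G] {x g : G} :
    g ∈ centralizer ({x} : Set G) ↔ x * g = g * x := by
  rw [mem_centralizer_iff]
  simp

theorem mem_Cn {G : Type u} [Group G] {N : Subgroup G} {y a : G} :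
    a ∈ Cn N y ↔ a ∈ N ∧ a ∈ centralizer ({y} : Set G) := Subgroup.mem_inf

theorem decomp {G : Type*} [Group G] (V M : Subgroup G) (hV : V.Normal) (h : V ⊔ M = ⊤) (g : G) :
    ∃ v ∈ V, ∃ m ∈ M, g = v * m := by
  have hg : g ∈ ((V ⊔ M : Subgroup G) : Set G) := by rw [h]; trivial
  rw [Subgroup.normal_mul] at hg
  obtain ⟨v, hv, m, hm, rfl⟩ := hg
  exact ⟨v, hv, m, hm, rfl⟩

theorem sup_top_of {G : Type*} [Group G] (V M : Subgroup G) (hM : IsCoatom M) (hV : V ≠ ⊥)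
    (h : V ⊓ M = ⊥) : V ⊔ M = ⊤ := by
  apply hM.2
  refine lt_of_le_of_ne le_sup_right ?_
  intro heq
  apply hV
  have hle : V ≤ M := le_sup_left.trans heq.ge
  exact (inf_eq_left.mpr hle).symm.trans h

theorem card_of_decomp {G : Type*} [Group G] (A B H : Subgroup G) (hA : A ≤ H) (hB : B ≤ H)
    (hint : A ⊓ B = ⊥) (hdec : ∀ n ∈ H, ∃ v ∈ A, ∃ b ∈ B, n = v * b) :
    Nat.card H = Nat.card A * Nat.card B := by
  let f : A × B → H := fun p => ⟨(p.1 : G) * (p.2 : G), H.mul_mem (hA p.1.2) (hB p.2.2)⟩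
  have hinj : Function.Injective f := by
    rintro ⟨⟨v, hv⟩, ⟨a, ha⟩⟩ ⟨⟨v', hv'⟩, ⟨a', ha'⟩⟩ h
    have h' : v * a = v' * a' := congrArg Subtype.val h
    have hmem : v'⁻¹ * v ∈ A ⊓ B := by
      refine Subgroup.mem_inf.mpr ⟨A.mul_mem (A.inv_mem hv') hv, ?_⟩
      have : v'⁻¹ * v = a' * a⁻¹ := by
        calc v'⁻¹ * v = v'⁻¹ * (v * a) * a⁻¹ := by group
          _ = v'⁻¹ * (v' * a') * a⁻¹ := by rw [h']
          _ = a' * a⁻¹ := by group
      rw [this]; exact B.mul_mem ha' (B.inv_mem ha)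
    rw [hint, Subgroup.mem_bot] at hmem
    have hvv : v = v' := by
      have := congrArg (fun z => v' * z) hmem
      simpa using this
    subst hvv
    have haa : a = a' := mul_left_cancel h'
    subst haa
    rfl
  have hsurj : Function.Surjective f := by
    rintro ⟨n, hn⟩
    obtain ⟨v, hv, b, hb, rfl⟩ := hdec n hn
    exact ⟨(⟨v, hv⟩, ⟨b, hb⟩), rfl⟩
  rw [← Nat.card_congr (Equiv.ofBijective f ⟨hinj, hsurj⟩), Nat.card_prod]

theorem main : A4.{u} := by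
  intro G _ _ N V hNn hR hmin hab hff hCV hFrob y hyN hyV
  obtain ⟨hZ, hNne, hco⟩ := hR
  obtain ⟨hVn, hVN, hVne, hVmin⟩ := hmin
  have hnc : ∀ b ∈ N, b ∉ V → b ∉ centralizer (V : Set G) := by
    intro b hbN hbV hbC
    apply hbV; rw [← hCV]; exact Subgroup.mem_inf.mpr ⟨hbN, hbC⟩
  have hyC := hnc y hyN hyV
  have hy1 : y ≠ 1 := by rintro rfl; exact hyV (one_mem _)
  have hVM : V ⊓ centralizer ({y} : Set G) = ⊥ := hff y hyN hyC
  obtain ⟨hdec, -⟩ := hFrob y hyN hyV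
  have hVQ : V ⊓ Cn N y = ⊥ := by
    rw [eq_bot_iff, ← hVM]
    intro z hz
    obtain ⟨hzV, hzQ⟩ := Subgroup.mem_inf.mp hz
    exact Subgroup.mem_inf.mpr ⟨hzV, (mem_Cn.mp hzQ).2⟩
  have hQN : Cn N y ≤ N := fun z hz => (mem_Cn.mp hz).1
  have hcardN : Nat.card N = Nat.card V * Nat.card (Cn N y) :=
    card_of_decomp V (Cn N y) N hVN hQN hVQ hdec
  have hyQ : y ∈ Cn N y := mem_Cn.mpr ⟨hyN, mem_cs.mpr rfl⟩
  have hord : orderOf y ≠ 1 := by rwa [Ne, orderOf_eq_one_iff]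
  obtain ⟨q, hqdef⟩ : ∃ q, q = (orderOf y).minFac := ⟨_, rfl⟩
  have hqp : q.Prime := hqdef ▸ Nat.minFac_prime hord
  have hqd : q ∣ orderOf y := hqdef ▸ Nat.minFac_dvd _
  obtain ⟨a, hadef⟩ : ∃ a, a = y ^ (orderOf y / q) := ⟨_, rfl⟩
  have hoa : orderOf a = q := hadef ▸ orderOf_pow_orderOf_div (orderOf_pos y).ne' hqd
  have haQ : a ∈ Cn N y := hadef ▸ pow_mem hyQ _
  have ha1 : a ≠ 1 := by
    intro h
    rw [h, orderOf_one] at hoa
    exact hqp.one_lt.ne hoa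
  have haN : a ∈ N := (mem_Cn.mp haQ).1
  have haV : a ∉ V := by
    intro h
    have : a ∈ V ⊓ Cn N y := Subgroup.mem_inf.mpr ⟨h, haQ⟩
    rw [hVQ, Subgroup.mem_bot] at this
    exact ha1 this
  have haC := hnc a haN haV
  have hMa := hco a haN ha1
  have hVMa : V ⊓ centralizer ({a} : Set G) = ⊥ := hff a haN haC
  have htop := sup_top_of V _ hMa hVne hVMa
  have hLdec : ∀ n ∈ V ⊔ zpowers a, ∃ v ∈ V, ∃ b ∈ zpowers a, n = v * b := by
    intro n hn
    have hn' : n ∈ ((V ⊔ zpowers a : Subgroup G) : Set G) := hn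
    rw [Subgroup.normal_mul] at hn'
    obtain ⟨v, hv, b, hb, rfl⟩ := hn'
    exact ⟨v, hv, b, hb, rfl⟩
  have hzQ : zpowers a ≤ Cn N y := by rw [zpowers_le]; exact haQ
  have hLn : (V ⊔ zpowers a).Normal := by
    constructor
    intro x hx g
    obtain ⟨u, hu, m, hm, rfl⟩ := decomp V _ hVn htop g
    obtain ⟨v, hv, z, hz, rfl⟩ := hLdec x hx
    have hmz : m * z = z * m := by
      obtain ⟨k, rfl⟩ := Subgroup.mem_zpowers_iff.mp hz
      have hma : a * m = m * a := mem_cs.mp hm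
      exact (Commute.zpow_right (show Commute m a from hma.symm) k).eq
    have : u * m * (v * z) * (u * m)⁻¹ = u * ((m * v * m⁻¹) * z) * u⁻¹ := by
      calc u * m * (v * z) * (u * m)⁻¹ = u * ((m * v * m⁻¹) * (m * z) * m⁻¹) * u⁻¹ := by group
        _ = u * ((m * v * m⁻¹) * (z * m) * m⁻¹) * u⁻¹ := by rw [hmz]
        _ = u * ((m * v * m⁻¹) * z) * u⁻¹ := by group
    rw [this]
    have huL : u ∈ V ⊔ zpowers a := (le_sup_left : V ≤ V ⊔ zpowers a) hu
    exact mul_mem (mul_mem huL (mul_mem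
      ((le_sup_left : V ≤ V ⊔ zpowers a) (hVn.conj_mem v hv m))
      ((le_sup_right : zpowers a ≤ V ⊔ zpowers a) hz))) (inv_mem huL)
  obtain ⟨v, hv, hv1⟩ : ∃ v ∈ V, v ≠ 1 := by
    by_contra hcon
    push Not at hcon
    exact hVne ((Subgroup.eq_bot_iff_forall V).mpr hcon)
  have hMv := hco v (hVN hv) hv1
  have hNMv : N ⊓ centralizer ({v} : Set G) = V := by
    apply le_antisymm
    · intro g hg
      obtain ⟨hgN, hgv⟩ := Subgroup.mem_inf.mp hg
      by_contra hgV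
      have hgC := hnc g hgN hgV
      have hfg := hff g hgN hgC
      have : v ∈ V ⊓ centralizer ({g} : Set G) :=
        Subgroup.mem_inf.mpr ⟨hv, mem_cs.mpr (mem_cs.mp hgv).symm⟩
      rw [hfg, Subgroup.mem_bot] at this
      exact hv1 this
    · intro g hg
      exact Subgroup.mem_inf.mpr ⟨hVN hg, mem_cs.mpr (hab v hv g hg)⟩
  have hLN : V ⊔ zpowers a ≤ N := sup_le hVN (hzQ.trans hQN)
  have hb3 := b3 N (centralizer ({v} : Set G)) (V ⊔ zpowers a) hMv hLN
    (by rw [hNMv]; exact le_sup_left)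
    (by rw [Subgroup.normalizer_eq_top_iff.mpr hLn]; exact le_top)
  have hLeqN : V ⊔ zpowers a = N := by
    rcases hb3 with h | h
    · exfalso
      rw [hNMv] at h
      apply haV
      rw [← h]
      exact (le_sup_right : zpowers a ≤ V ⊔ zpowers a) (Subgroup.mem_zpowers a)
    · exact h
  have hVz : V ⊓ zpowers a = ⊥ := by
    rw [eq_bot_iff, ← hVQ]
    exact inf_le_inf_left V hzQ
  have hcardL : Nat.card ↥(V ⊔ zpowers a) = Nat.card V * Nat.card (zpowers a) :=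
    card_of_decomp V (zpowers a) (V ⊔ zpowers a) le_sup_left le_sup_right hVz hLdec
  rw [Nat.card_zpowers, hoa] at hcardL
  have hfin : Nat.card (Cn N y) = q := by
    have h1 : Nat.card V * Nat.card (Cn N y) = Nat.card V * q := by
      rw [← hcardN, ← hcardL, hLeqN]
    exact Nat.eq_of_mul_eq_mul_left Nat.card_pos h1
  rw [hfin]; exact hqp

end Cfsg.Agent.Lib.Helper57.CMA4
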