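import Mathlib
import Cfsg.Agent.Lib.Helper17.CMStmt

/-! S3905 piece A5 (helper57): `V` is elementary abelian and is exactly the Frobenius kernel. -/

set_option autoImplicit false

namespace Cfsg.Agent.Lib.Helper57.CMA5

open Subgroup Cfsg.Agent.Lib.Helper17.CMStmt

universe u

theorem mem_cs {G : Type*} [Group G] {x g : G} :
    g ∈ centralizer ({x} : Set G) ↔ x * g = g * x := by
  rw [mem_centralizer_iff]
  simp

theorem mem_Cn {G : Type u} [Group G] {N : Subgroup G} {y a : G} :
    a ∈ Cn N y ↔ a ∈ N ∧ a ∈ centralizer ({y} : Set G) := Subgroup.mem_inf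

theorem main : A5.{u} := by
  intro G _ _ N V hNn hR hmin hab hff hCV
  obtain ⟨hZ, hNne, hco⟩ := hR
  obtain ⟨hVn, hVN, hVne, hVmin⟩ := hmin
  have hnc : ∀ b ∈ N, b ∉ V → b ∉ centralizer (V : Set G) := by
    intro b hbN hbV hbC
    apply hbV; rw [← hCV]; exact Subgroup.mem_inf.mpr ⟨hbN, hbC⟩
  constructor
  · have hcard : Nat.card V ≠ 1 := fun h => hVne (Subgroup.card_eq_one.mp h)
    obtain ⟨p, hp, hpd⟩ := Nat.exists_prime_and_dvd hcard
    have hfact : Fact p.Prime := ⟨hp⟩
    obtain ⟨x, hx⟩ := exists_prime_orderOf_dvd_card' p hpd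
    refine ⟨p, hp, ?_⟩
    let W : Subgroup G :=
      { carrier := {v | v ∈ V ∧ v ^ p = 1}
        mul_mem' := by
          rintro a b ⟨ha, hap⟩ ⟨hb, hbp⟩
          refine ⟨V.mul_mem ha hb, ?_⟩
          rw [(show Commute a b from hab a ha b hb).mul_pow, hap, hbp, one_mul]
        one_mem' := ⟨V.one_mem, one_pow p⟩
        inv_mem' := by
          rintro a ⟨ha, hap⟩
          exact ⟨V.inv_mem ha, by rw [inv_pow, hap, inv_one]⟩ }
    have hWn : W.Normal := by
      constructor
      rintro n ⟨hn, hnp⟩ g
      refine ⟨hVn.conj_mem n hn g, ?_⟩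
      rw [conj_pow, hnp]
      group
    have hWV : W ≤ V := fun v hv => hv.1
    have hWne : W ≠ ⊥ := by
      intro h
      have hxp : x ^ p = 1 := by rw [← hx]; exact pow_orderOf_eq_one x
      have hxp' : (x : G) ^ p = 1 := by
        rw [← Subgroup.coe_pow, hxp]; rfl
      have hxW : (x : G) ∈ W := ⟨x.2, hxp'⟩
      rw [h, Subgroup.mem_bot] at hxW
      have hx1 : x = 1 := Subtype.ext hxW
      rw [hx1, orderOf_one] at hx
      exact hp.one_lt.ne hx
    have hWeq := hVmin W hWn hWV hWne
    intro v hv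
    have hvW : v ∈ W := hWeq ▸ hv
    exact hvW.2
  · intro y hyN hyV hFr x hxN
    have hyC := hnc y hyN hyV
    have hVM : V ⊓ centralizer ({y} : Set G) = ⊥ := hff y hyN hyC
    obtain ⟨hdec, hfrob⟩ := hFr
    constructor
    · intro hxV
      by_cases hx1 : x = 1
      · left; exact hx1
      · right
        intro g hgN hgQ
        have h1 : g⁻¹ * x * g ∈ V := by
          have := hVn.conj_mem x hxV g⁻¹
          rwa [inv_inv] at this
        have hmem : g⁻¹ * x * g ∈ V ⊓ centralizer ({y} : Set G) :=
          Subgroup.mem_inf.mpr ⟨h1, (mem_Cn.mp hgQ).2⟩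
        rw [hVM, Subgroup.mem_bot] at hmem
        apply hx1
        calc x = g * (g⁻¹ * x * g) * g⁻¹ := by group
          _ = 1 := by rw [hmem]; group
    · rintro (rfl | hx)
      · exact V.one_mem
      · by_contra hxV
        obtain ⟨v, hv, a, ha, rfl⟩ := hdec x hxN
        have ha' := mem_Cn.mp ha
        have ha1 : a ≠ 1 := by
          rintro rfl
          apply hxV; simpa using hv
        have haV : a ∉ V := by
          intro h
          have : a ∈ V ⊓ centralizer ({y} : Set G) := Subgroup.mem_inf.mpr ⟨h, ha'.2⟩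
          rw [hVM, Subgroup.mem_bot] at this
          exact ha1 this
        have haC := hnc a ha'.1 haV
        have hVMa : V ⊓ centralizer ({a} : Set G) = ⊥ := hff a ha'.1 haC
        let f : V → V := fun u => ⟨(u : G) * a * (u : G)⁻¹ * a⁻¹, by
          have h1 := hVn.conj_mem (u : G)⁻¹ (V.inv_mem u.2) a
          have : (u : G) * a * (u : G)⁻¹ * a⁻¹ = (u : G) * (a * (u : G)⁻¹ * a⁻¹) := by group
          rw [this]; exact V.mul_mem u.2 h1⟩
        have hinj : Function.Injective f := by
          rintro ⟨u, hu⟩ ⟨u', hu'⟩ h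
          have h' : u * a * u⁻¹ * a⁻¹ = u' * a * u'⁻¹ * a⁻¹ := congrArg Subtype.val h
          have hmem : u'⁻¹ * u ∈ V ⊓ centralizer ({a} : Set G) := by
            refine Subgroup.mem_inf.mpr ⟨V.mul_mem (V.inv_mem hu') hu, mem_cs.mpr ?_⟩
            have h2 : u * a * u⁻¹ = u' * a * u'⁻¹ := by
              have := congrArg (fun z => z * a) h'
              simpa using this
            calc a * (u'⁻¹ * u) = u'⁻¹ * (u' * a * u'⁻¹) * u := by group
              _ = u'⁻¹ * (u * a * u⁻¹) * u := by rw [h2]
              _ = (u'⁻¹ * u) * a := by group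
          rw [hVMa, Subgroup.mem_bot] at hmem
          have huu : u = u' := by
            have := congrArg (fun z => u' * z) hmem
            simpa using this
          exact Subtype.ext huu
        have hsurj : Function.Surjective f := Finite.injective_iff_surjective.mp hinj
        obtain ⟨⟨u, hu⟩, hfu⟩ := hsurj ⟨v, hv⟩
        have hfu' : u * a * u⁻¹ * a⁻¹ = v := congrArg Subtype.val hfu
        apply hx u (hVN hu)
        have : u⁻¹ * (v * a) * u = a := by
          rw [← hfu']; group
        rw [this]; exact ha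

end Cfsg.Agent.Lib.Helper57.CMA5
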