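import Mathlib
import Cfsg.Agent.Lib.Helper17.CMStmt

/-! S3905 piece MINNORMAL (helper57): a non-trivial normal subgroup of a finite group contains a
minimal normal subgroup. -/

set_option autoImplicit false

namespace Cfsg.Agent.Lib.Helper57.CMMINNORMAL

open Subgroup Cfsg.Agent.Lib.Helper17.CMStmt

universe u

theorem main : MinNormal.{u} := by
  intro G _ _ N hN hne
  have hfin : {W : Subgroup G | W.Normal ∧ W ≤ N ∧ W ≠ ⊥}.Finite := Set.toFinite _
  obtain ⟨V, hV⟩ := hfin.exists_minimal ⟨N, hN, le_refl _, hne⟩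
  obtain ⟨⟨hVn, hVN, hVne⟩, hmin⟩ := hV
  refine ⟨V, hVn, hVN, hVne, fun W hWn hWV hWne => ?_⟩
  exact le_antisymm hWV (hmin ⟨hWn, hWV.trans hVN, hWne⟩ hWV)

end Cfsg.Agent.Lib.Helper57.CMMINNORMAL
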