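import Cfsg.Agent.Lib.Helper57.AutOrbBound

/-!
# Groups with many commuting pairs (helper57)

If a finite non-abelian group `G` has more than `|G|^2 / p` commuting pairs, `p` the least
prime divisor of `|G|`, then every commutator is central and all commutators lie in one
cyclic central subgroup of order `p`.
-/

set_option autoImplicit false

namespace Cfsg.Agent.Helper57.C2S

open Subgroup Cfsg.Agent.Helper57.AOB
open scoped commutatorElement

variable {G : Type*} [Group G]

/-! ### Commutator homomorphisms in class two -/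

theorem mem_centralizer_singleton {g x : G} :
    x ∈ centralizer ({g} : Set G) ↔ ⁅x, g⁆ = 1 := by
  rw [commutatorElement_eq_one_iff_mul_comm, Subgroup.mem_centralizer_iff]
  constructor
  · intro h
    exact (h g rfl).symm
  · intro h y hy
    rw [Set.mem_singleton_iff] at hy
    rw [hy]
    exact h.symm

theorem self_mem_centralizer (g : G) : g ∈ centralizer ({g} : Set G) :=
  mem_centralizer_singleton.mpr (commutatorElement_self g)

theorem comm_eq_one_of_mem_center_left {ζ : G} (hζ : ζ ∈ center G) (g : G) : ⁅ζ, g⁆ = 1 := by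
  rw [commutatorElement_eq_one_iff_mul_comm]
  exact ((Subgroup.mem_center_iff.mp hζ) g).symm

theorem comm_eq_one_of_mem_center_right {ζ : G} (hζ : ζ ∈ center G) (g : G) : ⁅g, ζ⁆ = 1 := by
  rw [commutatorElement_eq_one_iff_mul_comm]
  exact (Subgroup.mem_center_iff.mp hζ) g

theorem comm_mul_left (hZ : ∀ a b : G, ⁅a, b⁆ ∈ center G) (a b g : G) :
    ⁅a * b, g⁆ = ⁅a, g⁆ * ⁅b, g⁆ := by
  have hd := Subgroup.mem_center_iff.mp (hZ b g)
  have h1 : ⁅a * b, g⁆ = a * ⁅b, g⁆ * a⁻¹ * ⁅a, g⁆ := by
    simp only [commutatorElement_def]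
    group
  rw [h1, hd a, mul_inv_cancel_right]
  exact (hd ⁅a, g⁆).symm

theorem comm_mul_right (hZ : ∀ a b : G, ⁅a, b⁆ ∈ center G) (g a b : G) :
    ⁅g, a * b⁆ = ⁅g, a⁆ * ⁅g, b⁆ := by
  rw [← commutatorElement_inv (a * b) g, comm_mul_left hZ, mul_inv_rev, commutatorElement_inv,
    commutatorElement_inv]
  exact Subgroup.mem_center_iff.mp (hZ g a) _

/-- `x ↦ ⁅x, g⁆` as a homomorphism, when all commutators are central. -/
def commHom (hZ : ∀ a b : G, ⁅a, b⁆ ∈ center G) (g : G) : G →* G where
  toFun x := ⁅x, g⁆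
  map_one' := commutatorElement_one_left g
  map_mul' a b := comm_mul_left hZ a b g

@[simp] theorem commHom_apply (hZ : ∀ a b : G, ⁅a, b⁆ ∈ center G) (g x : G) :
    commHom hZ g x = ⁅x, g⁆ := rfl

theorem commHom_ker (hZ : ∀ a b : G, ⁅a, b⁆ ∈ center G) (g : G) :
    (commHom hZ g).ker = centralizer ({g} : Set G) := by
  ext x
  rw [MonoidHom.mem_ker, commHom_apply, mem_centralizer_singleton]

theorem comm_zpow_left (hZ : ∀ a b : G, ⁅a, b⁆ ∈ center G) (x g : G) (m : ℤ) :
    ⁅x ^ m, g⁆ = ⁅x, g⁆ ^ m := by
  have := map_zpow (commHom hZ g) x m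
  simpa only [commHom_apply] using this

theorem comm_pow_left (hZ : ∀ a b : G, ⁅a, b⁆ ∈ center G) (x g : G) (m : ℕ) :
    ⁅x ^ m, g⁆ = ⁅x, g⁆ ^ m := by
  have := map_pow (commHom hZ g) x m
  simpa only [commHom_apply] using this

theorem comm_mem_zpowers [Finite G] (hZ : ∀ a b : G, ⁅a, b⁆ ∈ center G) {p : ℕ}
    (hp : p.Prime) {w u : G} (hidx : (centralizer ({w} : Set G)).index = p)
    (hne : ⁅u, w⁆ ≠ 1) (g : G) : ⁅g, w⁆ ∈ zpowers ⁅u, w⁆ := by
  haveI : Fact p.Prime := ⟨hp⟩
  have hcard : Nat.card (commHom hZ w).range = p := by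
    rw [← Subgroup.index_ker, commHom_ker, hidx]
  have hne' : (⟨⁅u, w⁆, ⟨u, rfl⟩⟩ : (commHom hZ w).range) ≠ 1 := by
    intro h
    exact hne (congrArg Subtype.val h)
  have hmem := mem_zpowers_of_prime_card hcard hne'
    (g' := (⟨⁅g, w⁆, ⟨g, rfl⟩⟩ : (commHom hZ w).range))
  obtain ⟨k, hk⟩ := Subgroup.mem_zpowers_iff.mp hmem
  refine Subgroup.mem_zpowers_iff.mpr ⟨k, ?_⟩
  have := congrArg Subtype.val hk
  simpa using this

theorem orderOf_comm [Finite G] (hZ : ∀ a b : G, ⁅a, b⁆ ∈ center G) {p : ℕ}
    (hp : p.Prime) {w u : G} (hidx : (centralizer ({w} : Set G)).index = p)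
    (hne : ⁅u, w⁆ ≠ 1) : orderOf ⁅u, w⁆ = p := by
  haveI : Fact p.Prime := ⟨hp⟩
  have hcard : Nat.card (commHom hZ w).range = p := by
    rw [← Subgroup.index_ker, commHom_ker, hidx]
  have h1 : (⟨⁅u, w⁆, ⟨u, rfl⟩⟩ : (commHom hZ w).range) ^ p = 1 := by
    rw [← hcard]
    exact pow_card_eq_one'
  have h2 : ⁅u, w⁆ ^ p = 1 := by
    have := congrArg Subtype.val h1
    simpa using this
  exact orderOf_eq_prime h2 hne

/-! ### Centralizer sizes -/

theorem centralizer_ne_top {g : G} (hg : g ∉ center G) : centralizer ({g} : Set G) ≠ ⊤ := by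
  intro h
  rw [Subgroup.centralizer_eq_top_iff_subset] at h
  exact hg (h (Set.mem_singleton g))

theorem card_centralizer_of_mem {g : G} (hg : g ∈ center G) :
    Nat.card (centralizer ({g} : Set G)) = Nat.card G := by
  have : centralizer ({g} : Set G) = ⊤ :=
    Subgroup.centralizer_eq_top_iff_subset.mpr (by
      intro y hy
      rw [Set.mem_singleton_iff] at hy
      rw [hy]
      exact hg)
  rw [this, Subgroup.card_top]

theorem card_ne_one_of_not_comm (hna : ¬ IsMulCommutative G) : Nat.card G ≠ 1 := by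
  intro h
  apply hna
  have := (Nat.card_eq_one_iff_unique.mp h).1
  exact isMulCommutative_iff.mpr (fun a b => Subsingleton.elim _ _)

variable [Finite G]

theorem succ_mul_card_centralizer_le {g : G} (hg : g ∉ center G)
    (hidx : (centralizer ({g} : Set G)).index ≠ (Nat.card G).minFac) :
    ((Nat.card G).minFac + 1) * Nat.card (centralizer ({g} : Set G)) ≤ Nat.card G := by
  have h1 := Subgroup.card_mul_index (centralizer ({g} : Set G))
  have h2 : (centralizer ({g} : Set G)).index ≠ 1 := by
    rw [Ne, Subgroup.index_eq_one]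
    exact centralizer_ne_top hg
  have h3 : (centralizer ({g} : Set G)).index ≠ 0 := Subgroup.index_ne_zero_of_finite
  have h4 := Nat.minFac_le_of_dvd (by omega)
    (Subgroup.index_dvd_card (centralizer ({g} : Set G)))
  have h5 : (Nat.card G).minFac + 1 ≤ (centralizer ({g} : Set G)).index := by omega
  calc ((Nat.card G).minFac + 1) * Nat.card (centralizer ({g} : Set G))
      ≤ (centralizer ({g} : Set G)).index * Nat.card (centralizer ({g} : Set G)) :=
        Nat.mul_le_mul_right _ h5
    _ = Nat.card G := by rw [mul_comm]; exact h1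

theorem card_le_add_of_compl_subset (K : Subgroup G) (T : Finset G)
    (h : ∀ g, g ∉ K → g ∈ T) : Nat.card G ≤ Nat.card K + T.card := by
  classical
  haveI : Fintype G := Fintype.ofFinite G
  have h1 : Nat.card K = (Finset.univ.filter (fun g => g ∈ K)).card := by
    rw [Nat.card_eq_fintype_card, Fintype.card_subtype]
  have h2 := Finset.card_filter_add_card_filter_not (s := (Finset.univ : Finset G))
    (fun g => g ∈ K)
  have h3 : (Finset.univ.filter (fun g => ¬ g ∈ K)).card ≤ T.card :=
    Finset.card_le_card (fun g hg => h g (by simpa using hg))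
  rw [Finset.card_univ, ← Nat.card_eq_fintype_card] at h2
  omega

theorem card_le_of_translate (H : Subgroup G) (x : G) (T : Finset G)
    (h : ∀ g ∈ H, x * g ∈ T) : Nat.card H ≤ T.card := by
  classical
  haveI : Fintype H := Fintype.ofFinite H
  rw [Nat.card_eq_fintype_card, ← Finset.card_univ]
  refine Finset.card_le_card_of_injOn (fun g : H => x * (g : G))
    (fun g _ => Finset.mem_coe.mpr (h g g.2)) ?_
  intro a _ b _ hab
  exact Subtype.ext (mul_left_cancel hab)

/-- The exceptional set `T` of non-central elements whose centralizer does not have index `p`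
is small when there are many commuting pairs. -/
theorem T_bound (T : Finset G)
    (hT : ∀ g, g ∈ T ↔ g ∉ center G ∧
      (centralizer ({g} : Set G)).index ≠ (Nat.card G).minFac)
    (hbad : Nat.card G ^ 2 <
      (Nat.card G).minFac * Nat.card { p : G × G // Commute p.1 p.2 }) :
    T.card + Nat.card (center G) < Nat.card (center G) * (Nat.card G).minFac ^ 2 := by
  classical
  haveI : Fintype G := Fintype.ofFinite G
  rw [card_comm_eq_sum] at hbad
  have hNpos : 0 < Nat.card G := Nat.card_pos
  have hpt : ∀ g : G,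
      (Nat.card G).minFac * ((Nat.card G).minFac + 1) * Nat.card (centralizer ({g} : Set G))
        + (if g ∈ T then Nat.card G else 0) + (if g ∈ center G then Nat.card G else 0)
      ≤ ((Nat.card G).minFac + 1) * Nat.card G
        + (if g ∈ center G then (Nat.card G).minFac ^ 2 * Nat.card G else 0) := by
    intro g
    by_cases hg : g ∈ center G
    · have hgT : g ∉ T := fun h => ((hT g).mp h).1 hg
      rw [if_neg hgT, if_pos hg, if_pos hg, card_centralizer_of_mem hg]
      nlinarith
    · rw [if_neg hg, if_neg hg]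
      by_cases hi : (centralizer ({g} : Set G)).index = (Nat.card G).minFac
      · have hgT : g ∉ T := fun h => ((hT g).mp h).2 hi
        rw [if_neg hgT]
        have h1 := Subgroup.card_mul_index (centralizer ({g} : Set G))
        rw [hi] at h1
        nlinarith
      · have hgT : g ∈ T := (hT g).mpr ⟨hg, hi⟩
        rw [if_pos hgT]
        have := succ_mul_card_centralizer_le hg hi
        nlinarith
  have hsum := Finset.sum_le_sum (fun g (_ : g ∈ (Finset.univ : Finset G)) => hpt g)
  simp only [Finset.sum_add_distrib] at hsum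
  rw [← Finset.mul_sum] at hsum
  have e1 : ∑ g : G, (if g ∈ T then Nat.card G else 0) = T.card * Nat.card G := by
    rw [Finset.sum_ite_mem, Finset.univ_inter, Finset.sum_const, smul_eq_mul]
  have e2 : ∀ K : ℕ, ∑ g : G, (if g ∈ center G then K else 0) = Nat.card (center G) * K := by
    intro K
    rw [Finset.sum_ite, Finset.sum_const_zero, add_zero, Finset.sum_const, smul_eq_mul,
      Nat.card_eq_fintype_card, Fintype.card_subtype]
  have e3 : ∑ _g : G, ((Nat.card G).minFac + 1) * Nat.card G =
      Nat.card G * (((Nat.card G).minFac + 1) * Nat.card G) := by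
    rw [Finset.sum_const, smul_eq_mul, Finset.card_univ, Nat.card_eq_fintype_card]
  rw [e1, e2, e2, e3] at hsum
  generalize (∑ g : G, Nat.card (centralizer ({g} : Set G))) = S at *
  generalize (Nat.card G).minFac = p at *
  generalize Nat.card G = N at *
  generalize Nat.card (center G) = z at *
  have h1 : (p + 1) * N ^ 2 < (p + 1) * (p * S) := Nat.mul_lt_mul_of_pos_left hbad (by omega)
  have h2 : (T.card + z) * N < (z * p ^ 2) * N := by nlinarith
  exact Nat.lt_of_mul_lt_mul_right h2

theorem comm_mem_commutator (a b : G) : ⁅a, b⁆ ∈ commutator G := by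
  rw [commutator_eq_closure]
  exact Subgroup.subset_closure (commutator_mem_commutatorSet a b)

/-- Stage 1: every commutator is central. -/
theorem comm_central (hna : ¬ IsMulCommutative G) (T : Finset G)
    (hT : ∀ g, g ∈ T ↔ g ∉ center G ∧
      (centralizer ({g} : Set G)).index ≠ (Nat.card G).minFac)
    (hTb : T.card + Nat.card (center G) < Nat.card (center G) * (Nat.card G).minFac ^ 2) :
    ∀ a b : G, ⁅a, b⁆ ∈ center G := by
  have hN1 := card_ne_one_of_not_comm hna
  have hpp : (Nat.card G).minFac.Prime := Nat.minFac_prime hN1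
  by_contra hno
  obtain ⟨a, ha⟩ := not_forall.mp hno
  obtain ⟨b, hd⟩ := not_forall.mp ha
  have hKtop := centralizer_ne_top hd
  have hsub : ∀ g, g ∉ centralizer ({⁅a, b⁆} : Set G) → g ∈ T := by
    intro g hg
    rw [hT]
    refine ⟨fun h => hg (Subgroup.center_le_centralizer _ h), fun hi => hg ?_⟩
    haveI : (centralizer ({g} : Set G)).Normal := Subgroup.normal_of_index_eq_minFac_card hi
    haveI : Fact (Nat.card G).minFac.Prime := ⟨hpp⟩
    haveI : IsCyclic (G ⧸ centralizer ({g} : Set G)) :=
      isCyclic_of_prime_card (p := (Nat.card G).minFac)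
        (by rw [← Subgroup.index_eq_card, hi])
    have hle := Subgroup.Normal.quotient_commutative_iff_commutator_le.mp
      (inferInstance : IsMulCommutative (G ⧸ centralizer ({g} : Set G)))
    have hmem : ⁅a, b⁆ ∈ centralizer ({g} : Set G) := hle (comm_mem_commutator a b)
    rw [mem_centralizer_singleton] at hmem ⊢
    rw [← commutatorElement_inv ⁅a, b⁆ g, hmem, inv_one]
  have h1 := card_le_add_of_compl_subset _ T hsub
  have h2 := minFac_mul_card_le_of_ne_top hKtop
  have h3 := Subgroup.card_mul_index (center G)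
  have hidx : (center G).index < (Nat.card G).minFac * ((Nat.card G).minFac + 1) := by
    have hzpos : 0 < Nat.card (center G) := Nat.card_pos
    have hp2 := hpp.two_le
    generalize (Nat.card G).minFac = p at *
    generalize Nat.card G = N at *
    generalize Nat.card (center G) = z at *
    generalize Nat.card (centralizer ({⁅a, b⁆} : Set G)) = k at *
    generalize (center G).index = n at *
    obtain ⟨q, rfl⟩ : ∃ q, p = q + 1 := ⟨p - 1, by omega⟩
    by_contra hge
    rw [not_lt] at hge
    have hA : q * N ≤ (q + 1) * T.card := by nlinarith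
    have hB : z * ((q + 1) * (q + 1 + 1)) ≤ N := by
      rw [← h3]
      exact Nat.mul_le_mul_left z hge
    have hC : (q + 1) * (q * (z * (q + 2))) ≤ (q + 1) * T.card := by nlinarith
    have hD := Nat.le_of_mul_le_mul_left hC (by omega)
    nlinarith
  have hsq := (sq_minFac_le (Nat.card_pos (α := G)).ne' (Subgroup.index_dvd_card _)
    (center_index_facts hna).1 (center_index_facts hna).2).2 hidx
  haveI : Fact (Nat.card G).minFac.Prime := ⟨hpp⟩
  have hcomm : IsMulCommutative (G ⧸ center G) :=
    IsPGroup.isMulCommutative_of_card_eq_prime_sq (p := (Nat.card G).minFac)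
      (by rw [← Subgroup.index_eq_card, hsq])
  have hle := Subgroup.Normal.quotient_commutative_iff_commutator_le.mp hcomm
  exact hd (hle (comm_mem_commutator a b))

/-- Stage 2: the exceptional set is empty. -/
theorem T_empty (hZ : ∀ a b : G, ⁅a, b⁆ ∈ center G) (hN1 : Nat.card G ≠ 1) (T : Finset G)
    (hT : ∀ g, g ∈ T ↔ g ∉ center G ∧
      (centralizer ({g} : Set G)).index ≠ (Nat.card G).minFac)
    (hTb : T.card + Nat.card (center G) < Nat.card (center G) * (Nat.card G).minFac ^ 2) :
    ∀ x, x ∉ T := by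
  intro x hx
  obtain ⟨hxZ, hxi⟩ := (hT x).mp hx
  have hpp : (Nat.card G).minFac.Prime := Nat.minFac_prime hN1
  have hzpos : 0 < Nat.card (center G) := Nat.card_pos
  suffices hsuff : (Nat.card G).minFac ^ 2 * Nat.card (center G) ≤ T.card by
    nlinarith
  have hzCx : (Nat.card G).minFac * Nat.card (center G) ≤
      Nat.card (centralizer ({x} : Set G)) := by
    refine minFac_mul_card_le_of_lt (lt_of_le_of_ne (Subgroup.center_le_centralizer _) ?_)
    intro heq
    apply hxZ
    rw [heq]
    exact self_mem_centralizer x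
  have hCx : ((Nat.card G).minFac + 1) * Nat.card (centralizer ({x} : Set G)) ≤ Nat.card G :=
    succ_mul_card_centralizer_le hxZ hxi
  by_cases hall : ∀ y, y ∉ centralizer ({x} : Set G) → y ∈ T
  · have h1 := card_le_add_of_compl_subset (centralizer ({x} : Set G)) T hall
    have h2 : ((Nat.card G).minFac + 1) * ((Nat.card G).minFac ^ 2 * Nat.card (center G)) ≤
        ((Nat.card G).minFac + 1) * T.card := by
      generalize (Nat.card G).minFac = p at *
      generalize Nat.card G = N at *
      generalize Nat.card (center G) = z at *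
      generalize Nat.card (centralizer ({x} : Set G)) = k at *
      have hA : p * N ≤ (p + 1) * T.card := by nlinarith
      have hB : (p + 1) * (p * z) ≤ N := le_trans (Nat.mul_le_mul_left _ hzCx) hCx
      nlinarith
    exact Nat.le_of_mul_le_mul_left h2 (by omega)
  · obtain ⟨y, hy⟩ := not_forall.mp hall
    obtain ⟨hyC, hyT⟩ := Classical.not_imp.mp hy
    have hxy : ⁅x, y⁆ ≠ 1 := by
      intro h
      apply hyC
      rw [mem_centralizer_singleton, ← commutatorElement_inv x y, h, inv_one]
    have hyZ : y ∉ center G := fun h => hyC (Subgroup.center_le_centralizer _ h)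
    have hyi : (centralizer ({y} : Set G)).index = (Nat.card G).minFac := by
      by_contra hne
      exact hyT ((hT y).mpr ⟨hyZ, hne⟩)
    have hF1 : ∀ g : G, ⁅g, y⁆ ∈ zpowers ⁅x, y⁆ := comm_mem_zpowers hZ hpp hyi hxy
    have hord : orderOf ⁅x, y⁆ = (Nat.card G).minFac := orderOf_comm hZ hpp hyi hxy
    have hex : ∃ y'' : G, ⁅y'', x⁆ ∉ zpowers ⁅x, y⁆ := by
      by_contra hno
      have hno' : ∀ g : G, ⁅g, x⁆ ∈ zpowers ⁅x, y⁆ := by
        intro g
        by_contra hg
        exact hno ⟨g, hg⟩
      have hle : (commHom hZ x).range ≤ zpowers ⁅x, y⁆ := by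
        rintro _ ⟨g, rfl⟩
        exact hno' g
      have h1 := Subgroup.card_le_of_le hle
      rw [Nat.card_zpowers, hord, ← Subgroup.index_ker, commHom_ker] at h1
      have h2 := Subgroup.card_mul_index (centralizer ({x} : Set G))
      have h3 : 0 < Nat.card (centralizer ({x} : Set G)) := Nat.card_pos
      nlinarith
    obtain ⟨y'', hy''⟩ := hex
    obtain ⟨m, hm⟩ := Subgroup.mem_zpowers_iff.mp (hF1 y'')
    have hy'y : ⁅y'' * x ^ (-m), y⁆ = 1 := by
      rw [comm_mul_left hZ, ← hm, comm_zpow_left hZ, zpow_neg, mul_inv_cancel]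
    have hy'x : ⁅y'' * x ^ (-m), x⁆ ∉ zpowers ⁅x, y⁆ := by
      rw [comm_mul_left hZ, comm_zpow_left hZ, commutatorElement_self, one_zpow, mul_one]
      exact hy''
    generalize y'' * x ^ (-m) = y' at hy'y hy'x
    have hHT : ∀ h ∈ centralizer ({y} : Set G) ⊓ centralizer ({y'} : Set G), x * h ∈ T := by
      intro h hh
      obtain ⟨hh1, hh2⟩ := Subgroup.mem_inf.mp hh
      rw [mem_centralizer_singleton] at hh1 hh2
      have hwy : ⁅x * h, y⁆ = ⁅x, y⁆ := by rw [comm_mul_left hZ, hh1, mul_one]
      have hwZ : x * h ∉ center G := by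
        intro hmem
        have := comm_eq_one_of_mem_center_left hmem y
        rw [hwy] at this
        exact hxy this
      rw [hT]
      refine ⟨hwZ, fun hwi => ?_⟩
      have e1 : ⁅y, x * h⁆ = ⁅x, y⁆⁻¹ := by rw [← commutatorElement_inv (x * h) y, hwy]
      have hne : ⁅y, x * h⁆ ≠ 1 := by
        rw [e1]
        exact inv_ne_one.mpr hxy
      have h1 := comm_mem_zpowers hZ hpp hwi hne y'
      have e2 : ⁅y', x * h⁆ = ⁅y', x⁆ := by
        rw [comm_mul_right hZ, ← commutatorElement_inv h y', hh2, inv_one, mul_one]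
      rw [e1, e2, Subgroup.zpowers_inv] at h1
      exact hy'x h1
    have h7 := card_le_of_translate _ x T hHT
    have hy'yC : y' ∈ centralizer ({y} : Set G) := mem_centralizer_singleton.mpr hy'y
    have hyy'C : y ∈ centralizer ({y'} : Set G) :=
      mem_centralizer_singleton.mpr (by rw [← commutatorElement_inv y' y, hy'y, inv_one])
    have hlt1 : center G < (zpowers ⁅x, y⁆).comap (commHom hZ x) ⊓
        (centralizer ({y} : Set G) ⊓ centralizer ({y'} : Set G)) := by
      refine lt_of_le_of_ne (le_inf ?_ (le_inf (Subgroup.center_le_centralizer _)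
        (Subgroup.center_le_centralizer _))) ?_
      · intro ζ hζ
        rw [Subgroup.mem_comap, commHom_apply, comm_eq_one_of_mem_center_left hζ]
        exact one_mem _
      · intro heq
        apply hyZ
        rw [heq]
        refine Subgroup.mem_inf.mpr ⟨?_, Subgroup.mem_inf.mpr ⟨self_mem_centralizer y, hyy'C⟩⟩
        rw [Subgroup.mem_comap, commHom_apply, ← commutatorElement_inv x y]
        exact inv_mem (Subgroup.mem_zpowers _)
    have hlt2 : (zpowers ⁅x, y⁆).comap (commHom hZ x) ⊓
        (centralizer ({y} : Set G) ⊓ centralizer ({y'} : Set G)) <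
        centralizer ({y} : Set G) ⊓ centralizer ({y'} : Set G) := by
      refine lt_of_le_of_ne inf_le_right ?_
      intro heq
      have hmem : y' ∈ (zpowers ⁅x, y⁆).comap (commHom hZ x) ⊓
          (centralizer ({y} : Set G) ⊓ centralizer ({y'} : Set G)) := by
        rw [heq]
        exact Subgroup.mem_inf.mpr ⟨hy'yC, self_mem_centralizer y'⟩
      exact hy'x (Subgroup.mem_inf.mp hmem).1
    have h8 := minFac_mul_card_le_of_lt hlt1
    have h9 := minFac_mul_card_le_of_lt hlt2
    calc (Nat.card G).minFac ^ 2 * Nat.card (center G)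
        = (Nat.card G).minFac * ((Nat.card G).minFac * Nat.card (center G)) := by ring
      _ ≤ (Nat.card G).minFac * _ := Nat.mul_le_mul_left _ h8
      _ ≤ _ := h9
      _ ≤ T.card := h7

/-- Stage 3: all commutators lie in one cyclic subgroup of order `p`. -/
theorem struct_of_T_empty (hna : ¬ IsMulCommutative G)
    (hZ : ∀ a b : G, ⁅a, b⁆ ∈ center G)
    (hall : ∀ g, g ∉ center G → (centralizer ({g} : Set G)).index = (Nat.card G).minFac) :
    ∃ c : G, c ∈ center G ∧ orderOf c = (Nat.card G).minFac ∧
      ∀ a b : G, ⁅a, b⁆ ∈ zpowers c := by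
  have hex : ∃ a b : G, ⁅a, b⁆ ≠ 1 := by
    by_contra hno
    apply hna
    refine isMulCommutative_iff.mpr (fun a b => ?_)
    rw [← commutatorElement_eq_one_iff_mul_comm]
    by_contra hab
    exact hno ⟨a, b, hab⟩
  obtain ⟨a, b, hab⟩ := hex
  have hN1 := card_ne_one_of_not_comm hna
  have hpp : (Nat.card G).minFac.Prime := Nat.minFac_prime hN1
  have hbZ : b ∉ center G := fun h => hab (comm_eq_one_of_mem_center_right h a)
  have haZ : a ∉ center G := fun h => hab (comm_eq_one_of_mem_center_left h b)
  have hba : ⁅b, a⁆ ≠ 1 := by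
    rw [← commutatorElement_inv a b]
    exact inv_ne_one.mpr hab
  have hFb : ∀ g : G, ⁅g, b⁆ ∈ zpowers ⁅a, b⁆ := comm_mem_zpowers hZ hpp (hall b hbZ) hab
  have hFa : ∀ g : G, ⁅g, a⁆ ∈ zpowers ⁅a, b⁆ := by
    intro g
    have := comm_mem_zpowers hZ hpp (hall a haZ) hba g
    rwa [← commutatorElement_inv a b, Subgroup.zpowers_inv] at this
  refine ⟨⁅a, b⁆, hZ a b, orderOf_comm hZ hpp (hall b hbZ) hab, ?_⟩
  have key : ∀ g h : G, ⁅a, h⁆ ≠ 1 → ⁅g, h⁆ ∈ zpowers ⁅a, b⁆ := by
    intro g h hah
    have hhZ : h ∉ center G := fun hh => hah (comm_eq_one_of_mem_center_right hh a)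
    have h1 := comm_mem_zpowers hZ hpp (hall h hhZ) hah g
    have h2 : ⁅a, h⁆ ∈ zpowers ⁅a, b⁆ := by
      rw [← commutatorElement_inv h a]
      exact inv_mem (hFa h)
    exact (Subgroup.zpowers_le.mpr h2) h1
  intro g h
  by_cases hah : ⁅a, h⁆ = 1
  · have h1 : ⁅a, h * b⁆ ≠ 1 := by
      rw [comm_mul_right hZ, hah, one_mul]
      exact hab
    have h2 := key g (h * b) h1
    rw [comm_mul_right hZ] at h2
    have h3 := mul_mem h2 (inv_mem (hFb g))
    rwa [mul_inv_cancel_right] at h3
  · exact key g h hah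

/-- The structure theorem in the bad case. -/
theorem class2_struct (hna : ¬ IsMulCommutative G)
    (hbad : Nat.card G ^ 2 <
      (Nat.card G).minFac * Nat.card { p : G × G // Commute p.1 p.2 }) :
    ∃ c : G, c ∈ center G ∧ orderOf c = (Nat.card G).minFac ∧
      ∀ a b : G, ⁅a, b⁆ ∈ zpowers c := by
  classical
  haveI : Fintype G := Fintype.ofFinite G
  obtain ⟨T, hT⟩ : ∃ T : Finset G, ∀ g, g ∈ T ↔ g ∉ center G ∧
      (centralizer ({g} : Set G)).index ≠ (Nat.card G).minFac :=
    ⟨Finset.univ.filter (fun g => g ∉ center G ∧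
      (centralizer ({g} : Set G)).index ≠ (Nat.card G).minFac), fun g => by simp⟩
  have hTb := T_bound T hT hbad
  have hZ := comm_central hna T hT hTb
  have hTe := T_empty hZ (card_ne_one_of_not_comm hna) T hT hTb
  refine struct_of_T_empty hna hZ (fun g hg => ?_)
  by_contra hne
  exact hTe g ((hT g).mpr ⟨hg, hne⟩)

end Cfsg.Agent.Helper57.C2S
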