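import Mathlib
import Cfsg.Agent.Lib.Helper40.GFStmt

set_option autoImplicit false

/-!
S5886, piece ALL1B (`k = 2`): one special transvection in `c.M` gives all special ones.
-/

universe u

open scoped Matrix

namespace Cfsg.Agent.Lib.Helper57.GFALL1B

open Cfsg.Agent.Lib.Helper40.GFStmt

section
variable {F L : Type u} [Field F] [Field L] [Algebra F L]

/-- `ψ_z x = x 0 * z 1 - x 1 * z 0` -/
def psi (z : V 2 L) : V 2 L →ₗ[L] L where
  toFun x := x 0 * z 1 - x 1 * z 0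
  map_add' x y := by
    simp only [Pi.add_apply]
    ring
  map_smul' a x := by
    simp only [Pi.smul_apply, smul_eq_mul, RingHom.id_apply]
    ring

theorem psi_apply (z x : V 2 L) : psi z x = x 0 * z 1 - x 1 * z 0 := rfl

theorem psi_self (z : V 2 L) : psi z z = 0 := by
  rw [psi_apply]
  ring

theorem psi_smul (a : L) (z : V 2 L) : psi (a • z) = a • psi z := by
  apply LinearMap.ext
  intro x
  simp only [psi_apply, Pi.smul_apply, smul_eq_mul, LinearMap.smul_apply]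
  ring

theorem psi_mulVec (A : Matrix (Fin 2) (Fin 2) L) (z x : V 2 L) :
    psi (A *ᵥ z) (A *ᵥ x) = A.det * psi z x := by
  simp only [psi_apply, Matrix.mulVec, dotProduct, Fin.sum_univ_two, Matrix.det_fin_two]
  ring

theorem exists_eq_smul_psi (z : V 2 L) (hz : z ≠ 0) (φ : V 2 L →ₗ[L] L) (hφ : φ z = 0) :
    ∃ a : L, φ = a • psi z := by
  have hx : ∀ x : V 2 L, φ x = x 0 * φ (Pi.single 0 1) + x 1 * φ (Pi.single 1 1) := by
    intro x
    have hxx : x = x 0 • (Pi.single 0 1 : V 2 L) + x 1 • (Pi.single 1 1 : V 2 L) := by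
      ext i
      fin_cases i <;> simp
    conv_lhs => rw [hxx]
    rw [map_add, map_smul, map_smul, smul_eq_mul, smul_eq_mul]
  have hz' := hx z
  rw [hφ] at hz'
  by_cases h1 : z 1 = 0
  · have h0 : z 0 ≠ 0 := by
      intro h0
      apply hz
      ext i
      fin_cases i <;> simp [h0, h1]
    have he0 : φ (Pi.single 0 1) = 0 := by
      rw [h1, zero_mul, add_zero] at hz'
      rcases mul_eq_zero.mp hz'.symm with h | h
      · exact absurd h h0
      · exact h
    refine ⟨-(φ (Pi.single 1 1)) / z 0, ?_⟩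
    apply LinearMap.ext
    intro x
    rw [hx x, he0, LinearMap.smul_apply, psi_apply, h1, smul_eq_mul]
    field_simp
    ring
  · have hφ1 : φ (Pi.single 1 1) = -(z 0 * φ (Pi.single 0 1)) / z 1 :=
      eq_div_of_mul_eq h1 (by linear_combination (-1 : L) * hz')
    refine ⟨φ (Pi.single 0 1) / z 1, ?_⟩
    apply LinearMap.ext
    intro x
    rw [hx x, hφ1, LinearMap.smul_apply, psi_apply, smul_eq_mul]
    field_simp
    ring

/-- `(z, φ)` is realised in `c.M` -/
def P (c : Ctx F L 2) (τ : L →ₗ[F] F) (z : V 2 L) (φ : V 2 L →ₗ[L] L) : Prop :=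
  ∃ e ∈ c.M, IsFtv τ e z φ

theorem P_zero (c : Ctx F L 2) (τ : L →ₗ[F] F) (z : V 2 L) : P c τ z 0 :=
  ⟨1, c.M.one_mem, fun x => by
    rw [LinearMap.zero_apply, map_zero, zero_smul, add_zero]
    rfl⟩

theorem P_zero_left (c : Ctx F L 2) (τ : L →ₗ[F] F) (φ : V 2 L →ₗ[L] L) : P c τ 0 φ :=
  ⟨1, c.M.one_mem, fun x => by
    rw [smul_zero, add_zero]
    rfl⟩

theorem phi_smulF (φ : V 2 L →ₗ[L] L) (z : V 2 L) (h : φ z = 0) (s : F) : φ (s • z) = 0 := by
  rw [smulF, map_smul, h, smul_zero]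

theorem P_add (c : Ctx F L 2) (τ : L →ₗ[F] F) (z : V 2 L) {φ φ' : V 2 L →ₗ[L] L}
    (hφ : φ z = 0) (h : P c τ z φ) (h' : P c τ z φ') : P c τ z (φ + φ') := by
  obtain ⟨e, he, hx⟩ := h
  obtain ⟨e', he', hx'⟩ := h'
  refine ⟨e * e', c.M.mul_mem he he', fun x => ?_⟩
  rw [LinearEquiv.mul_apply, hx', hx, map_add, phi_smulF φ z hφ, add_zero,
    LinearMap.add_apply, map_add, add_smul]
  abel

theorem P_neg (c : Ctx F L 2) (τ : L →ₗ[F] F) (z : V 2 L) {φ : V 2 L →ₗ[L] L}
    (hφ : φ z = 0) (h : P c τ z φ) : P c τ z (-φ) := by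
  obtain ⟨e, he, hx⟩ := h
  refine ⟨e⁻¹, c.M.inv_mem he, fun x => ?_⟩
  apply e.injective
  have h1 : e (e⁻¹ x) = x := by
    rw [← LinearEquiv.mul_apply, mul_inv_cancel]
    rfl
  rw [h1, hx, map_add, phi_smulF φ z hφ, add_zero, LinearMap.neg_apply, map_neg, neg_smul]
  abel

theorem P_conj (c : Ctx F L 2) (τ : L →ₗ[F] F) (h : V 2 L ≃ₗ[L] V 2 L)
    (hh : h.restrictScalars F ∈ c.M) (z : V 2 L) (φ φ' : V 2 L →ₗ[L] L)
    (hφ' : ∀ y, φ' (h y) = φ y) (hP : P c τ z φ) : P c τ (h z) φ' := by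
  obtain ⟨e, he, hx⟩ := hP
  refine ⟨h.restrictScalars F * e * (h.restrictScalars F)⁻¹,
    c.M.mul_mem (c.M.mul_mem hh he) (c.M.inv_mem hh), fun x => ?_⟩
  obtain ⟨y, rfl⟩ : ∃ y, x = h y := ⟨h.symm x, (h.apply_symm_apply x).symm⟩
  have hinv : (h.restrictScalars F)⁻¹ (h y) = y := by
    have h3 : (h.restrictScalars F)⁻¹ ((h.restrictScalars F) y) = y := by
      rw [← LinearEquiv.mul_apply, inv_mul_cancel]
      rfl
    exact h3
  rw [LinearEquiv.mul_apply, LinearEquiv.mul_apply, hinv, hx, hφ' y, map_add, map_smul]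
  rfl

theorem exists_sl (w : V 2 L) (hw : w ≠ 0) :
    ∃ A : Matrix.SpecialLinearGroup (Fin 2) L,
      (A : Matrix (Fin 2) (Fin 2) L) *ᵥ (Pi.single 0 1) = w := by
  by_cases h0 : w 0 = 0
  · have h1 : w 1 ≠ 0 := by
      intro h1
      apply hw
      ext i
      fin_cases i <;> simp [h0, h1]
    refine ⟨⟨!![0, -(w 1)⁻¹; w 1, 0], ?_⟩, ?_⟩
    · rw [Matrix.det_fin_two_of]
      field_simp
      ring
    · ext i
      fin_cases i <;> simp [Matrix.mulVec, dotProduct, Fin.sum_univ_two, h0]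
  · refine ⟨⟨!![w 0, 0; w 1, (w 0)⁻¹], ?_⟩, ?_⟩
    · rw [Matrix.det_fin_two_of]
      field_simp
      ring
    · ext i
      fin_cases i <;> simp [Matrix.mulVec, dotProduct, Fin.sum_univ_two]

theorem exists_sl_map (z₀ z : V 2 L) (h0 : z₀ ≠ 0) (hz : z ≠ 0) :
    ∃ A : Matrix.SpecialLinearGroup (Fin 2) L, (A : Matrix (Fin 2) (Fin 2) L) *ᵥ z₀ = z := by
  obtain ⟨A0, hA0⟩ := exists_sl z₀ h0
  obtain ⟨A1, hA1⟩ := exists_sl z hz
  refine ⟨A1 * A0⁻¹, ?_⟩
  have h3 : (↑(A0⁻¹) : Matrix (Fin 2) (Fin 2) L) *ᵥ z₀ = Pi.single 0 1 := by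
    rw [← hA0, Matrix.mulVec_mulVec, ← Matrix.SpecialLinearGroup.coe_mul, inv_mul_cancel,
      Matrix.SpecialLinearGroup.coe_one, Matrix.one_mulVec]
  rw [Matrix.SpecialLinearGroup.coe_mul, ← Matrix.mulVec_mulVec, h3, hA1]

theorem P_sl (c : Ctx F L 2) (τ : L →ₗ[F] F) (A : Matrix.SpecialLinearGroup (Fin 2) L)
    (a : L) (z : V 2 L) (hP : P c τ z (a • psi z)) :
    P c τ ((A : Matrix (Fin 2) (Fin 2) L) *ᵥ z)
      (a • psi ((A : Matrix (Fin 2) (Fin 2) L) *ᵥ z)) := by
  have hmem : (Matrix.SpecialLinearGroup.toLin' A).restrictScalars F ∈ c.M := by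
    apply c.hsub
    rw [Matrix.SpecialLinearGroup.toLin'_to_linearMap, LinearMap.det_toLin', A.det_coe, map_one]
  have h3 := P_conj c τ (Matrix.SpecialLinearGroup.toLin' A) hmem z (a • psi z)
    (a • psi ((A : Matrix (Fin 2) (Fin 2) L) *ᵥ z)) (fun y => by
      rw [LinearMap.smul_apply, LinearMap.smul_apply, Matrix.SpecialLinearGroup.toLin'_apply,
        Matrix.toLin'_apply, psi_mulVec, A.det_coe, one_mul]) hP
  exact h3

theorem exists_dil (c : Ctx F L 2) (d : L) (hd : d ≠ 0) (hn : Algebra.norm F d = 1) :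
    ∃ h : V 2 L ≃ₗ[L] V 2 L, h.restrictScalars F ∈ c.M ∧
      ∀ z y : V 2 L, psi (h z) (h y) = d * psi z y := by
  set φ₁ : V 2 L →ₗ[L] L := (d - 1) • LinearMap.proj 0 with hφ₁
  set u : V 2 L := Pi.single 0 1 with hu
  have hu0 : u 0 = 1 := by simp [hu]
  have hu1 : u 1 = 0 := by simp [hu]
  have h1 : 1 + φ₁ u = d := by
    rw [hφ₁, LinearMap.smul_apply, LinearMap.proj_apply, hu0, smul_eq_mul]
    ring
  have hunit : IsUnit (1 + φ₁ u) := by
    rw [h1]
    exact hd.isUnit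
  refine ⟨LinearEquiv.dilatransvection hunit, mem_dil c φ₁ u hunit (by rw [h1]; exact hn), ?_⟩
  intro z y
  have hap : ∀ x : V 2 L, LinearEquiv.dilatransvection hunit x = x + ((d - 1) * x 0) • u := by
    intro x
    rw [LinearEquiv.dilatransvection.apply, hφ₁, LinearMap.smul_apply, LinearMap.proj_apply,
      smul_eq_mul]
  rw [hap, hap, psi_apply, psi_apply]
  simp only [Pi.add_apply, Pi.smul_apply, smul_eq_mul, hu0, hu1]
  ring

theorem P_dil (c : Ctx F L 2) (τ : L →ₗ[F] F) (d : L) (hd : d ≠ 0)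
    (hn : Algebra.norm F d = 1) (a : L)
    (hA : ∀ z, P c τ z (a • psi z)) : ∀ z, P c τ z ((d * a) • psi z) := by
  have hdi : d⁻¹ ≠ 0 := inv_ne_zero hd
  have hni : Algebra.norm F d⁻¹ = 1 := by
    have h5 : Algebra.norm F d⁻¹ * Algebra.norm F d = 1 := by
      rw [← map_mul, inv_mul_cancel₀ hd, map_one]
    rwa [hn, mul_one] at h5
  obtain ⟨h, hmem, hpsi⟩ := exists_dil c d⁻¹ hdi hni
  intro z
  have h3 := P_conj c τ h hmem (h.symm z) (a • psi (h.symm z)) ((d * a) • psi z) (fun y => by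
    rw [LinearMap.smul_apply, LinearMap.smul_apply, smul_eq_mul, smul_eq_mul]
    have h4 := hpsi (h.symm z) y
    rw [h.apply_symm_apply] at h4
    rw [h4, mul_mul_mul_comm, mul_inv_cancel₀ hd, one_mul]) (hA (h.symm z))
  rwa [h.apply_symm_apply] at h3

theorem P_sq (c : Ctx F L 2) (τ : L →ₗ[F] F) (s : F) (a : L)
    (hA : ∀ z, P c τ z (a • psi z)) :
    ∀ z, P c τ z ((algebraMap F L s * algebraMap F L s * a) • psi z) := by
  intro z
  obtain ⟨e, he, hx⟩ := hA (s • z)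
  refine ⟨e, he, fun x => ?_⟩
  have h1 : psi (s • z) = algebraMap F L s • psi z := by rw [smulF s z, psi_smul]
  have h2 : τ ((a • (algebraMap F L s • psi z)) x) * s
      = τ (((algebraMap F L s * algebraMap F L s * a) • psi z) x) := by
    rw [LinearMap.smul_apply, LinearMap.smul_apply, LinearMap.smul_apply, smul_eq_mul,
      smul_eq_mul, smul_eq_mul, mul_comm _ s, ← smul_eq_mul (a := s), ← map_smul,
      Algebra.smul_def]
    congr 1
    ring
  rw [hx x, h1, smul_smul, h2]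

theorem P_smulF [Finite F] (c : Ctx F L 2) (τ : L →ₗ[F] F) (s : F) (a : L)
    (hA : ∀ z, P c τ z (a • psi z)) : ∀ z, P c τ z ((algebraMap F L s * a) • psi z) := by
  by_cases h2 : ringChar F = 2
  · obtain ⟨t, ht⟩ := FiniteField.isSquare_of_char_two h2 s
    intro z
    have h3 := P_sq c τ t a hA z
    rwa [← map_mul, ← ht] at h3
  · have h2' : (2 : F) ≠ 0 := Ring.two_ne_zero h2
    intro z
    have hs0 : s = (s + 1) / 2 * ((s + 1) / 2) - (s - 1) / 2 * ((s - 1) / 2) := by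
      field_simp
      ring
    have hs : algebraMap F L s * a
        = algebraMap F L ((s + 1) / 2) * algebraMap F L ((s + 1) / 2) * a
          + -(algebraMap F L ((s - 1) / 2) * algebraMap F L ((s - 1) / 2) * a) := by
      conv_lhs => rw [hs0]
      rw [map_sub, map_mul, map_mul, sub_mul, sub_eq_add_neg]
    rw [hs, add_smul, neg_smul]
    have hz0 : ∀ b : L, (b • psi z) z = 0 := fun b => by
      rw [LinearMap.smul_apply, psi_self, smul_zero]
    exact P_add c τ z (hz0 _) (P_sq c τ _ a hA z) (P_neg c τ z (hz0 _) (P_sq c τ _ a hA z))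

end

theorem main (h : SpanNorm.{u}) : All1B.{u} := by
  intro F L _ _ _ _ c hr τ hsp z φ hφz
  have : Finite F := Finite.of_injective (algebraMap F L) (algebraMap F L).injective
  obtain ⟨e₀, he₀, z₀, φ₀, hz₀, hφ₀, hφz₀, hftv⟩ := hsp
  obtain ⟨a₀, ha₀⟩ := exists_eq_smul_psi z₀ hz₀ φ₀ hφz₀
  have ha₀0 : a₀ ≠ 0 := by
    rintro rfl
    apply hφ₀
    rw [ha₀, zero_smul]
  have hA0 : ∀ w, P c τ w (a₀ • psi w) := by
    intro w
    by_cases hw : w = 0
    · subst hw
      exact P_zero_left c τ _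
    · obtain ⟨A, hA⟩ := exists_sl_map z₀ w hz₀ hw
      have h3 := P_sl c τ A a₀ z₀ ⟨e₀, he₀, by rw [← ha₀]; exact hftv⟩
      rwa [hA] at h3
  have hspan := h F L hr
  have key : ∀ t : L, ∀ w, P c τ w ((t * a₀) • psi w) := by
    intro t
    have ht : t ∈ Submodule.span F {d : L | Algebra.norm F d = 1} := by
      rw [hspan]
      trivial
    induction ht using Submodule.span_induction with
    | mem d hd =>
      have hd' : Algebra.norm F d = 1 := hd
      have hd0 : d ≠ 0 := by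
        rintro rfl
        rw [Algebra.norm_zero] at hd'
        exact zero_ne_one hd'
      exact P_dil c τ d hd0 hd' a₀ hA0
    | zero =>
      intro w
      rw [zero_mul, zero_smul]
      exact P_zero c τ w
    | add x y _ _ hx hy =>
      intro w
      rw [add_mul, add_smul]
      exact P_add c τ w (by rw [LinearMap.smul_apply, psi_self, smul_zero]) (hx w) (hy w)
    | smul s x _ hx =>
      intro w
      have h3 := P_smulF c τ s (x * a₀) hx w
      rwa [← mul_assoc, ← Algebra.smul_def] at h3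
  by_cases hz : z = 0
  · subst hz
    exact P_zero_left c τ φ
  · obtain ⟨a, ha⟩ := exists_eq_smul_psi z hz φ hφz
    have h3 := key (a * a₀⁻¹) z
    rw [inv_mul_cancel_right₀ ha₀0] at h3
    rw [ha]
    exact h3

end Cfsg.Agent.Lib.Helper57.GFALL1B
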