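import Mathlib
import Cfsg.Prelude.Def_BaumannBlocks
import Cfsg.Agent.Lib.Helper50.CD
import Cfsg.Agent.Lib.Helper50.CL
import Cfsg.Agent.Lib.Helper50.CL2
import Cfsg.Agent.Lib.Helper50.CL3

set_option autoImplicit false

/-!
Glauberman's replacement for minimal centrally large subgroups: for a minimal centrally large
`Q` with centre `Z` and an abelian subgroup `A` of largest order, the subgroup
`(W ⊓ C(W)) ⊔ ⁅Z, A⁆` (with `W` the join of the `A`-conjugates of `Z`) is again the centre of a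
minimal centrally large subgroup.
-/

namespace Cfsg.Agent.Helper57.GR

open Subgroup
open scoped Pointwise commutatorElement
open Cfsg.Agent.Lib.Helper50.CD Cfsg.Agent.Lib.Helper50.CL Cfsg.Agent.Lib.Helper50.CL2
  Cfsg.Agent.Lib.Helper50.CL3

variable {G : Type*} [Group G]

/-- If `H` normalizes `K` elementwise then `H ⊔ K = H * K` as sets. -/
theorem coe_sup_of_normalizes (H K : Subgroup G)
    (h : ∀ x ∈ H, ∀ k ∈ K, x * k * x⁻¹ ∈ K) :
    ((H ⊔ K : Subgroup G) : Set G) = (H : Set G) * (K : Set G) := by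
  apply Set.Subset.antisymm _ (mul_subset_sup' H K)
  let S : Subgroup G :=
    { carrier := (H : Set G) * (K : Set G)
      mul_mem' := by
        rintro _ _ ⟨h₁, hh₁, k₁, hk₁, rfl⟩ ⟨h₂, hh₂, k₂, hk₂, rfl⟩
        refine ⟨h₁ * h₂, mul_mem hh₁ hh₂, h₂⁻¹ * k₁ * h₂ * k₂, ?_, ?_⟩
        · have := h h₂⁻¹ (inv_mem hh₂) k₁ hk₁
          rw [inv_inv] at this
          exact mul_mem this hk₂
        · show h₁ * h₂ * (h₂⁻¹ * k₁ * h₂ * k₂) = h₁ * k₁ * (h₂ * k₂)
          group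
      one_mem' := ⟨1, one_mem _, 1, one_mem _, by simp⟩
      inv_mem' := by
        rintro _ ⟨h₁, hh₁, k₁, hk₁, rfl⟩
        refine ⟨h₁⁻¹, inv_mem hh₁, h₁ * k₁⁻¹ * h₁⁻¹, h h₁ hh₁ _ (inv_mem hk₁), ?_⟩
        show h₁⁻¹ * (h₁ * k₁⁻¹ * h₁⁻¹) = (h₁ * k₁)⁻¹
        group }
  have hS : H ⊔ K ≤ S := sup_le (fun x hx => ⟨x, hx, 1, one_mem _, by simp⟩)
    (fun x hx => ⟨1, one_mem _, x, hx, by simp⟩)
  exact hS

/-- Commuting subgroups: `H ⊔ K = H * K` as sets. -/
theorem coe_sup_of_le_centralizer (H K : Subgroup G) (h : H ≤ centralizer (K : Set G)) :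
    ((H ⊔ K : Subgroup G) : Set G) = (H : Set G) * (K : Set G) := by
  apply coe_sup_of_normalizes
  intro x hx k hk
  have := Subgroup.mem_centralizer_iff.mp (h hx) k hk
  have e : x * k * x⁻¹ = k := by rw [← this]; group
  rw [e]; exact hk

/-- Itô: if `H`, `K` are abelian and `H ⊔ K = H * K`, then `⁅H, K⁆` is abelian. -/
theorem ito_comm (H K : Subgroup G) (hH : ∀ x ∈ H, ∀ y ∈ H, x * y = y * x)
    (hK : ∀ x ∈ K, ∀ y ∈ K, x * y = y * x)
    (hset : ((H ⊔ K : Subgroup G) : Set G) = (H : Set G) * (K : Set G)) :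
    ⁅H, K⁆ ≤ centralizer ((⁅H, K⁆ : Subgroup G) : Set G) := by
  -- conjugation by `a₁ * b₁` and by `b₁ * a₁` agree on commutators
  have conj_eq : ∀ a ∈ H, ∀ b ∈ K, ∀ a₁ ∈ H, ∀ b₁ ∈ K,
      MulAut.conj (a₁ * b₁) ⁅a, b⁆ = MulAut.conj (b₁ * a₁) ⁅a, b⁆ := by
    intro a ha b hb a₁ ha₁ b₁ hb₁
    -- decompositions
    have m1 : b₁ * a * b₁⁻¹ ∈ ((H ⊔ K : Subgroup G) : Set G) :=
      mul_mem (mul_mem (le_sup_right (a := H) hb₁) (le_sup_left (b := K) ha))
        (inv_mem (le_sup_right (a := H) hb₁))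
    rw [hset] at m1
    obtain ⟨a₃, ha₃, b₃, hb₃, e1'⟩ := m1
    have e1 : a₃ * b₃ = b₁ * a * b₁⁻¹ := e1'
    have m2 : (a₁ * b * a₁⁻¹)⁻¹ ∈ ((H ⊔ K : Subgroup G) : Set G) :=
      inv_mem (mul_mem (mul_mem (le_sup_left (b := K) ha₁) (le_sup_right (a := H) hb))
        (inv_mem (le_sup_left (b := K) ha₁)))
    rw [hset] at m2
    obtain ⟨a₂', ha₂', b₂', hb₂', e2''⟩ := m2
    have e2' : a₂' * b₂' = (a₁ * b * a₁⁻¹)⁻¹ := e2''
    have e2 : a₁ * b * a₁⁻¹ = b₂'⁻¹ * a₂'⁻¹ := by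
      have : a₁ * b * a₁⁻¹ = (a₂' * b₂')⁻¹ := by rw [e2', inv_inv]
      rw [this, mul_inv_rev]
    have hb₂ : b₂'⁻¹ ∈ K := inv_mem hb₂'
    have ha₂ : a₂'⁻¹ ∈ H := inv_mem ha₂'
    -- basic conjugation facts
    have c1 : MulAut.conj b₁ a = a₃ * b₃ := by rw [MulAut.conj_apply]; exact e1.symm
    have c2 : MulAut.conj b₁ b = b := by
      rw [MulAut.conj_apply, hK b₁ hb₁ b hb]; group
    have c3 : MulAut.conj a₁ b = b₂'⁻¹ * a₂'⁻¹ := by rw [MulAut.conj_apply]; exact e2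
    have c4 : MulAut.conj a₁ a = a := by
      rw [MulAut.conj_apply, hH a₁ ha₁ a ha]; group
    have c5 : MulAut.conj a₁ a₃ = a₃ := by
      rw [MulAut.conj_apply, hH a₁ ha₁ a₃ ha₃]; group
    have c6 : MulAut.conj b₁ b₂'⁻¹ = b₂'⁻¹ := by
      rw [MulAut.conj_apply, hK b₁ hb₁ _ hb₂]; group
    have lhs : MulAut.conj (a₁ * b₁) ⁅a, b⁆ = ⁅a₃, b₂'⁻¹⁆ := by
      rw [map_mul, MulAut.mul_apply, map_commutatorElement, c1, c2,
        commutatorElement_mul_left_central a₃ b b₃ (hK b₃ hb₃ b hb),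
        map_commutatorElement, c5, c3,
        commutatorElement_mul_right_central a₃ b₂'⁻¹ a₂'⁻¹ (hH _ ha₂ a₃ ha₃)]
    have rhs : MulAut.conj (b₁ * a₁) ⁅a, b⁆ = ⁅a₃, b₂'⁻¹⁆ := by
      rw [map_mul, MulAut.mul_apply, map_commutatorElement, c4, c3,
        commutatorElement_mul_right_central a b₂'⁻¹ a₂'⁻¹ (hH _ ha₂ a ha),
        map_commutatorElement, c1, c6,
        commutatorElement_mul_left_central a₃ b₂'⁻¹ b₃ (hK b₃ hb₃ _ hb₂)]
    rw [lhs, rhs]
  have key : ∀ a ∈ H, ∀ b ∈ K, ∀ a' ∈ H, ∀ b' ∈ K, ⁅a', b'⁆ * ⁅a, b⁆ = ⁅a, b⁆ * ⁅a', b'⁆ := by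
    intro a ha b hb a' ha' b' hb'
    have h := conj_eq a ha b hb a'⁻¹ (inv_mem ha') b'⁻¹ (inv_mem hb')
    rw [MulAut.conj_apply, MulAut.conj_apply] at h
    -- (a'⁻¹ b'⁻¹) c (a'⁻¹ b'⁻¹)⁻¹ = (b'⁻¹ a'⁻¹) c (b'⁻¹ a'⁻¹)⁻¹
    have h2 : ⁅a', b'⁆ * ⁅a, b⁆ * ⁅a', b'⁆⁻¹ = ⁅a, b⁆ := by
      have e : ⁅a', b'⁆ = (b'⁻¹ * a'⁻¹)⁻¹ * (a'⁻¹ * b'⁻¹) := by
        rw [commutatorElement_def]; group
      rw [e]
      calc (b'⁻¹ * a'⁻¹)⁻¹ * (a'⁻¹ * b'⁻¹) * ⁅a, b⁆ * ((b'⁻¹ * a'⁻¹)⁻¹ * (a'⁻¹ * b'⁻¹))⁻¹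
          = (b'⁻¹ * a'⁻¹)⁻¹ * ((a'⁻¹ * b'⁻¹) * ⁅a, b⁆ * (a'⁻¹ * b'⁻¹)⁻¹) * (b'⁻¹ * a'⁻¹) := by group
        _ = (b'⁻¹ * a'⁻¹)⁻¹ * ((b'⁻¹ * a'⁻¹) * ⁅a, b⁆ * (b'⁻¹ * a'⁻¹)⁻¹) * (b'⁻¹ * a'⁻¹) := by rw [h]
        _ = ⁅a, b⁆ := by group
    calc ⁅a', b'⁆ * ⁅a, b⁆ = (⁅a', b'⁆ * ⁅a, b⁆ * ⁅a', b'⁆⁻¹) * ⁅a', b'⁆ := by group
      _ = ⁅a, b⁆ * ⁅a', b'⁆ := by rw [h2]
  have step : ∀ a ∈ H, ∀ b ∈ K, ⁅H, K⁆ ≤ centralizer ({⁅a, b⁆} : Set G) := by
    intro a ha b hb
    rw [Subgroup.commutator_le]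
    intro a' ha' b' hb'
    rw [Subgroup.mem_centralizer_iff]
    intro y hy
    rw [Set.mem_singleton_iff] at hy
    subst hy
    exact (key a ha b hb a' ha' b' hb').symm
  rw [Subgroup.commutator_le]
  intro a ha b hb
  rw [Subgroup.mem_centralizer_iff]
  intro y hy
  have := Subgroup.mem_centralizer_iff.mp (step a ha b hb hy) ⁅a, b⁆ (Set.mem_singleton _)
  exact this.symm


/-- the join of the `A`-conjugates of `Z` -/
def conjJoin (Z A : Subgroup G) : Subgroup G :=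
  sSup {X : Subgroup G | ∃ a ∈ A, X = Z.map (MulAut.conj a).toMonoidHom}

theorem conj_mem_conjJoin {Z A : Subgroup G} {a z : G} (ha : a ∈ A) (hz : z ∈ Z) :
    a * z * a⁻¹ ∈ conjJoin Z A := by
  have h : Z.map (MulAut.conj a).toMonoidHom ≤ conjJoin Z A := le_sSup ⟨a, ha, rfl⟩
  exact h ⟨z, hz, by simp [MulAut.conj_apply]⟩

theorem le_conjJoin (Z A : Subgroup G) : Z ≤ conjJoin Z A := by
  intro z hz
  have := conj_mem_conjJoin (Z := Z) (A := A) (one_mem A) hz
  simpa using this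

theorem conjJoin_conj {Z A : Subgroup G} {a x : G} (ha : a ∈ A) (hx : x ∈ conjJoin Z A) :
    a * x * a⁻¹ ∈ conjJoin Z A := by
  have h : conjJoin Z A ≤ (conjJoin Z A).comap (MulAut.conj a).toMonoidHom := by
    apply sSup_le
    rintro X ⟨a', ha', rfl⟩
    rw [← Subgroup.map_le_iff_le_comap]
    rintro _ ⟨_, ⟨z, hz, rfl⟩, rfl⟩
    have := conj_mem_conjJoin (Z := Z) (A := A) (mul_mem ha ha') hz
    have e : (MulAut.conj a).toMonoidHom ((MulAut.conj a').toMonoidHom z) = a * a' * z * (a * a')⁻¹ := by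
      simp only [MulEquiv.coe_toMonoidHom, MulAut.conj_apply]; group
    rw [e]; exact this
  have := h hx
  simpa [Subgroup.mem_comap, MulAut.conj_apply] using this

theorem conjJoin_le_sup (Z A : Subgroup G) : conjJoin Z A ≤ Z ⊔ A := by
  apply sSup_le
  rintro X ⟨a, ha, rfl⟩
  rintro _ ⟨z, hz, rfl⟩
  simp only [MulEquiv.coe_toMonoidHom, MulAut.conj_apply]
  exact mul_mem (mul_mem (le_sup_right (a := Z) ha) (le_sup_left (b := A) hz))
    (inv_mem (le_sup_right (a := Z) ha))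

theorem centralizer_conjJoin_conj {Z A : Subgroup G} {a x : G} (ha : a ∈ A)
    (hx : x ∈ centralizer (conjJoin Z A : Set G)) :
    a * x * a⁻¹ ∈ centralizer (conjJoin Z A : Set G) := by
  rw [Subgroup.mem_centralizer_iff]
  intro w hw
  have hw' : a⁻¹ * w * a⁻¹⁻¹ ∈ conjJoin Z A := conjJoin_conj (inv_mem ha) hw
  rw [inv_inv] at hw'
  have := Subgroup.mem_centralizer_iff.mp hx _ hw'
  calc w * (a * x * a⁻¹) = a * ((a⁻¹ * w * a) * x) * a⁻¹ := by group
    _ = a * (x * (a⁻¹ * w * a)) * a⁻¹ := by rw [this]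
    _ = a * x * a⁻¹ * w := by group

theorem card_map_conj (Z : Subgroup G) (g : G) :
    Nat.card (Z.map (MulAut.conj g).toMonoidHom) = Nat.card Z :=
  Subgroup.card_map_of_injective (MulAut.conj g).injective

theorem centralizer_map_conj (Z : Subgroup G) (g : G) :
    centralizer ((Z.map (MulAut.conj g).toMonoidHom : Subgroup G) : Set G) =
      (centralizer (Z : Set G)).map (MulAut.conj g).toMonoidHom := by
  ext x
  constructor
  · intro hx
    refine ⟨g⁻¹ * x * g, ?_, ?_⟩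
    · show g⁻¹ * x * g ∈ centralizer (Z : Set G)
      rw [Subgroup.mem_centralizer_iff]
      intro z hz
      have hz' : g * z * g⁻¹ ∈ ((Z.map (MulAut.conj g).toMonoidHom : Subgroup G) : Set G) :=
        ⟨z, hz, by simp [MulAut.conj_apply]⟩
      have := Subgroup.mem_centralizer_iff.mp hx _ hz'
      calc z * (g⁻¹ * x * g) = g⁻¹ * ((g * z * g⁻¹) * x) * g := by group
        _ = g⁻¹ * (x * (g * z * g⁻¹)) * g := by rw [this]
        _ = g⁻¹ * x * g * z := by group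
    · simp only [MulEquiv.coe_toMonoidHom, MulAut.conj_apply]; group
  · rintro ⟨y, hy, rfl⟩
    rw [Subgroup.mem_centralizer_iff]
    rintro _ ⟨z, hz, rfl⟩
    have := Subgroup.mem_centralizer_iff.mp hy z hz
    simp only [MulEquiv.coe_toMonoidHom, MulAut.conj_apply]
    calc g * z * g⁻¹ * (g * y * g⁻¹) = g * (z * y) * g⁻¹ := by group
      _ = g * (y * z) * g⁻¹ := by rw [this]
      _ = g * y * g⁻¹ * (g * z * g⁻¹) := by group

theorem isCentralizerLarge_map_conj (Z : Subgroup G) (g : G) (hZ : Cfsg.IsCentralizerLarge Z) :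
    Cfsg.IsCentralizerLarge (Z.map (MulAut.conj g).toMonoidHom) := by
  show Nat.card _ * Nat.card _ = _
  rw [centralizer_map_conj, card_map_conj, card_map_conj]
  exact hZ

/-- `W ⊓ C(W)` for `W` the join of the `A`-conjugates of `Z = C(Q)`. -/
def core (Q A : Subgroup G) : Subgroup G :=
  conjJoin (centralizer (Q : Set G)) A ⊓
    centralizer (conjJoin (centralizer (Q : Set G)) A : Set G)

/-- the centre of the replacement -/
def repCenter (Q A : Subgroup G) : Subgroup G := core Q A ⊔ ⁅centralizer (Q : Set G), A⁆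

/-- the replacement -/
def rep (Q A : Subgroup G) : Subgroup G := centralizer (repCenter Q A : Set G)

theorem core_conj {Q A : Subgroup G} {a y : G} (ha : a ∈ A) (hy : y ∈ core Q A) :
    a * y * a⁻¹ ∈ core Q A :=
  Subgroup.mem_inf.mpr ⟨conjJoin_conj ha (Subgroup.mem_inf.mp hy).1,
    centralizer_conjJoin_conj ha (Subgroup.mem_inf.mp hy).2⟩

section Finite
variable [Finite G]

/-- An abelian Chermak–Delgado member inside a minimal centrally large `Q` is central in `Q`. -/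
theorem le_center_of_abelian_member (Q X : Subgroup G) (hQ : Cfsg.IsMinimalCentrallyLarge Q)
    (hX : Cfsg.IsCentralizerLarge X) (hXab : X ≤ centralizer (X : Set G)) (hXQ : X ≤ Q) :
    X ≤ centralizer (Q : Set G) := by
  obtain ⟨hQ1, hQ2⟩ := centralizerLarge_of_cl Q hQ.1
  obtain ⟨hZmem, hQcc⟩ := cd_centralizer Q hQ1
  set Z := centralizer (Q : Set G) with hZdef
  have hCZ : centralizer (Z : Set G) = Q := hQcc.symm
  have hZab : Z ≤ centralizer (Z : Set G) := by rw [hCZ]; exact hQ2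
  have hXZ : X ≤ centralizer (Z : Set G) := by rw [hCZ]; exact hXQ
  obtain ⟨-, hTmem, -, -, -⟩ := cd_main X Z hX hZmem
  have hTab : IsMulCommutative ↥(X ⊔ Z) := comm_sup_of X Z hXab hZab hXZ
  have hTle : X ⊔ Z ≤ centralizer ((X ⊔ Z : Subgroup G) : Set G) :=
    Subgroup.le_centralizer_iff_isMulCommutative.mpr hTab
  obtain ⟨hCTmem, hTcc⟩ := cd_centralizer (X ⊔ Z) hTmem
  have hCTcl : Cfsg.IsCentrallyLarge (centralizer ((X ⊔ Z : Subgroup G) : Set G)) := by
    apply cl_of_centralizerLarge _ hCTmem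
    rw [← hTcc]; exact hTle
  have hCTQ : centralizer ((X ⊔ Z : Subgroup G) : Set G) ≤ Q := by
    rw [← hCZ]
    exact centralizer_le (by exact_mod_cast (le_sup_right : Z ≤ X ⊔ Z))
  have hCT : centralizer ((X ⊔ Z : Subgroup G) : Set G) = Q := hQ.2 _ hCTQ hCTcl
  have hT : X ⊔ Z = Z := by
    rw [hTcc, hCT]
  rw [← hT]; exact le_sup_left

theorem rep_facts (Q A : Subgroup G) (hQ : Cfsg.IsMinimalCentrallyLarge Q)
    (hA : A ∈ Cfsg.maxAbelianSubgroups G) :
    core Q A ≤ centralizer (Q : Set G) ∧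
    ⁅centralizer (Q : Set G), A⁆ ≤ centralizer ((core Q A : Subgroup G) : Set G) ∧
    Nat.card (repCenter Q A) = Nat.card (centralizer (Q : Set G)) ∧
    Cfsg.IsMinimalCentrallyLarge (rep Q A) ∧
    centralizer (rep Q A : Set G) = repCenter Q A := by
  classical
  obtain ⟨hQ1, hQ2⟩ := centralizerLarge_of_cl Q hQ.1
  obtain ⟨hZmem, hQcc⟩ := cd_centralizer Q hQ1
  have hAab : A ≤ centralizer (A : Set G) :=
    Subgroup.le_centralizer_iff_isMulCommutative.mpr hA.1
  have hAc : ∀ x ∈ A, ∀ y ∈ A, x * y = y * x := fun x hx y hy =>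
    (Subgroup.mem_centralizer_iff.mp (hAab hy) x hx)
  have hsetZA := (cl_sup_maxAbelian_centralizer Q A hQ.1 hA).2
  unfold rep repCenter core
  set Z := centralizer (Q : Set G) with hZdef
  set m := Cfsg.maxCentralizerProduct G with hm
  have hZQ : Z ≤ Q := hQ2
  have hCZ : centralizer (Z : Set G) = Q := hQcc.symm
  have hZab : Z ≤ centralizer (Z : Set G) := by rw [hCZ]; exact hZQ
  have hZc : ∀ x ∈ Z, ∀ y ∈ Z, x * y = y * x := fun x hx y hy =>
    (Subgroup.mem_centralizer_iff.mp (hZab hy) x hx)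
  set W := conjJoin Z A with hWdef
  have hZW : Z ≤ W := le_conjJoin Z A
  have hWmem : Cfsg.IsCentralizerLarge W := by
    refine sSup_mem_of_sup_closed {R : Subgroup G | Cfsg.IsCentralizerLarge R}
      (fun x hx y hy => (cd_main x y hx hy).2.1) _ (Set.toFinite _) ⟨_, 1, one_mem A, rfl⟩ ?_
    rintro X ⟨a, -, rfl⟩
    exact isCentralizerLarge_map_conj Z a hZmem
  obtain ⟨hKmem, hWcc⟩ := cd_centralizer W hWmem
  set K := centralizer (W : Set G) with hKdef
  set Y := W ⊓ K with hYdef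
  have hYmem : Cfsg.IsCentralizerLarge Y := (cd_main W K hWmem hKmem).2.2.1
  have hYK : Y ≤ K := inf_le_right
  have hYW : Y ≤ W := inf_le_left
  have hYab : Y ≤ centralizer (Y : Set G) :=
    le_trans hYK (centralizer_le (by exact_mod_cast hYW))
  have hKZ : K ≤ centralizer (Z : Set G) := centralizer_le (by exact_mod_cast hZW)
  have hYZ : Y ≤ Z :=
    le_center_of_abelian_member Q Y hQ hYmem hYab (by rw [← hCZ]; exact le_trans hYK hKZ)
  have hZKY : Z ⊓ K = Y :=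
    le_antisymm (le_inf (le_trans inf_le_left hZW) inf_le_right) (le_inf hYZ hYK)
  -- A ⊓ Q ≤ K
  have hAQK : A ⊓ Q ≤ K := by
    intro x hx
    obtain ⟨hxA, hxQ⟩ := Subgroup.mem_inf.mp hx
    have hWx : W ≤ centralizer ({x} : Set G) := by
      apply sSup_le
      rintro X ⟨a, ha, rfl⟩
      rintro _ ⟨z, hz, rfl⟩
      rw [Subgroup.mem_centralizer_iff]
      intro y hy
      rw [Set.mem_singleton_iff] at hy
      subst hy
      have h1 : y * a = a * y := hAc y hxA a ha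
      have h2 : y * z = z * y := Subgroup.mem_centralizer_iff.mp hz y hxQ
      simp only [MulEquiv.coe_toMonoidHom, MulAut.conj_apply]
      have h3 : a⁻¹ * y * a = y := by rw [mul_assoc, h1]; group
      calc y * (a * z * a⁻¹) = a * ((a⁻¹ * y * a) * z) * a⁻¹ := by group
        _ = a * (y * z) * a⁻¹ := by rw [h3]
        _ = a * (z * y) * a⁻¹ := by rw [h2]
        _ = a * (z * (a⁻¹ * y * a)) * a⁻¹ := by rw [h3]
        _ = a * z * a⁻¹ * y := by group
    show x ∈ centralizer (W : Set G)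
    rw [Subgroup.mem_centralizer_iff]
    intro w hw
    exact (Subgroup.mem_centralizer_iff.mp (hWx hw) x (Set.mem_singleton x)).symm
  have hW_le : W ≤ Z ⊔ A := conjJoin_le_sup Z A
  have hWQ : W ⊓ Q ≤ Z := by
    intro x hx
    obtain ⟨hxW, hxQ⟩ := Subgroup.mem_inf.mp hx
    have hx' : x ∈ ((Z ⊔ A : Subgroup G) : Set G) := hW_le hxW
    rw [hsetZA] at hx'
    obtain ⟨z, hz, a, ha, rfl⟩ := hx'
    have haQ : a ∈ Q := by
      have : a = z⁻¹ * (z * a) := by group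
      rw [this]; exact mul_mem (inv_mem (hZQ hz)) hxQ
    have haW : a ∈ W := by
      have : a = z⁻¹ * (z * a) := by group
      rw [this]; exact mul_mem (inv_mem (hZW hz)) hxW
    have haK : a ∈ K := hAQK (Subgroup.mem_inf.mpr ⟨ha, haQ⟩)
    have haY : a ∈ Y := Subgroup.mem_inf.mpr ⟨haW, haK⟩
    exact mul_mem hz (hYZ haY)
  -- Z ⊔ K = Q
  obtain ⟨hsetZK, hZKmem, -, -, -⟩ := cd_main Z K hZmem hKmem
  have hZKsup : Z ⊔ K = Q := by
    have h1 : centralizer ((Z ⊔ K : Subgroup G) : Set G) = Z := by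
      rw [centralizer_sup_eq, hCZ, ← hWcc]
      exact le_antisymm (by rw [inf_comm]; exact hWQ) (le_inf hZQ hZW)
    rw [(cd_centralizer (Z ⊔ K) hZKmem).2, h1, hCZ]
  have hcard1 : Nat.card Q * Nat.card Y = Nat.card Z * Nat.card K := by
    have := card_mul_card_inf Z K
    rw [← hsetZK, hZKY, hZKsup] at this
    exact this
  -- the commutator
  set M := ⁅Z, A⁆ with hMdef
  have hMW : M ≤ W := by
    rw [hMdef, Subgroup.commutator_le]
    intro z hz a ha
    have e : ⁅z, a⁆ = z * (a * z⁻¹ * a⁻¹) := by rw [commutatorElement_def]; group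
    rw [e]
    exact mul_mem (hZW hz) (conj_mem_conjJoin ha (inv_mem hz))
  have hMab : M ≤ centralizer (M : Set G) := ito_comm Z A hZc hAc hsetZA
  have hKM : K ≤ centralizer (M : Set G) := centralizer_le (by exact_mod_cast hMW)
  have hYM : Y ≤ centralizer (M : Set G) := le_trans hYK hKM
  have hMY : M ≤ centralizer (Y : Set G) := le_centralizer_iff.mp hYM
  set Z₁ := Y ⊔ M with hZ₁def
  have hZ₁comm : IsMulCommutative ↥Z₁ := comm_sup_of Y M hYab hMab hYM
  have hZ₁ab : Z₁ ≤ centralizer (Z₁ : Set G) :=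
    Subgroup.le_centralizer_iff_isMulCommutative.mpr hZ₁comm
  have hZ₁W : Z₁ ≤ W := sup_le hYW hMW
  have hsupW : Z ⊔ Z₁ = W := by
    apply le_antisymm (sup_le hZW hZ₁W)
    apply sSup_le
    rintro X ⟨a, ha, rfl⟩
    rintro _ ⟨z, hz, rfl⟩
    simp only [MulEquiv.coe_toMonoidHom, MulAut.conj_apply]
    have e : a * z * a⁻¹ = ⁅z, a⁆⁻¹ * z := by rw [commutatorElement_def]; group
    rw [e]
    exact mul_mem (le_sup_right (a := Z) (le_sup_right (a := Y)
      (inv_mem (Subgroup.commutator_mem_commutator hz ha)))) (le_sup_left (b := Z₁) hz)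
  have hconjM : ∀ x ∈ Z, ∀ k ∈ M, x * k * x⁻¹ ∈ M := by
    intro x hx
    have hle : M ≤ M.comap (MulAut.conj x).toMonoidHom := by
      rw [hMdef, Subgroup.commutator_le]
      intro z hz a ha
      rw [Subgroup.mem_comap]
      have e : (MulAut.conj x).toMonoidHom ⁅z, a⁆ = ⁅x * z, a⁆ * ⁅x, a⁆⁻¹ := by
        simp only [MulEquiv.coe_toMonoidHom, MulAut.conj_apply, commutatorElement_def]; group
      rw [e]
      exact mul_mem (Subgroup.commutator_mem_commutator (mul_mem hx hz) ha)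
        (inv_mem (Subgroup.commutator_mem_commutator hx ha))
    intro k hk
    have := hle hk
    simpa [Subgroup.mem_comap, MulAut.conj_apply] using this
  have hsetYM : ((Y ⊔ M : Subgroup G) : Set G) = (Y : Set G) * (M : Set G) :=
    coe_sup_of_le_centralizer Y M hYM
  have hZnorm : ∀ x ∈ Z, ∀ k ∈ Z₁, x * k * x⁻¹ ∈ Z₁ := by
    intro x hx k hk
    have hk' : k ∈ ((Y ⊔ M : Subgroup G) : Set G) := hk
    rw [hsetYM] at hk'
    obtain ⟨y, hy, k', hk', rfl⟩ := hk'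
    have e : x * (y * k') * x⁻¹ = y * (x * k' * x⁻¹) := by
      have : x * y = y * x := hZc x hx y (hYZ hy)
      calc x * (y * k') * x⁻¹ = (x * y) * k' * x⁻¹ := by group
        _ = (y * x) * k' * x⁻¹ := by rw [this]
        _ = y * (x * k' * x⁻¹) := by group
    rw [e]
    exact mul_mem (le_sup_left (b := M) hy) (le_sup_right (a := Y) (hconjM x hx k' hk'))
  have hsetZZ₁ : ((Z ⊔ Z₁ : Subgroup G) : Set G) = (Z : Set G) * (Z₁ : Set G) :=
    coe_sup_of_normalizes Z Z₁ hZnorm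
  have hZZ₁ : Z ⊓ Z₁ = Y := by
    apply le_antisymm _ (le_inf hYZ le_sup_left)
    intro x hx
    obtain ⟨hxZ, hxZ₁⟩ := Subgroup.mem_inf.mp hx
    refine Subgroup.mem_inf.mpr ⟨hZW hxZ, ?_⟩
    show x ∈ centralizer (W : Set G)
    rw [← hsupW, centralizer_sup_eq]
    exact Subgroup.mem_inf.mpr ⟨hZab hxZ, hZ₁ab hxZ₁⟩
  have hcard2 : Nat.card W * Nat.card Y = Nat.card Z * Nat.card Z₁ := by
    have := card_mul_card_inf Z Z₁
    rw [← hsetZZ₁, hZZ₁, hsupW] at this
    exact this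
  have hmZ : Nat.card Z * Nat.card Q = m := by
    have : Nat.card Z * Nat.card (centralizer (Z : Set G)) = m := hZmem
    rw [hCZ] at this; exact this
  have hmW : Nat.card W * Nat.card K = m := hWmem
  have hzpos : 0 < Nat.card Z := Nat.card_pos
  have hkpos : 0 < Nat.card K := Nat.card_pos
  have hypos : 0 < Nat.card Y := Nat.card_pos
  have hcardZ₁ : Nat.card Z₁ = Nat.card Z := by
    have h1 : (Nat.card Z * Nat.card K) * Nat.card Z = (Nat.card Z * Nat.card K) * Nat.card Z₁ := by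
      calc (Nat.card Z * Nat.card K) * Nat.card Z = Nat.card Z * (Nat.card Z * Nat.card K) := by ring
        _ = Nat.card Z * (Nat.card Q * Nat.card Y) := by rw [hcard1]
        _ = (Nat.card Z * Nat.card Q) * Nat.card Y := by ring
        _ = (Nat.card W * Nat.card K) * Nat.card Y := by rw [hmZ, hmW]
        _ = (Nat.card W * Nat.card Y) * Nat.card K := by ring
        _ = (Nat.card Z * Nat.card Z₁) * Nat.card K := by rw [hcard2]
        _ = (Nat.card Z * Nat.card K) * Nat.card Z₁ := by ring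
    exact (Nat.eq_of_mul_eq_mul_left (Nat.mul_pos hzpos hkpos) h1).symm
  have hZ₁K : Z₁ ⊓ K = Y :=
    le_antisymm (le_inf (le_trans inf_le_left hZ₁W) inf_le_right) (le_inf le_sup_left hYK)
  have hKZ₁ : K ≤ centralizer (Z₁ : Set G) := centralizer_le (by exact_mod_cast hZ₁W)
  have hZ₁mem : Cfsg.IsCentralizerLarge Z₁ := by
    have h1 := card_mul_card_inf Z₁ K
    rw [hZ₁K] at h1
    have h2 : Nat.card ((Z₁ : Set G) * (K : Set G) : Set G) ≤
        Nat.card (centralizer (Z₁ : Set G)) :=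
      le_trans (card_sup_ge Z₁ K) (Subgroup.card_le_of_le (sup_le hZ₁ab hKZ₁))
    have h3 : Nat.card Q * Nat.card Y ≤ Nat.card (centralizer (Z₁ : Set G)) * Nat.card Y := by
      rw [hcard1, ← hcardZ₁, ← h1]
      exact Nat.mul_le_mul h2 le_rfl
    have h4 : Nat.card Q ≤ Nat.card (centralizer (Z₁ : Set G)) := Nat.le_of_mul_le_mul_right h3 hypos
    have h5 : m ≤ mu Z₁ := by
      unfold mu
      rw [← hmZ, hcardZ₁]
      exact Nat.mul_le_mul le_rfl h4
    exact le_antisymm (mu_le_max Z₁) h5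
  obtain ⟨hQ₁mem, hZ₁cc⟩ := cd_centralizer Z₁ hZ₁mem
  have hQ₁cl : Cfsg.IsCentrallyLarge (centralizer (Z₁ : Set G)) := by
    apply cl_of_centralizerLarge _ hQ₁mem
    rw [← hZ₁cc]; exact hZ₁ab
  obtain ⟨Q', hQ'le, hQ'min⟩ := exists_minimal_cl_le _ hQ₁cl
  obtain ⟨-, hc2⟩ := min_cl_card Q' Q hQ'min hQ
  have hZ₁Q' : Z₁ ≤ centralizer (Q' : Set G) := by
    rw [hZ₁cc]
    exact centralizer_le (by exact_mod_cast hQ'le)
  have hZ₁eq : Z₁ = centralizer (Q' : Set G) :=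
    Subgroup.eq_of_le_of_card_ge hZ₁Q' (by rw [hc2, hcardZ₁])
  have hQ'eq : Q' = centralizer (Z₁ : Set G) := by
    rw [hZ₁eq]
    exact (cd_centralizer Q' (centralizerLarge_of_cl Q' hQ'min.1).1).2
  refine ⟨hYZ, hMY, hcardZ₁, ?_, hZ₁cc.symm⟩
  rw [← hQ'eq]; exact hQ'min


/-- The counting step: under `Z = Y ⊔ (Z ⊓ D)` the replacement does not decrease `|Z ⊓ D'|`,
and equality forces `Z = Y ⊔ (Z ⊓ D')`. -/
theorem step (Q A : Subgroup G) (hQ : Cfsg.IsMinimalCentrallyLarge Q)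
    (hA : A ∈ Cfsg.maxAbelianSubgroups G) (D D' : Subgroup G)
    (hD : centralizer (Q : Set G) = core Q A ⊔ (centralizer (Q : Set G) ⊓ D))
    (hDD' : ⁅centralizer (Q : Set G) ⊓ D, A⁆ ≤ D') :
    Nat.card (centralizer (Q : Set G) ⊓ D' : Subgroup G) ≤
        Nat.card (repCenter Q A ⊓ D' : Subgroup G) ∧
    (Nat.card (repCenter Q A ⊓ D' : Subgroup G) ≤
        Nat.card (centralizer (Q : Set G) ⊓ D' : Subgroup G) →
      centralizer (Q : Set G) = core Q A ⊔ (centralizer (Q : Set G) ⊓ D')) := by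
  classical
  obtain ⟨hYZ, hMY, hcardZ₁, -, -⟩ := rep_facts Q A hQ hA
  obtain ⟨hQ1, hQ2⟩ := centralizerLarge_of_cl Q hQ.1
  obtain ⟨hZmem, hQcc⟩ := cd_centralizer Q hQ1
  set Z := centralizer (Q : Set G) with hZdef
  set Y := core Q A with hYdef
  have hCZ : centralizer (Z : Set G) = Q := hQcc.symm
  have hZab : Z ≤ centralizer (Z : Set G) := by rw [hCZ]; exact hQ2
  set X := Z ⊓ D with hXdef
  set N := ⁅X, A⁆ with hNdef
  set M := ⁅Z, A⁆ with hMdef
  have hNM : N ≤ M := Subgroup.commutator_mono inf_le_left le_rfl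
  have hYM : Y ≤ centralizer (M : Set G) := le_centralizer_iff.mp hMY
  have hYN : Y ≤ centralizer (N : Set G) :=
    le_trans hYM (centralizer_le (by exact_mod_cast hNM))
  have hYX : Y ≤ centralizer (X : Set G) :=
    le_trans hYZ (le_trans hZab (centralizer_le (by exact_mod_cast (inf_le_left : X ≤ Z))))
  have hsetYX : ((Y ⊔ X : Subgroup G) : Set G) = (Y : Set G) * (X : Set G) :=
    coe_sup_of_le_centralizer Y X hYX
  have hZ₁ : repCenter Q A = Y ⊔ N := by
    unfold repCenter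
    apply le_antisymm
    · apply sup_le le_sup_left
      rw [← hZdef, ← hMdef, hMdef, Subgroup.commutator_le]
      intro z hz a ha
      have hz' : z ∈ ((Y ⊔ X : Subgroup G) : Set G) := by
        have : z ∈ Y ⊔ X := hD ▸ hz
        exact this
      rw [hsetYX] at hz'
      obtain ⟨y, hy, x, hx, rfl⟩ := hz'
      have hxa : ⁅x, a⁆ ∈ N := Subgroup.commutator_mem_commutator hx ha
      have hcomm : y * ⁅x, a⁆ = ⁅x, a⁆ * y :=
        (Subgroup.mem_centralizer_iff.mp (hYN hy) _ hxa).symm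
      have e : ⁅y * x, a⁆ = ⁅x, a⁆ * (y * (a * y⁻¹ * a⁻¹)) := by
        have e1 : ⁅y * x, a⁆ = (y * ⁅x, a⁆) * y⁻¹ * (y * (a * y⁻¹ * a⁻¹)) := by
          simp only [commutatorElement_def]; group
        rw [e1, hcomm]; group
      rw [e]
      exact mul_mem (le_sup_right (a := Y) hxa)
        (le_sup_left (b := N) (mul_mem hy (core_conj ha (inv_mem hy))))
    · exact sup_le le_sup_left (le_trans hNM le_sup_right)
  rw [hZ₁]
  rw [hZ₁] at hcardZ₁
  set Z₁ := Y ⊔ N with hZ₁def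
  have hsetYN : ((Y ⊔ N : Subgroup G) : Set G) = (Y : Set G) * (N : Set G) :=
    coe_sup_of_le_centralizer Y N hYN
  have c1 : Nat.card Z₁ * Nat.card (Y ⊓ N : Subgroup G) = Nat.card Y * Nat.card N := by
    have := card_mul_card_inf Y N
    rw [← hsetYN] at this
    exact this
  have hND' : N ≤ D' := hDD'
  have hYDN : (Y ⊓ D') ⊓ N = Y ⊓ N := by
    rw [inf_assoc, inf_eq_right.mpr hND']
  have c2 : Nat.card (Y ⊓ D' : Subgroup G) * Nat.card N ≤
      Nat.card (Z₁ ⊓ D' : Subgroup G) * Nat.card (Y ⊓ N : Subgroup G) := by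
    have h := card_mul_card_inf (Y ⊓ D') N
    rw [hYDN] at h
    rw [← h]
    apply Nat.mul_le_mul _ le_rfl
    refine le_trans (card_sup_ge (Y ⊓ D') N) (Subgroup.card_le_of_le ?_)
    exact sup_le (le_inf (le_trans inf_le_left le_sup_left) inf_le_right)
      (le_inf le_sup_right hND')
  have tpos : 0 < Nat.card (Y ⊓ N : Subgroup G) := Nat.card_pos
  have ypos : 0 < Nat.card Y := Nat.card_pos
  have s1 : Nat.card (Y ⊓ D' : Subgroup G) * Nat.card Z ≤
      Nat.card (Z₁ ⊓ D' : Subgroup G) * Nat.card Y := by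
    apply Nat.le_of_mul_le_mul_right _ tpos
    calc Nat.card (Y ⊓ D' : Subgroup G) * Nat.card Z * Nat.card (Y ⊓ N : Subgroup G)
        = Nat.card (Y ⊓ D' : Subgroup G) * (Nat.card Z₁ * Nat.card (Y ⊓ N : Subgroup G)) := by
          rw [hcardZ₁]; ring
      _ = Nat.card (Y ⊓ D' : Subgroup G) * (Nat.card Y * Nat.card N) := by rw [c1]
      _ = (Nat.card (Y ⊓ D' : Subgroup G) * Nat.card N) * Nat.card Y := by ring
      _ ≤ (Nat.card (Z₁ ⊓ D' : Subgroup G) * Nat.card (Y ⊓ N : Subgroup G)) * Nat.card Y :=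
          Nat.mul_le_mul c2 le_rfl
      _ = Nat.card (Z₁ ⊓ D' : Subgroup G) * Nat.card Y * Nat.card (Y ⊓ N : Subgroup G) := by ring
  have hZDY : (Z ⊓ D') ⊓ Y = Y ⊓ D' := by
    rw [inf_comm, ← inf_assoc, inf_eq_left.mpr hYZ]
  have hsub : ((Z ⊓ D' : Subgroup G) : Set G) * (Y : Set G) ⊆ (Z : Set G) := by
    rintro _ ⟨u, hu, v, hv, rfl⟩
    exact mul_mem (Subgroup.mem_inf.mp hu).1 (hYZ hv)
  have c3 := card_mul_card_inf (Z ⊓ D') Y
  rw [hZDY] at c3
  have hle : Nat.card (((Z ⊓ D' : Subgroup G) : Set G) * (Y : Set G) : Set G) ≤ Nat.card Z :=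
    Nat.card_mono (Set.toFinite _) hsub
  have s2 : Nat.card (Z ⊓ D' : Subgroup G) * Nat.card Y ≤
      Nat.card Z * Nat.card (Y ⊓ D' : Subgroup G) := by
    rw [← c3]; exact Nat.mul_le_mul hle le_rfl
  constructor
  · apply Nat.le_of_mul_le_mul_right _ ypos
    calc Nat.card (Z ⊓ D' : Subgroup G) * Nat.card Y
        ≤ Nat.card Z * Nat.card (Y ⊓ D' : Subgroup G) := s2
      _ = Nat.card (Y ⊓ D' : Subgroup G) * Nat.card Z := by ring
      _ ≤ Nat.card (Z₁ ⊓ D' : Subgroup G) * Nat.card Y := s1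
  · intro hle2
    have e1 : Nat.card (Z ⊓ D' : Subgroup G) * Nat.card Y =
        Nat.card Z * Nat.card (Y ⊓ D' : Subgroup G) := by
      apply le_antisymm s2
      calc Nat.card Z * Nat.card (Y ⊓ D' : Subgroup G)
          = Nat.card (Y ⊓ D' : Subgroup G) * Nat.card Z := by ring
        _ ≤ Nat.card (Z₁ ⊓ D' : Subgroup G) * Nat.card Y := s1
        _ ≤ Nat.card (Z ⊓ D' : Subgroup G) * Nat.card Y := Nat.mul_le_mul hle2 le_rfl
    have ydpos : 0 < Nat.card (Y ⊓ D' : Subgroup G) := Nat.card_pos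
    have e2 : Nat.card (((Z ⊓ D' : Subgroup G) : Set G) * (Y : Set G) : Set G) = Nat.card Z := by
      apply Nat.eq_of_mul_eq_mul_right ydpos
      rw [c3, e1]
    have hseteq : ((Z ⊓ D' : Subgroup G) : Set G) * (Y : Set G) = (Z : Set G) := by
      apply Set.eq_of_subset_of_ncard_le hsub _ (Set.toFinite _)
      rw [← Nat.card_coe_set_eq, ← Nat.card_coe_set_eq]
      exact le_of_eq e2.symm
    apply le_antisymm
    · intro z hz
      have hz' : z ∈ ((Z ⊓ D' : Subgroup G) : Set G) * (Y : Set G) := by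
        rw [hseteq]; exact hz
      obtain ⟨u, hu, v, hv, rfl⟩ := hz'
      exact mul_mem (le_sup_right (a := Y) hu) (le_sup_left (b := Z ⊓ D') hv)
    · exact sup_le hYZ inf_le_left

/-- Nested extremal families of minimal centrally large subgroups. -/
theorem exists_good (n : ℕ) :
    ∃ S : Set (Subgroup G), S.Nonempty ∧ (∀ Q ∈ S, Cfsg.IsMinimalCentrallyLarge Q) ∧
      (∀ Q ∈ S, ∀ A ∈ Cfsg.maxAbelianSubgroups G, rep Q A ∈ S) ∧
      (∀ Q ∈ S, ∀ A ∈ Cfsg.maxAbelianSubgroups G,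
        centralizer (Q : Set G) = core Q A ⊔
          (centralizer (Q : Set G) ⊓ Subgroup.lowerCentralSeries (⊤ : Subgroup G) n)) := by
  classical
  induction n with
  | zero =>
    refine ⟨{Q | Cfsg.IsMinimalCentrallyLarge Q}, exists_minimal_cl, fun Q hQ => hQ, ?_, ?_⟩
    · intro Q hQ A hA; exact (rep_facts Q A hQ hA).2.2.2.1
    · intro Q hQ A hA
      have hYZ := (rep_facts Q A hQ hA).1
      rw [Subgroup.lowerCentralSeries_zero, inf_top_eq, sup_eq_right.mpr hYZ]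
  | succ n ih =>
    obtain ⟨S, hne, hmin, hrep, hprop⟩ := ih
    obtain ⟨Q₀, hQ₀, hmax⟩ := Set.exists_max_image S
      (fun Q : Subgroup G => Nat.card (centralizer (Q : Set G) ⊓
        Subgroup.lowerCentralSeries (⊤ : Subgroup G) (n + 1) : Subgroup G)) (Set.toFinite S) hne
    have hstep : ∀ Q ∈ S, ∀ A ∈ Cfsg.maxAbelianSubgroups G,
        Nat.card (centralizer (Q : Set G) ⊓
            Subgroup.lowerCentralSeries (⊤ : Subgroup G) (n + 1) : Subgroup G) ≤
          Nat.card (centralizer (rep Q A : Set G) ⊓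
            Subgroup.lowerCentralSeries (⊤ : Subgroup G) (n + 1) : Subgroup G) ∧
        (Nat.card (centralizer (rep Q A : Set G) ⊓
            Subgroup.lowerCentralSeries (⊤ : Subgroup G) (n + 1) : Subgroup G) ≤
          Nat.card (centralizer (Q : Set G) ⊓
            Subgroup.lowerCentralSeries (⊤ : Subgroup G) (n + 1) : Subgroup G) →
          centralizer (Q : Set G) = core Q A ⊔
            (centralizer (Q : Set G) ⊓ Subgroup.lowerCentralSeries (⊤ : Subgroup G) (n + 1))) := by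
      intro Q hQ A hA
      have hc := (rep_facts Q A (hmin Q hQ) hA).2.2.2.2
      rw [hc]
      exact step Q A (hmin Q hQ) hA _ _ (hprop Q hQ A hA) (by
        rw [Subgroup.lowerCentralSeries_succ]
        exact Subgroup.commutator_mono inf_le_right le_top)
    refine ⟨{Q | Q ∈ S ∧ ∀ Q' ∈ S, Nat.card (centralizer (Q' : Set G) ⊓
        Subgroup.lowerCentralSeries (⊤ : Subgroup G) (n + 1) : Subgroup G) ≤
        Nat.card (centralizer (Q : Set G) ⊓
        Subgroup.lowerCentralSeries (⊤ : Subgroup G) (n + 1) : Subgroup G)},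
      ⟨Q₀, hQ₀, hmax⟩, fun Q hQ => hmin Q hQ.1, ?_, ?_⟩
    · intro Q hQ A hA
      refine ⟨hrep Q hQ.1 A hA, ?_⟩
      intro Q' hQ'
      exact le_trans (hQ.2 Q' hQ') (hstep Q hQ.1 A hA).1
    · intro Q hQ A hA
      exact (hstep Q hQ.1 A hA).2 (hQ.2 _ (hrep Q hQ.1 A hA))

omit [Finite G] in
theorem le_normalizer_of_conj (S H : Subgroup G) (h : ∀ x ∈ S, ∀ y ∈ H, x * y * x⁻¹ ∈ H) :
    S ≤ normalizer (H : Set G) := by
  intro g hg
  rw [Subgroup.mem_normalizer_iff]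
  intro y
  constructor
  · exact h g hg y
  · intro hy
    have := h g⁻¹ (inv_mem hg) _ hy
    have e : g⁻¹ * (g * y * g⁻¹) * g⁻¹⁻¹ = y := by group
    rw [e] at this
    exact this

/-- Glauberman: in a nilpotent group some minimal centrally large subgroup is normalized by
`J(G)` and by the join of all minimal centrally large subgroups. -/
theorem exists_minimal_cl_normalized (hnil : Group.IsNilpotent G) :
    ∃ Q : Subgroup G, Cfsg.IsMinimalCentrallyLarge Q ∧
      Cfsg.thompsonSubgroupA G ≤ normalizer (Q : Set G) ∧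
      Cfsg.minimalCentrallyLargeJoin G ≤ normalizer (Q : Set G) := by
  obtain ⟨n, hn⟩ := Subgroup.nilpotent_iff_lowerCentralSeries.mp hnil
  obtain ⟨S, ⟨Q, hQS⟩, hmin, -, hprop⟩ := exists_good (G := G) n
  have hQ := hmin Q hQS
  obtain ⟨hQ1, hQ2⟩ := centralizerLarge_of_cl Q hQ.1
  obtain ⟨hZmem, hQcc⟩ := cd_centralizer Q hQ1
  have hAnorm : ∀ A ∈ Cfsg.maxAbelianSubgroups G, A ≤ normalizer (Q : Set G) := by
    intro A hA
    have hZ : centralizer (Q : Set G) = core Q A := by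
      have := hprop Q hQS A hA
      rw [hn, inf_bot_eq, sup_bot_eq] at this
      exact this
    apply le_normalizer_of_conj
    intro a ha q hq
    rw [hQcc, Subgroup.mem_centralizer_iff]
    intro z hz
    have hz' : a⁻¹ * z * a⁻¹⁻¹ ∈ centralizer (Q : Set G) := by
      rw [hZ]
      exact core_conj (inv_mem ha) (hZ ▸ hz)
    rw [inv_inv] at hz'
    have := Subgroup.mem_centralizer_iff.mp hz' q hq
    calc z * (a * q * a⁻¹) = a * ((a⁻¹ * z * a) * q) * a⁻¹ := by group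
      _ = a * (q * (a⁻¹ * z * a)) * a⁻¹ := by rw [← this]
      _ = a * q * a⁻¹ * z := by group
  have hJ : Cfsg.thompsonSubgroupA G ≤ normalizer (Q : Set G) := sSup_le hAnorm
  refine ⟨Q, hQ, hJ, ?_⟩
  apply sSup_le
  intro R hR
  obtain ⟨hdec, -⟩ := min_cl_decomp R Q hR hQ.1
  rw [← hdec]
  apply sup_le
  · exact le_trans inf_le_right Subgroup.le_normalizer
  · obtain ⟨A, hA⟩ := exists_maxAbelian (G := G)
    obtain ⟨-, -, hB, -⟩ := cl_sup_maxAbelian R A hR.1 hA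
    exact le_trans le_sup_right (le_trans (le_sSup hB) hJ)

end Finite

end Cfsg.Agent.Helper57.GR
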