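import Mathlib
import Cfsg.Agent.Lib.Helper75.OTStmt
import Cfsg.Agent.S4491
import Cfsg.Agent.Lib.Helper16.Defect

/-!
# Piece AR of S4889 / S4641: the arithmetic of a block from decomposition data
-/

set_option autoImplicit false

namespace Cfsg.Agent.Lib.Helper57.OtAR

open Cfsg Cfsg.Agent.Lib.Helper77.LocalRing Cfsg.Agent.Lib.Helper75.OTStmt

universe u

/-- The arithmetic core: from decomposition data over a finite index set. -/
theorem arith_core {ι : Type*} [Fintype ι] [DecidableEq ι] (L : ℕ) (deg : ι → ℕ) (S : Finset ι)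
    (f : Fin L → ℕ) (d : ι → Fin L → ℕ) (J : Finset (Fin L))
    (hf : ∀ i, 0 < f i)
    (hdeg : ∀ χ, deg χ = ∑ i, d χ i * f i)
    (hdegpos : ∀ χ, 0 < deg χ)
    (h3 : ∀ χ i, χ ∈ S → i ∉ J → d χ i = 0)
    (h4 : ∀ χ i, χ ∉ S → i ∈ J → d χ i = 0)
    (h5 : ∀ i, ∃ z : ι → ℤ, ∀ i', ∑ χ, z χ * (d χ i' : ℤ) = if i = i' then 1 else 0)
    (g W : ℕ) (hg0 : 0 < g) (hW0 : 0 < W) (hg : ∀ χ ∈ S, g ∣ deg χ)
    (hW : ∀ i ∈ J, W ∣ ∑ χ ∈ S, d χ i * deg χ) :
    ∃ v, J.card ≤ v ∧ ∑ χ ∈ S, deg χ ^ 2 = g * W * v := by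
  classical
  -- Step A
  have hA : ∑ χ ∈ S, deg χ ^ 2 = ∑ i ∈ J, f i * ∑ χ ∈ S, d χ i * deg χ := by
    have h1 : ∀ χ ∈ S, deg χ ^ 2 = ∑ i ∈ J, f i * (d χ i * deg χ) := by
      intro χ hχ
      have h2 : deg χ = ∑ i ∈ J, d χ i * f i := by
        rw [hdeg χ]
        symm
        refine Finset.sum_subset (Finset.subset_univ J) ?_
        intro i _ hi
        rw [h3 χ i hχ hi, zero_mul]
      rw [sq]
      nth_rewrite 1 [h2]
      rw [Finset.sum_mul]
      refine Finset.sum_congr rfl fun i _ => ?_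
      ring
    rw [Finset.sum_congr rfl h1, Finset.sum_comm]
    refine Finset.sum_congr rfl fun i _ => ?_
    rw [Finset.mul_sum]
  -- Step B
  have hB : ∀ i ∈ J, ∃ z : ι → ℤ, (∑ χ ∈ S, z χ * (d χ i : ℤ) = 1) ∧
      (f i : ℤ) = ∑ χ ∈ S, z χ * (deg χ : ℤ) := by
    intro i hi
    obtain ⟨z, hz⟩ := h5 i
    have hz' : ∀ i', ∑ χ ∈ S, z χ * (d χ i' : ℤ) = if i = i' then 1 else 0 := by
      intro i'
      by_cases hi' : i' ∈ J
      · rw [← hz i']
        refine Finset.sum_subset (Finset.subset_univ S) ?_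
        intro χ _ hχ
        rw [h4 χ i' hχ hi']
        simp
      · have hne : i ≠ i' := fun h => hi' (h ▸ hi)
        rw [if_neg hne]
        refine Finset.sum_eq_zero fun χ hχ => ?_
        rw [h3 χ i' hχ hi']
        simp
    refine ⟨z, ?_, ?_⟩
    · rw [hz' i, if_pos rfl]
    · have h1 : ∑ χ ∈ S, z χ * (deg χ : ℤ) = ∑ i', (f i' : ℤ) * ∑ χ ∈ S, z χ * (d χ i' : ℤ) := by
        have h2 : ∀ χ ∈ S, z χ * (deg χ : ℤ) = ∑ i', (f i' : ℤ) * (z χ * (d χ i' : ℤ)) := by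
          intro χ _
          rw [hdeg χ]
          push_cast
          rw [Finset.mul_sum]
          refine Finset.sum_congr rfl fun i' _ => ?_
          ring
        rw [Finset.sum_congr rfl h2, Finset.sum_comm]
        refine Finset.sum_congr rfl fun i' _ => ?_
        rw [Finset.mul_sum]
      rw [h1]
      have h3' : ∀ i' ∈ (Finset.univ : Finset (Fin L)),
          (f i' : ℤ) * ∑ χ ∈ S, z χ * (d χ i' : ℤ) = if i = i' then (f i : ℤ) else 0 := by
        intro i' _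
        rw [hz' i']
        by_cases h : i = i'
        · subst h; simp
        · simp [h]
      rw [Finset.sum_congr rfl h3']
      simp
  have hgf : ∀ i ∈ J, g ∣ f i := by
    intro i hi
    obtain ⟨z, -, hz⟩ := hB i hi
    have : (g : ℤ) ∣ (f i : ℤ) := by
      rw [hz]
      refine Finset.dvd_sum fun χ hχ => ?_
      exact Dvd.dvd.mul_left (Int.natCast_dvd_natCast.mpr (hg χ hχ)) _
    exact Int.natCast_dvd_natCast.mp this
  have hΦpos : ∀ i ∈ J, 0 < ∑ χ ∈ S, d χ i * deg χ := by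
    intro i hi
    obtain ⟨z, hz, -⟩ := hB i hi
    have hex : ∃ χ ∈ S, d χ i ≠ 0 := by
      by_contra hcon
      push Not at hcon
      have : ∑ χ ∈ S, z χ * (d χ i : ℤ) = 0 := by
        refine Finset.sum_eq_zero fun χ hχ => ?_
        rw [hcon χ hχ]; simp
      rw [this] at hz
      exact zero_ne_one hz
    obtain ⟨χ, hχ, hdχ⟩ := hex
    have h1 : 0 < d χ i * deg χ := Nat.mul_pos (Nat.pos_of_ne_zero hdχ) (hdegpos χ)
    exact lt_of_lt_of_le h1
      (Finset.single_le_sum (f := fun χ => d χ i * deg χ) (fun _ _ => Nat.zero_le _) hχ)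
  refine ⟨∑ i ∈ J, (f i / g) * ((∑ χ ∈ S, d χ i * deg χ) / W), ?_, ?_⟩
  · have h1 : ∀ i ∈ J, 1 ≤ (f i / g) * ((∑ χ ∈ S, d χ i * deg χ) / W) := by
      intro i hi
      have ha : 0 < f i / g := Nat.div_pos (Nat.le_of_dvd (hf i) (hgf i hi)) hg0
      have hb : 0 < (∑ χ ∈ S, d χ i * deg χ) / W :=
        Nat.div_pos (Nat.le_of_dvd (hΦpos i hi) (hW i hi)) hW0
      exact Nat.mul_pos ha hb
    calc J.card = ∑ i ∈ J, 1 := by simp
      _ ≤ _ := Finset.sum_le_sum h1
  · rw [hA, Finset.mul_sum]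
    refine Finset.sum_congr rfl fun i hi => ?_
    obtain ⟨k, hk⟩ := hgf i hi
    obtain ⟨l, hl⟩ := hW i hi
    rw [hl, hk, Nat.mul_div_cancel_left _ hg0, Nat.mul_div_cancel_left _ hW0]
    ring

theorem main : AR.{u} := by
  intro G _ _ p _ M hM B hB D hD L f d J hdec a dd ha hcD g hg hgmax
  classical
  have hp : p.Prime := Fact.out
  have hMp : M.IsPrime := isPrime_of_isPModular hM
  have := Cfsg.Agent.Lib.CT.Wedderburn.finite_irrCharacter G
  have : Fintype (IrrCharacter G) := Fintype.ofFinite _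
  obtain ⟨hf, hdeg, h3, h4, h5, h6, h7⟩ := hdec
  obtain ⟨χ₀, hχ₀⟩ := Cfsg.Agent.Lib.CT.DefectZeroBlock.isPBlock_nonempty hMp hB
  have hdegpos : ∀ χ : IrrCharacter G, 0 < charDegree (χ : G → ℂ) := fun χ =>
    Cfsg.Agent.Lib.CT.Wedderburn.irr_charDegree_pos χ.2
  have hg0 : 0 < g := Nat.pos_of_dvd_of_pos (hg χ₀ hχ₀) (hdegpos χ₀)
  -- the defect
  have hdd : dd = blockDefect p B := by
    have h1 := Cfsg.Agent.Lib.Helper16.Defect.card_defectGroup p hM B hB D hD
    rw [hcD] at h1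
    exact Nat.pow_right_injective hp.two_le h1
  have hne : ((fun ψ : IrrCharacter G => (charDegree (ψ : G → ℂ)).factorization p) '' B).Nonempty :=
    ⟨_, χ₀, hχ₀, rfl⟩
  obtain ⟨χ₁, hχ₁, hχ₁e⟩ := Nat.sInf_mem hne
  have hχ₁e' : (charDegree (χ₁ : G → ℂ)).factorization p
      = sInf ((fun ψ : IrrCharacter G => (charDegree (ψ : G → ℂ)).factorization p) '' B) := hχ₁e
  have hmin : ∀ ξ ∈ B, (charDegree (χ₁ : G → ℂ)).factorization p
      ≤ (charDegree (ξ : G → ℂ)).factorization p := by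
    intro ξ hξ
    rw [hχ₁e']
    exact Nat.sInf_le ⟨ξ, hξ, rfl⟩
  have hdef : blockDefect p B = (Nat.card G).factorization p
      - (charDegree (χ₁ : G → ℂ)).factorization p := by
    rw [hχ₁e']
    rfl
  have hm_le : (charDegree (χ₁ : G → ℂ)).factorization p ≤ a := by
    rw [← ha]
    exact Cfsg.Agent.Lib.CT.DefectZeroBlock.factorization_charDegree_le p χ₁
  have hgfac : g.factorization p = (charDegree (χ₁ : G → ℂ)).factorization p := by
    apply le_antisymm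
    · exact (Nat.factorization_le_iff_dvd hg0.ne' (hdegpos χ₁).ne').mpr (hg χ₁ hχ₁) p
    · have h1 : p ^ (charDegree (χ₁ : G → ℂ)).factorization p ∣ g := by
        apply hgmax
        intro χ hχ
        exact (hp.pow_dvd_iff_le_factorization (hdegpos χ).ne').mpr (hmin χ hχ)
      exact (hp.pow_dvd_iff_le_factorization hg0.ne').mp h1
  have hdd_le : dd ≤ a := by
    rw [hdd, hdef, ha]; exact Nat.sub_le _ _
  have hgfac' : g.factorization p = a - dd := by
    rw [hgfac, hdd, hdef, ha]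
    omega
  refine ⟨hgfac', ?_⟩
  -- the finite set of the block
  set S : Finset (IrrCharacter G) := Finset.univ.filter (· ∈ B) with hS
  have hmemS : ∀ χ, χ ∈ S ↔ χ ∈ B := fun χ => by simp [hS]
  have hsum : ∑ᶠ χ ∈ B, charDegree (χ : G → ℂ) ^ 2 = ∑ χ ∈ S, charDegree (χ : G → ℂ) ^ 2 := by
    rw [finsum_mem_def, finsum_eq_sum_of_fintype, hS, Finset.sum_filter]
    refine Finset.sum_congr rfl fun χ _ => ?_
    by_cases h : χ ∈ B <;> simp [h]
  set u : ℕ := g / p ^ (a - dd) with hu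
  have hgu : p ^ (a - dd) * u = g := by
    rw [hu, ← hgfac']
    exact Nat.ordProj_mul_ordCompl_eq_self g p
  have hu0 : 0 < u := by
    rcases Nat.eq_zero_or_pos u with h | h
    · rw [h, mul_zero] at hgu; omega
    · exact h
  have hcop : Nat.Coprime (p ^ a) u := by
    apply Nat.Coprime.pow_left
    rw [hu, ← hgfac']
    exact Nat.coprime_ordCompl hp hg0.ne'
  have hug : u ∣ g := ⟨p ^ (a - dd), by rw [mul_comm]; exact hgu.symm⟩
  have hW : ∀ i ∈ J, p ^ a * u ∣ ∑ χ ∈ S, d χ i * charDegree (χ : G → ℂ) := by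
    intro i hi
    apply Nat.Coprime.mul_dvd_of_dvd_of_dvd hcop
    · have h1 := h6 i
      rw [ha, finsum_eq_sum_of_fintype] at h1
      have h2 : ∑ χ ∈ S, d χ i * charDegree (χ : G → ℂ)
          = ∑ χ : IrrCharacter G, d χ i * charDegree (χ : G → ℂ) := by
        refine Finset.sum_subset (Finset.subset_univ S) ?_
        intro χ _ hχ
        rw [h4 χ i (fun h => hχ ((hmemS χ).mpr h)) hi, zero_mul]
      rw [h2]
      exact h1
    · refine Finset.dvd_sum fun χ hχ => ?_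
      exact Dvd.dvd.mul_left (dvd_trans hug (hg χ ((hmemS χ).mp hχ))) _
  have h5' : ∀ i, ∃ z : IrrCharacter G → ℤ, ∀ i',
      ∑ χ, z χ * (d χ i' : ℤ) = if i = i' then 1 else 0 := by
    intro i
    obtain ⟨z, hz⟩ := h5 i
    refine ⟨z, fun i' => ?_⟩
    rw [← hz i', finsum_eq_sum_of_fintype]
  obtain ⟨v, hv1, hv2⟩ := arith_core L (fun χ : IrrCharacter G => charDegree (χ : G → ℂ)) S f d J
    hf hdeg hdegpos (fun χ i hχ hi => h3 χ i ((hmemS χ).mp hχ) hi)
    (fun χ i hχ hi => h4 χ i (fun h => hχ ((hmemS χ).mpr h)) hi) h5' g (p ^ a * u) hg0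
    (Nat.mul_pos (pow_pos hp.pos a) hu0) (fun χ hχ => hg χ ((hmemS χ).mp hχ)) hW
  have hsumpos : 0 < ∑ χ ∈ S, charDegree (χ : G → ℂ) ^ 2 := by
    have h1 : 0 < charDegree (χ₀ : G → ℂ) ^ 2 := pow_pos (hdegpos χ₀) 2
    exact lt_of_lt_of_le h1
      (Finset.single_le_sum (f := fun χ : IrrCharacter G => charDegree (χ : G → ℂ) ^ 2)
        (fun _ _ => Nat.zero_le _) ((hmemS χ₀).mpr hχ₀))
  have hform : ∑ χ ∈ S, charDegree (χ : G → ℂ) ^ 2 = p ^ (2 * a - dd) * u ^ 2 * v := by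
    rw [hv2]
    have h1 : 2 * a - dd = (a - dd) + a := by omega
    rw [h1, pow_add]
    nth_rewrite 1 [← hgu]
    ring
  have hv0 : 0 < v := by
    rcases Nat.eq_zero_or_pos v with h | h
    · rw [hform, h, mul_zero] at hsumpos; omega
    · exact h
  refine ⟨v, hv0, ?_, le_trans h7 hv1, ?_⟩
  · intro hpv
    have hres := Cfsg.Agent.S4491.result p M hM B hB
    rw [hsum, ha, ← hdd] at hres
    have h1 : p ^ (2 * a - dd + 1) ∣ ∑ χ ∈ S, charDegree (χ : G → ℂ) ^ 2 := by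
      rw [hform, pow_succ]
      obtain ⟨w, hw⟩ := hpv
      exact ⟨u ^ 2 * w, by rw [hw]; ring⟩
    have h2 := (hp.pow_dvd_iff_le_factorization hsumpos.ne').mp h1
    omega
  · rw [hsum, hform]

end Cfsg.Agent.Lib.Helper57.OtAR
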