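import Mathlib
import Cfsg.Agent.Lib.Helper44.PGStmt

set_option autoImplicit false

/-! Piece SQFU of S2474: a matrix `U` with `U ^ p = 1` (characteristic `p`) commuting with a
matrix `T` whose characteristic polynomial is squarefree is the identity.

Route: let `E` be the last nonzero power of `U - 1`; `E * E = 0`, `E` commutes with `T`.  With
`W = ker E ⊇ R = range E` (both `T`-invariant): `charpoly T = charpoly (T|W) * charpoly (T on V/W)`,
`V/W ≅ R` and `charpoly (T|R) ∣ charpoly (T|W)`, so `charpoly (T|R) ^ 2 ∣ charpoly T`. -/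

namespace Cfsg.Agent.Lib.Helper57.PGSQFU

open Polynomial

universe u

section charpoly

variable {K V : Type*} [Field K] [AddCommGroup V] [Module K V] [FiniteDimensional K V]

open Module.Basis in
/-- the characteristic polynomial is multiplicative along an invariant subspace -/
theorem charpoly_eq_mul (W : Submodule K V) (e : V →ₗ[K] V) (he : W ≤ W.comap e) :
    e.charpoly = (e.restrict he).charpoly * (W.mapQ W e he).charpoly := by
  let m := Module.Free.ChooseBasisIndex K W
  let bW : Module.Basis m K W := Module.Free.chooseBasis K W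
  let n := Module.Free.ChooseBasisIndex K (V ⧸ W)
  let bQ : Module.Basis n K (V ⧸ W) := Module.Free.chooseBasis K (V ⧸ W)
  let b := sumQuot bW bQ
  let A : Matrix m m K := LinearMap.toMatrix bW bW (e.restrict he)
  let B : Matrix m n K := Matrix.of fun i l ↦
    ((sumQuot bW bQ).repr (e ((sumQuot bW bQ) (Sum.inr l)))) (Sum.inl i)
  let D : Matrix n n K := LinearMap.toMatrix bQ bQ (W.mapQ W e he)
  suffices LinearMap.toMatrix b b e = Matrix.fromBlocks A B 0 D by
    rw [← LinearMap.charpoly_toMatrix e b, this, ← LinearMap.charpoly_toMatrix (e.restrict he) bW,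
      ← LinearMap.charpoly_toMatrix (W.mapQ W e he) bQ, Matrix.charpoly_fromBlocks_zero₂₁]
  ext u v
  cases u with
  | inl i =>
    cases v with
    | inl k =>
      simp only [b, sumQuot_inl, Matrix.fromBlocks_apply₁₁, A, LinearMap.toMatrix_apply]
      apply sumQuot_repr_inl_of_mem
    | inr l => simp [b, LinearMap.toMatrix_apply, Matrix.fromBlocks_apply₁₂, B]
  | inr j =>
    cases v with
    | inl k =>
      suffices W.mkQ (e (bW k)) = 0 by simp [LinearMap.toMatrix_apply, b, this]
      rw [← LinearMap.mem_ker, Submodule.ker_mkQ]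
      exact he (Submodule.coe_mem (bW k))
    | inr l =>
      simp only [LinearMap.toMatrix_apply, sumQuot_repr_inr,
        Matrix.fromBlocks_apply₂₂, b, D]
      rw [← sumQuot_inr bW bQ l, W.mapQ_apply]
      simp

/-- a square-zero endomorphism commuting with an endomorphism with squarefree characteristic
polynomial vanishes -/
theorem key_lin (f g : V →ₗ[K] V) (hfg : f ∘ₗ g = g ∘ₗ f) (hgg : g ∘ₗ g = 0)
    (hsq : Squarefree f.charpoly) : g = 0 := by
  have hfg' : ∀ v, f (g v) = g (f v) := fun v => LinearMap.congr_fun hfg v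
  have hgg' : ∀ v, g (g v) = 0 := fun v => LinearMap.congr_fun hgg v
  have hW : LinearMap.ker g ≤ (LinearMap.ker g).comap f := by
    intro v hv
    rw [Submodule.mem_comap, LinearMap.mem_ker, ← hfg', LinearMap.mem_ker.mp hv, map_zero]
  have hR : LinearMap.range g ≤ (LinearMap.range g).comap f := by
    rintro _ ⟨v, rfl⟩
    rw [Submodule.mem_comap, hfg']
    exact LinearMap.mem_range_self g (f v)
  have hRW : LinearMap.range g ≤ LinearMap.ker g := by
    rintro _ ⟨v, rfl⟩
    rw [LinearMap.mem_ker, hgg']
  -- first factorisation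
  have h1 := charpoly_eq_mul (LinearMap.ker g) f hW
  -- the quotient is the range
  have h2 : ((LinearMap.ker g).mapQ (LinearMap.ker g) f hW).charpoly
      = (f.restrict hR).charpoly := by
    rw [← LinearEquiv.charpoly_conj g.quotKerEquivRange]
    congr 1
    apply LinearMap.ext
    intro x
    rw [LinearEquiv.conj_apply_apply]
    obtain ⟨y, rfl⟩ := g.quotKerEquivRange.surjective x
    rw [LinearEquiv.symm_apply_apply]
    induction y using Submodule.Quotient.induction_on with
    | H v =>
      apply Subtype.ext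
      rw [Submodule.mapQ_apply, LinearMap.quotKerEquivRange_apply_mk]
      show g (f v) = f (g v)
      rw [hfg']
  -- the range inside the kernel
  have hR' : (LinearMap.range g).comap (LinearMap.ker g).subtype
      ≤ ((LinearMap.range g).comap (LinearMap.ker g).subtype).comap (f.restrict hW) := by
    intro w hw
    rw [Submodule.mem_comap] at hw ⊢
    rw [Submodule.mem_comap]
    exact hR hw
  have h3 := charpoly_eq_mul ((LinearMap.range g).comap (LinearMap.ker g).subtype)
    (f.restrict hW) hR'
  have h4 : ((f.restrict hW).restrict hR').charpoly = (f.restrict hR).charpoly := by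
    rw [← LinearEquiv.charpoly_conj (Submodule.comapSubtypeEquivOfLe hRW)]
    congr 1
  have h5 : (f.restrict hR).charpoly * (f.restrict hR).charpoly ∣ f.charpoly := by
    rw [h1, h2, h3, h4, mul_right_comm]
    exact dvd_mul_right _ _
  have h6 : IsUnit (f.restrict hR).charpoly := hsq _ h5
  have h7 : (f.restrict hR).charpoly.natDegree = 0 := Polynomial.natDegree_eq_zero_of_isUnit h6
  rw [LinearMap.charpoly_natDegree] at h7
  have h8 : LinearMap.range g = ⊥ := Submodule.finrank_eq_zero.mp h7
  exact LinearMap.range_eq_bot.mp h8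

end charpoly

theorem main : Cfsg.Agent.Lib.Helper44.PGStmt.SqfreeUnip.{u} := by
  intro F _ p _ _ κ _ _ T U hsq hUT hUp
  rcases isEmpty_or_nonempty κ with hκ | hκ
  · exact Subsingleton.elim _ _
  have hD : (U - 1) ^ p = 0 := by
    have hc : Commute U 1 := Commute.one_right U
    rw [sub_pow_char_of_commute p hc, hUp, one_pow, sub_self]
  by_contra hU1
  have hD0 : U - 1 ≠ 0 := sub_ne_zero.mpr hU1
  have hex : ∃ k, (U - 1) ^ k = 0 := ⟨p, hD⟩
  classical
  obtain ⟨k₀, hk₀⟩ : ∃ k₀, k₀ = Nat.find hex := ⟨_, rfl⟩
  have hk₀spec : (U - 1) ^ k₀ = 0 := by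
    rw [hk₀]
    exact Nat.find_spec hex
  have hk₀2 : 2 ≤ k₀ := by
    by_contra hlt
    have h01 : k₀ = 0 ∨ k₀ = 1 := by omega
    rcases h01 with h | h
    · rw [h, pow_zero] at hk₀spec
      exact one_ne_zero hk₀spec
    · rw [h, pow_one] at hk₀spec
      exact hD0 hk₀spec
  obtain ⟨E, hE⟩ : ∃ E : Matrix κ κ F, E = (U - 1) ^ (k₀ - 1) := ⟨_, rfl⟩
  have hE0 : E ≠ 0 := by
    rw [hE]
    exact Nat.find_min hex (by omega : k₀ - 1 < Nat.find hex)
  have hEE : E * E = 0 := by
    rw [hE, ← pow_add]
    have h3 : k₀ - 1 + (k₀ - 1) = k₀ + (k₀ - 2) := by omega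
    rw [h3, pow_add, hk₀spec, zero_mul]
  have hET : E * T = T * E := by
    have hc : Commute (U - 1) T := Commute.sub_left hUT (Commute.one_left T)
    rw [hE]
    exact (hc.pow_left _).eq
  have hg : Matrix.toLin' E = 0 :=
    key_lin (Matrix.toLin' T) (Matrix.toLin' E)
      (by rw [← Matrix.toLin'_mul, ← Matrix.toLin'_mul, hET])
      (by rw [← Matrix.toLin'_mul, hEE, map_zero])
      (by rw [Matrix.charpoly_toLin']; exact hsq)
  exact hE0 (by simpa using hg)

end Cfsg.Agent.Lib.Helper57.PGSQFU
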