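import Mathlib
import Cfsg.Agent.Lib.Helper12.SNStmt

/-! S4073 piece BHCARD (helper57, second seat). -/

set_option autoImplicit false

namespace Cfsg.Agent.Lib.Helper57.SNBHCARD

open Cfsg.Agent.Lib.Helper12.SNDef Cfsg.Agent.Lib.Helper12.SNStmt

universe u

theorem comm_of_cyclic {H : Type*} [Group H] [IsCyclic H] : IsMulCommutative H := by
  obtain ⟨g, hg⟩ := IsCyclic.exists_generator (α := H)
  refine ⟨⟨fun a b => ?_⟩⟩
  obtain ⟨i, rfl⟩ := Subgroup.mem_zpowers_iff.mp (hg a)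
  obtain ⟨j, rfl⟩ := Subgroup.mem_zpowers_iff.mp (hg b)
  rw [← zpow_add, ← zpow_add, add_comm]

theorem main : BHCard.{u} := by
  intro L _ _ h2 n hprime H hdvd hH
  constructor
  · by_contra h2d
    have hcop : Nat.Coprime (Nat.card H) (2 ^ n) :=
      Nat.Coprime.pow_right n
        (Nat.coprime_comm.mp ((Nat.Prime.coprime_iff_not_dvd Nat.prime_two).mpr h2d))
    have hd : Nat.card H ∣ 2 ^ n - 1 := hcop.dvd_of_dvd_mul_left hdvd
    rcases (Nat.dvd_prime hprime).mp hd with h1 | h1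
    · apply hH
      have hsub : Subsingleton H := (Nat.card_eq_one_iff_unique.mp h1).1
      exact ⟨⟨fun a b => Subsingleton.elim _ _⟩⟩
    · apply hH
      have hfact : Fact (2 ^ n - 1).Prime := ⟨hprime⟩
      have hcyc : IsCyclic H := isCyclic_of_prime_card h1
      exact comm_of_cyclic
  · by_contra hrd
    have hcop : Nat.Coprime (Nat.card H) (2 ^ n - 1) :=
      Nat.coprime_comm.mp ((Nat.Prime.coprime_iff_not_dvd hprime).mpr hrd)
    have hd : Nat.card H ∣ 2 ^ n := hcop.dvd_of_dvd_mul_right hdvd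
    obtain ⟨m, -, hm⟩ := (Nat.dvd_prime_pow Nat.prime_two).mp hd
    exact hH (h2 H (IsPGroup.of_card hm))

end Cfsg.Agent.Lib.Helper57.SNBHCARD
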