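import Mathlib
import Cfsg.Agent.Lib.Helper12.SNStmt

/-! S4073 piece BINV (helper57, second seat). -/

set_option autoImplicit false

namespace Cfsg.Agent.Lib.Helper57.SNBINV

open Cfsg.Agent.Lib.Helper12.SNDef Cfsg.Agent.Lib.Helper12.SNStmt

universe u

theorem main : BInv.{u} := by
  intro L _ _ hexp e he1 heo T hT hTe
  have hodd_elim : ∀ z ∈ Subgroup.zpowers e, z ^ 2 = 1 → z = 1 := by
    intro z hz hz2
    have h1 : orderOf z ∣ orderOf e := by
      have := orderOf_dvd_natCard (⟨z, hz⟩ : Subgroup.zpowers e)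
      rw [Nat.card_zpowers] at this
      rwa [Subgroup.orderOf_mk] at this
    have h2 : orderOf z ∣ 2 := orderOf_dvd_of_pow_eq_one hz2
    have h3 : Odd (orderOf z) := heo.of_dvd_nat h1
    have h4 : orderOf z = 1 := by
      rcases (Nat.dvd_prime Nat.prime_two).mp h2 with h | h
      · exact h
      · rw [h] at h3; exact absurd h3 (by decide)
    exact orderOf_eq_one_iff.mp h4
  have hinv : ∀ u ∈ T, u ≠ 1 → u * e * u⁻¹ = e⁻¹ := by
    intro u hu hu1
    have hu2 : u ^ 2 = 1 := hT u hu
    have hf : u * e * u⁻¹ ∈ Subgroup.zpowers e := by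
      have hn := hTe hu
      rw [Subgroup.mem_normalizer_iff] at hn
      exact (hn e).mp (Subgroup.mem_zpowers e)
    have hcomm : e * (u * e * u⁻¹) = (u * e * u⁻¹) * e := by
      obtain ⟨k, hk⟩ := Subgroup.mem_zpowers_iff.mp hf
      rw [← hk]
      exact ((Commute.refl e).zpow_right k).eq
    have h1 : u * (e * (u * e * u⁻¹)) * u⁻¹ = (u * e * u⁻¹) * e := by
      calc u * (e * (u * e * u⁻¹)) * u⁻¹ = (u * e * u⁻¹) * (u ^ 2 * e * (u ^ 2)⁻¹) := by group
        _ = (u * e * u⁻¹) * e := by rw [hu2]; group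
    have hu_comm : Commute u (e * (u * e * u⁻¹)) := by
      show u * (e * (u * e * u⁻¹)) = e * (u * e * u⁻¹) * u
      calc u * (e * (u * e * u⁻¹)) = (u * (e * (u * e * u⁻¹)) * u⁻¹) * u := by group
        _ = ((u * e * u⁻¹) * e) * u := by rw [h1]
        _ = e * (u * e * u⁻¹) * u := by rw [← hcomm]
    have h2 := hexp u (e * (u * e * u⁻¹)) hu1 hu2 hu_comm
    have h3 := hodd_elim _ (mul_mem (Subgroup.mem_zpowers e) hf) h2
    exact eq_inv_of_mul_eq_one_right h3
  by_cases hbot : ∀ u ∈ T, u = 1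
  · have : T = ⊥ := (Subgroup.eq_bot_iff_forall T).mpr hbot
    rw [this]; simp
  · push Not at hbot
    obtain ⟨u, hu, hu1⟩ := hbot
    have hsub : (T : Set L) ⊆ {1, u} := by
      intro v hv
      by_contra hvn
      simp only [Set.mem_insert_iff, Set.mem_singleton_iff, not_or] at hvn
      obtain ⟨hv1, hvu⟩ := hvn
      have huv : u * v ∈ T := T.mul_mem hu hv
      have huv1 : u * v ≠ 1 := by
        intro h
        apply hvu
        have hu2 : u ^ 2 = 1 := hT u hu
        have h5 : v = u⁻¹ := eq_inv_of_mul_eq_one_right h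
        rw [h5, inv_eq_iff_mul_eq_one, ← sq]; exact hu2
      have hc : Commute (u * v) e := by
        show u * v * e = e * (u * v)
        have h1 := hinv u hu hu1
        have h2 := hinv v hv hv1
        have h3 : (u * v) * e * (u * v)⁻¹ = e := by
          calc (u * v) * e * (u * v)⁻¹ = u * (v * e * v⁻¹) * u⁻¹ := by group
            _ = u * e⁻¹ * u⁻¹ := by rw [h2]
            _ = (u * e * u⁻¹)⁻¹ := by group
            _ = e := by rw [h1, inv_inv]
        calc u * v * e = ((u * v) * e * (u * v)⁻¹) * (u * v) := by group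
          _ = e * (u * v) := by rw [h3]
      have he2 := hexp (u * v) e huv1 (hT _ huv) hc
      exact he1 (hodd_elim e (Subgroup.mem_zpowers e) he2)
    calc Nat.card T = (T : Set L).ncard := Nat.card_coe_set_eq (T : Set L)
      _ ≤ ({1, u} : Set L).ncard := Set.ncard_le_ncard hsub (Set.toFinite _)
      _ ≤ 2 := by rw [Set.ncard_pair (Ne.symm hu1)]

end Cfsg.Agent.Lib.Helper57.SNBINV
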