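import Mathlib
import Cfsg.Agent.Lib.Helper12.SNStmt

/-! S4073 piece S2B (helper57): the `p`-part of a normal commutative subgroup. -/

set_option autoImplicit false

namespace Cfsg.Agent.Lib.Helper57.SNS2B

open Cfsg.Agent.Lib.Helper12.SNDef Cfsg.Agent.Lib.Helper12.SNStmt

universe u

theorem main : S2B.{u} := by
  intro X _ _ A hAn hAc p hp
  have hcomm : ∀ a ∈ A, ∀ b ∈ A, a * b = b * a := by
    intro a ha b hb
    have h1 := hAc.is_comm.comm (⟨a, ha⟩ : A) ⟨b, hb⟩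
    exact congrArg Subtype.val h1
  let B : Subgroup X :=
    { carrier := {a | a ∈ A ∧ ∃ k : ℕ, a ^ (p ^ k) = 1}
      mul_mem' := by
        rintro a b ⟨ha, k, hk⟩ ⟨hb, l, hl⟩
        refine ⟨A.mul_mem ha hb, k + l, ?_⟩
        rw [(show Commute a b from hcomm a ha b hb).mul_pow, pow_add, pow_mul, hk, one_pow,
          mul_comm (p ^ k), pow_mul, hl, one_pow, one_mul]
      one_mem' := ⟨A.one_mem, 0, by simp⟩
      inv_mem' := by
        rintro a ⟨ha, k, hk⟩
        exact ⟨A.inv_mem ha, k, by rw [inv_pow, hk, inv_one]⟩ }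
  refine ⟨B, ?_, fun a ha => ha.1, ?_, fun a ha hk => ⟨ha, hk⟩⟩
  · constructor
    rintro n ⟨hn, k, hk⟩ g
    refine ⟨hAn.conj_mem n hn g, k, ?_⟩
    rw [conj_pow, hk]
    group
  · rintro ⟨a, ha, k, hk⟩
    refine ⟨k, ?_⟩
    apply Subtype.ext
    rw [Subgroup.coe_pow]
    exact hk

end Cfsg.Agent.Lib.Helper57.SNS2B
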