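import Mathlib
import Cfsg.Agent.Lib.Helper12.SNStmt

/-! S4073 piece S2D (helper57): a `p`-subgroup containing all `p`-elements of its normalizer is
a Sylow subgroup. -/

set_option autoImplicit false

namespace Cfsg.Agent.Lib.Helper57.SNS2D

open Cfsg.Agent.Lib.Helper12.SNDef Cfsg.Agent.Lib.Helper12.SNStmt

universe u

theorem main : S2D.{u} := by
  intro G _ _ p _ Q hloc P hQP
  by_contra hne
  have hnil : Group.IsNilpotent ↥(P : Subgroup G) := P.isPGroup'.isNilpotent
  have hlt : Q.subgroupOf (P : Subgroup G) < ⊤ := by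
    rw [lt_top_iff_ne_top]
    intro h
    apply hne
    apply le_antisymm hQP
    intro y hy
    have : (⟨y, hy⟩ : (P : Subgroup G)) ∈ Q.subgroupOf (P : Subgroup G) := by
      rw [h]; trivial
    exact Subgroup.mem_subgroupOf.mp this
  have hnc := Group.normalizerCondition_of_isNilpotent (G := ↥(P : Subgroup G)) _ hlt
  obtain ⟨u, hun, huQ⟩ := SetLike.exists_of_lt hnc
  have huQ' : (u : G) ∉ Q := fun h => huQ (Subgroup.mem_subgroupOf.mpr h)
  apply huQ'
  apply hloc
  · rw [Subgroup.mem_normalizer_iff] at hun ⊢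
    intro h
    constructor
    · intro hh
      have := (hun ⟨h, hQP hh⟩).mp (Subgroup.mem_subgroupOf.mpr hh)
      exact Subgroup.mem_subgroupOf.mp this
    · intro hh
      have hhP : h ∈ (P : Subgroup G) := by
        have h1 : (u : G) * h * (u : G)⁻¹ ∈ (P : Subgroup G) := hQP hh
        have h2 : h = (u : G)⁻¹ * ((u : G) * h * (u : G)⁻¹) * (u : G) := by group
        rw [h2]
        exact mul_mem (mul_mem (inv_mem u.2) h1) u.2
      have := (hun ⟨h, hhP⟩).mpr (Subgroup.mem_subgroupOf.mpr hh)
      exact Subgroup.mem_subgroupOf.mp this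
  · obtain ⟨k, hk⟩ := P.isPGroup' u
    refine ⟨k, ?_⟩
    have := congrArg Subtype.val hk
    rwa [Subgroup.coe_pow] at this

end Cfsg.Agent.Lib.Helper57.SNS2D
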