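import Mathlib
import Cfsg.Agent.Lib.Helper12.SNStmt

/-! S4073 piece S2QP (helper57). Also the key lemma `mem_of_coprime`: in a split group
`X = ⟨x⟩ ⋉ A` with `⟨x⟩` a `q`-group, every element of order prime to `q` lies in `A`. -/

set_option autoImplicit false

namespace Cfsg.Agent.Lib.Helper57.SNS2QP

open Cfsg.Agent.Lib.Helper12.SNDef Cfsg.Agent.Lib.Helper12.SNStmt

universe u

theorem mem_of_coprime {X : Type u} [Group X] [Finite X] (x : X) (A : Subgroup X) (q : ℕ)
    (hsp : Split X x A q) (g : X) (hgo : Nat.Coprime (orderOf g) q) : g ∈ A := by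
  obtain ⟨hq, hAn, hAc, ⟨k, hk⟩, hqA, hcompl, hxq, hfpf⟩ := hsp
  have hAn' : A.Normal := hAn
  have hcard : Nat.card (X ⧸ A) = q ^ k := by
    have h1 := hcompl.card_mul_card
    have h2 := A.card_mul_index
    rw [Nat.card_zpowers, hk] at h1
    have h3 : Nat.card A * A.index = Nat.card A * q ^ k := by
      rw [h2, ← h1, mul_comm]
    have h4 := Nat.eq_of_mul_eq_mul_left Nat.card_pos h3
    rw [← Subgroup.index_eq_card, h4]
  have hd1 : orderOf (QuotientGroup.mk' A g) ∣ orderOf g := orderOf_map_dvd _ g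
  have hd2 : orderOf (QuotientGroup.mk' A g) ∣ q ^ k := by
    rw [← hcard]; exact orderOf_dvd_natCard _
  have hcop : Nat.Coprime (orderOf g) (q ^ k) := Nat.Coprime.pow_right k hgo
  have h1 : orderOf (QuotientGroup.mk' A g) = 1 :=
    Nat.eq_one_of_dvd_coprimes hcop hd1 hd2
  rw [orderOf_eq_one_iff] at h1
  exact (QuotientGroup.eq_one_iff g).mp h1

theorem main : S2QP.{u} := by
  intro X _ _ x A p hsp Q hQn hQ g hgo
  have hgA : g ∈ A := mem_of_coprime x A p hsp g hgo
  obtain ⟨hq, hAn, hAc, ⟨k, hk⟩, hqA, hcompl, hxq, hfpf⟩ := hsp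
  have hfact : Fact p.Prime := ⟨hq⟩
  obtain ⟨n, hn⟩ := IsPGroup.iff_card.mp hQ
  have hdis : Disjoint Q A := by
    apply Subgroup.disjoint_of_coprime_natCard
    rw [hn]
    exact Nat.Coprime.pow_left n ((Nat.Prime.coprime_iff_not_dvd hq).mpr hqA)
  rw [Subgroup.mem_centralizer_iff]
  intro h hh
  exact (Subgroup.commute_of_normal_of_disjoint Q A hQn hAn hdis h g hh hgA).eq

end Cfsg.Agent.Lib.Helper57.SNS2QP
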