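import Mathlib
import Cfsg.Agent.Lib.Helper12.SNStmt
import Cfsg.Agent.Lib.Helper57.SNS2QP

/-! S4073 piece S2QNP (helper57). -/

set_option autoImplicit false

namespace Cfsg.Agent.Lib.Helper57.SNS2QNP

open Cfsg.Agent.Lib.Helper12.SNDef Cfsg.Agent.Lib.Helper12.SNStmt

universe u

theorem main : S2QNP.{u} := by
  intro X _ _ x A q hsp p hp hpq u hu
  obtain ⟨k, hk⟩ := hu
  have hq : q.Prime := hsp.1
  have hd : orderOf u ∣ p ^ k := orderOf_dvd_of_pow_eq_one hk
  have hcop : Nat.Coprime (orderOf u) q :=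
    Nat.Coprime.coprime_dvd_left hd (Nat.Coprime.pow_left k ((Nat.coprime_primes hp hq).mpr hpq))
  exact Cfsg.Agent.Lib.Helper57.SNS2QP.mem_of_coprime x A q hsp u hcop

end Cfsg.Agent.Lib.Helper57.SNS2QNP
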