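import Mathlib
import Cfsg.Agent.Lib.Helper26.T64Stmt

set_option autoImplicit false

/-! Piece HEIS of S3157: a group with Heisenberg coordinates over `F4` is isomorphic to the image
of the upper unitriangular group in `PSL(3, F4)`. -/

namespace Cfsg.Agent.Lib.Helper57.T64HEIS

open Cfsg.Agent.Lib.Helper26.T64Stmt Cfsg.Agent.H84.PslDefs

universe u

/-- the unitriangular matrix with coordinates `(a, b, c)`: rows `[1, b, c] [0, 1, a] [0, 0, 1]` -/
def mat (p : F4 × F4 × F4) : Matrix.SpecialLinearGroup (Fin 3) F4 :=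
  ⟨!![1, p.2.1, p.2.2; 0, 1, p.1; 0, 0, 1], by simp [Matrix.det_fin_three]⟩

theorem mat_val (p : F4 × F4 × F4) :
    (mat p).1 = !![1, p.2.1, p.2.2; 0, 1, p.1; 0, 0, 1] := rfl

theorem mat_mul (p q : F4 × F4 × F4) :
    mat p * mat q = mat (p.1 + q.1, p.2.1 + q.2.1, p.2.2 + q.2.2 + q.1 * p.2.1) := by
  apply Subtype.ext
  show (mat p).1 * (mat q).1 = (mat _).1
  rw [mat_val, mat_val, mat_val]
  ext i j
  fin_cases i <;> fin_cases j <;> simp [Matrix.mul_apply, Fin.sum_univ_three] <;> ring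

theorem mat_injective : Function.Injective mat := by
  rintro ⟨a, b, c⟩ ⟨a', b', c'⟩ h
  have h' := congrArg (fun g : Matrix.SpecialLinearGroup (Fin 3) F4 => g.1) h
  simp only [mat_val] at h'
  have e01 := congrFun (congrFun h' 0) 1
  have e02 := congrFun (congrFun h' 0) 2
  have e12 := congrFun (congrFun h' 1) 2
  simp at e01 e02 e12
  rw [e01, e02, e12]

theorem mat_zero : mat (0, 0, 0) = 1 := by
  apply Subtype.ext
  show (mat (0, 0, 0)).1 = 1
  rw [mat_val]
  ext i j
  fin_cases i <;> fin_cases j <;> simp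

theorem mat_mem_Uni (p : F4 × F4 × F4) : mat p ∈ Uni 3 F4 := by
  rw [mem_Uni]
  constructor
  · intro i j hji
    show (mat p).1 i j = 0
    rw [mat_val]
    fin_cases i <;> fin_cases j <;> simp at hji ⊢
  · intro i
    show (mat p).1 i i = 1
    rw [mat_val]
    fin_cases i <;> simp

theorem eq_mat_of_mem_Uni (g : Matrix.SpecialLinearGroup (Fin 3) F4) (hg : g ∈ Uni 3 F4) :
    g = mat (g.1 1 2, g.1 0 1, g.1 0 2) := by
  rw [mem_Uni] at hg
  obtain ⟨h1, h2⟩ := hg
  have h1' : ∀ i j : Fin 3, j < i → g.1 i j = 0 := h1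
  have h2' : ∀ i : Fin 3, g.1 i i = 1 := h2
  apply Subtype.ext
  rw [mat_val]
  ext i j
  fin_cases i <;> fin_cases j <;> simp <;>
    first
      | exact h2' _
      | exact h1' _ _ (by decide)

theorem key {T : Type u} [Group T] (A B C A' B' C' D : T) (hC : ∀ t, C * t = t * C)
    (hC' : ∀ t, C' * t = t * C') (hD : ∀ t, D * t = t * D) (hBA : B * A' = A' * B * D) :
    A * B * C * (A' * B' * C') = (A * A') * (B * B') * (C * C' * D) := by
  calc A * B * C * (A' * B' * C') = A * (B * A') * (B' * (C' * C)) := by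
        rw [mul_assoc (A * B) C, hC (A' * B' * C')]
        simp only [mul_assoc]
    _ = A * (A' * B * D) * (B' * (C' * C)) := by rw [hBA]
    _ = A * A' * (B * B') * (C * C' * D) := by
        have h1 : D * (B' * (C' * C)) = B' * (C * (C' * D)) := by
          rw [hD (B' * (C' * C)), hC' C]
          simp only [mul_assoc]
        simp only [mul_assoc]
        rw [h1]

theorem main : Cfsg.Agent.Lib.Helper26.T64Stmt.HEIS.{u} := by
  intro T _ hH
  obtain ⟨α, β, γ, hα, hβ, hγ, hγc, hβα, hbij⟩ := hH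
  classical
  let e : F4 × F4 × F4 ≃ T := Equiv.ofBijective _ hbij
  have he : ∀ p : F4 × F4 × F4, e p = α p.1 * β p.2.1 * γ p.2.2 := fun p => rfl
  have hemul : ∀ p q : F4 × F4 × F4,
      e p * e q = e (p.1 + q.1, p.2.1 + q.2.1, p.2.2 + q.2.2 + q.1 * p.2.1) := by
    intro p q
    rw [he, he, he]
    show _ = α (p.1 + q.1) * β (p.2.1 + q.2.1) * γ (p.2.2 + q.2.2 + q.1 * p.2.1)
    rw [hα, hβ, hγ, hγ]
    exact key _ _ _ _ _ _ _ (hγc _) (hγc _) (hγc _) (hβα q.1 p.2.1)
  let ψ : T →* Matrix.SpecialLinearGroup (Fin 3) F4 :=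
    MonoidHom.mk' (fun t => mat (e.symm t)) (by
      intro s t
      obtain ⟨p, rfl⟩ := e.surjective s
      obtain ⟨q, rfl⟩ := e.surjective t
      rw [hemul]
      simp only [Equiv.symm_apply_apply]
      rw [mat_mul])
  have hψ : ∀ t, ψ t = mat (e.symm t) := fun t => rfl
  have hψinj : Function.Injective ψ := fun s t h => e.symm.injective (mat_injective h)
  let f : T →* Matrix.ProjectiveSpecialLinearGroup (Fin 3) F4 := (proj 3 F4).comp ψ
  have hfinj : Function.Injective f := by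
    rw [injective_iff_map_eq_one]
    intro t ht
    have h1 : ψ t ∈ (proj 3 F4).ker := ht
    rw [ker_proj, Matrix.SpecialLinearGroup.mem_center_iff] at h1
    obtain ⟨r, hr, hrs⟩ := h1
    have h2 : ψ t = 1 := by
      rw [hψ] at hrs ⊢
      generalize e.symm t = p at hrs ⊢
      obtain ⟨a, b, c⟩ := p
      have hrs' : Matrix.scalar (Fin 3) r = (mat (a, b, c)).1 := hrs
      rw [mat_val] at hrs'
      have e01 := congrFun (congrFun hrs' 0) 1
      have e02 := congrFun (congrFun hrs' 0) 2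
      have e12 := congrFun (congrFun hrs' 1) 2
      simp at e01 e02 e12
      rw [← e01, ← e02, ← e12]
      exact mat_zero
    exact hψinj (h2.trans (map_one ψ).symm)
  have hrange : f.range = Ubar 3 F4 := by
    ext x
    constructor
    · rintro ⟨t, rfl⟩
      exact ⟨ψ t, mat_mem_Uni _, rfl⟩
    · rintro ⟨g, hg, rfl⟩
      refine ⟨e (g.1 1 2, g.1 0 1, g.1 0 2), ?_⟩
      show proj 3 F4 (ψ _) = _
      rw [hψ, Equiv.symm_apply_apply, ← eq_mat_of_mem_Uni g hg]
  exact ⟨(MonoidHom.ofInjective hfinj).trans (MulEquiv.subgroupCongr hrange)⟩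

end Cfsg.Agent.Lib.Helper57.T64HEIS
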