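import Cfsg.Agent.Lib.Helper57.Class2Struct

/-!
# Automorphisms with small fixed-point subgroups (helper57)

For a finite group `G` all of whose commutators lie in a central cyclic subgroup `⟨c⟩` of
order `p`, the least prime divisor of `|G|`, we construct `p` automorphisms whose fixed-point
subgroups have index at least `p ^ 2`.
-/

set_option autoImplicit false

namespace Cfsg.Agent.Helper57.Transv

open Subgroup Cfsg.Agent.Helper57.AOB Cfsg.Agent.Helper57.C2S
open scoped commutatorElement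

variable {G : Type*} [Group G]

theorem central_comm {ζ : G} (hζ : ζ ∈ center G) (g : G) : ζ * g = g * ζ :=
  ((Subgroup.mem_center_iff.mp hζ) g).symm

theorem mul_comm_comm (hZ : ∀ a b : G, ⁅a, b⁆ ∈ center G) (u v : G) :
    u * v = v * u * ⁅u, v⁆ := by
  rw [← central_comm (hZ u v) (v * u), commutatorElement_def]
  group

theorem choose_two_add (j k : ℕ) : (j + k).choose 2 = j.choose 2 + k.choose 2 + j * k := by
  induction k with
  | zero => simp
  | succ k ih =>
    have h1 : (j + (k + 1)).choose 2 = (j + k).choose 1 + (j + k).choose 2 :=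
      Nat.choose_succ_succ' (j + k) 1
    have h2 : (k + 1).choose 2 = k.choose 1 + k.choose 2 := Nat.choose_succ_succ' k 1
    rw [h1, h2, ih, Nat.choose_one_right, Nat.choose_one_right]
    ring

/-- The class-two power formula. -/
theorem mul_pow_class2 (hZ : ∀ a b : G, ⁅a, b⁆ ∈ center G) (a b : G) (k : ℕ) :
    (a * b) ^ k = a ^ k * b ^ k * ⁅b, a⁆ ^ (k.choose 2) := by
  induction k with
  | zero => simp
  | succ k ih =>
    have hd : ∀ (m : ℕ) (g : G), ⁅b, a⁆ ^ m * g = g * ⁅b, a⁆ ^ m :=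
      fun m g => central_comm (pow_mem (hZ b a) m) g
    have hba : b ^ k * a = a * b ^ k * ⁅b, a⁆ ^ k := by
      rw [mul_comm_comm hZ (b ^ k) a, comm_pow_left hZ]
    have hch : (k + 1).choose 2 = k + k.choose 2 := by
      rw [Nat.choose_succ_succ' k 1, Nat.choose_one_right]
    calc (a * b) ^ (k + 1) = a ^ k * b ^ k * ⁅b, a⁆ ^ (k.choose 2) * (a * b) := by
          rw [pow_succ, ih]
      _ = a ^ k * (b ^ k * a) * b * ⁅b, a⁆ ^ (k.choose 2) := by
          rw [mul_assoc (a ^ k * b ^ k), hd]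
          simp only [mul_assoc]
      _ = a ^ k * (a * b ^ k * ⁅b, a⁆ ^ k) * b * ⁅b, a⁆ ^ (k.choose 2) := by rw [hba]
      _ = a ^ k * a * (b ^ k * b) * (⁅b, a⁆ ^ k * ⁅b, a⁆ ^ (k.choose 2)) := by
          simp only [mul_assoc]
          rw [← mul_assoc (⁅b, a⁆ ^ k) b, hd k b, mul_assoc]
      _ = a ^ (k + 1) * b ^ (k + 1) * ⁅b, a⁆ ^ ((k + 1).choose 2) := by
          rw [← pow_succ, ← pow_succ, ← pow_add, hch]

variable [Finite G]

theorem pow_not_mem_center {y : G} (hy : y ∉ center G) {k : ℕ} (hk : 0 < k)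
    (hkp : k < (Nat.card G).minFac) : y ^ k ∉ center G := by
  intro hmem
  have h1 : ((y : G ⧸ center G)) ^ k = 1 := by
    rw [← QuotientGroup.mk_pow, QuotientGroup.eq_one_iff]
    exact hmem
  have h2 : (y : G ⧸ center G) ≠ 1 := by
    rw [Ne, QuotientGroup.eq_one_iff]
    exact hy
  have h3 := orderOf_dvd_of_pow_eq_one h1
  have h4 : orderOf (y : G ⧸ center G) ∣ Nat.card G :=
    (_root_.orderOf_dvd_natCard _).trans (Subgroup.card_quotient_dvd_card _)
  have h5 : orderOf (y : G ⧸ center G) ≠ 1 := by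
    rw [Ne, orderOf_eq_one_iff]
    exact h2
  have h6 : 0 < orderOf (y : G ⧸ center G) := orderOf_pos _
  have h7 := Nat.minFac_le_of_dvd (by omega) h4
  have h8 := Nat.le_of_dvd hk h3
  omega

theorem dvd_of_pow_mem_center {y : G} (hy : y ∉ center G) {p : ℕ} (hp : p.Prime)
    (hyp : y ^ p ∈ center G) {k : ℕ} (hk : y ^ k ∈ center G) : p ∣ k := by
  haveI : Fact p.Prime := ⟨hp⟩
  have h1 : ((y : G ⧸ center G)) ^ k = 1 := by
    rw [← QuotientGroup.mk_pow, QuotientGroup.eq_one_iff]
    exact hk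
  have h2 : (y : G ⧸ center G) ≠ 1 := by
    rw [Ne, QuotientGroup.eq_one_iff]
    exact hy
  have h3 : ((y : G ⧸ center G)) ^ p = 1 := by
    rw [← QuotientGroup.mk_pow, QuotientGroup.eq_one_iff]
    exact hyp
  rw [← orderOf_eq_prime h3 h2]
  exact orderOf_dvd_of_pow_eq_one h1

/-- Lemma M: an automorphism `β` fixing the center with a strong fixed-point condition yields
`p` automorphisms with small fixed-point subgroups. -/
theorem exists_autos (hZ : ∀ a b : G, ⁅a, b⁆ ∈ center G)
    (β : MulAut G) (y : G) (hy : y ∉ center G)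
    (hfix : ∀ ζ ∈ center G, β ζ = ζ)
    (hii : ∀ g x : G, β x * ⁅g, x⁆ = x → ⁅x, y⁆ = 1 ∧ ⁅g, x⁆ = 1) :
    ∃ S : Finset (MulAut G), (Nat.card G).minFac ≤ S.card ∧
      ∀ α ∈ S, (Nat.card G).minFac ^ 2 * Nat.card (fixSub α) ≤ Nat.card G := by
  classical
  obtain ⟨g₀, hg₀⟩ : ∃ g₀ : G, ⁅y, g₀⁆ ≠ 1 := by
    by_contra hno
    apply hy
    rw [Subgroup.mem_center_iff]
    intro g
    have : ⁅y, g⁆ = 1 := by
      by_contra h
      exact hno ⟨g, h⟩
    exact (commutatorElement_eq_one_iff_mul_comm.mp this).symm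
  have key : ∀ i j : ℕ, i < j → j < (Nat.card G).minFac →
      β * MulAut.conj (g₀ * y ^ i) ≠ β * MulAut.conj (g₀ * y ^ j) := by
    intro i j hij hj heq
    have h1 : MulAut.conj (g₀ * y ^ i) = MulAut.conj (g₀ * y ^ j) := mul_left_cancel heq
    have h2 : y ^ j = y ^ i * y ^ (j - i) := by
      rw [← pow_add]
      congr 1
      omega
    have h1' : MulAut.conj (g₀ * y ^ i) * MulAut.conj (y ^ (j - i)) =
        MulAut.conj (g₀ * y ^ i) * 1 := by
      rw [← map_mul, mul_assoc, ← h2, mul_one]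
      exact h1.symm
    have h3 : MulAut.conj (y ^ (j - i)) = 1 := mul_left_cancel h1'
    apply pow_not_mem_center hy (k := j - i) (by omega) (by omega)
    rw [Subgroup.mem_center_iff]
    intro g
    have h4 := DFunLike.congr_fun h3 g
    rw [MulAut.conj_apply, MulAut.one_apply] at h4
    exact (mul_inv_eq_iff_eq_mul.mp h4).symm
  have hφinj : Set.InjOn (fun i : ℕ => β * MulAut.conj (g₀ * y ^ i))
      (Finset.range (Nat.card G).minFac : Set ℕ) := by
    intro i hi j hj hij
    by_contra hne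
    rcases Nat.lt_or_gt_of_ne hne with h | h
    · exact key i j h (Finset.mem_range.mp (Finset.mem_coe.mp hj)) hij
    · exact key j i h (Finset.mem_range.mp (Finset.mem_coe.mp hi)) hij.symm
  refine ⟨(Finset.range (Nat.card G).minFac).image
    (fun i : ℕ => β * MulAut.conj (g₀ * y ^ i)), ?_, ?_⟩
  · rw [Finset.card_image_of_injOn hφinj, Finset.card_range]
  · intro α hα
    obtain ⟨i, -, rfl⟩ := Finset.mem_image.mp hα
    have hyg : ⁅y, g₀ * y ^ i⁆ ≠ 1 := by
      rw [comm_mul_right hZ]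
      have : ⁅y, y ^ i⁆ = 1 := by
        rw [commutatorElement_eq_one_iff_mul_comm]
        exact ((Commute.refl y).pow_right i).eq
      rw [this, mul_one]
      exact hg₀
    generalize g₀ * y ^ i = g at hyg ⊢
    have hle : fixSub (β * MulAut.conj g) ≤
        centralizer ({y} : Set G) ⊓ centralizer ({g} : Set G) := by
      intro x hx
      rw [mem_fixSub, MulAut.mul_apply, MulAut.conj_apply] at hx
      have h1 : g * x * g⁻¹ = ⁅g, x⁆ * x := by
        rw [commutatorElement_def]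
        group
      rw [h1, map_mul, hfix _ (hZ g x), central_comm (hZ g x)] at hx
      obtain ⟨h3, h4⟩ := hii g x hx
      refine Subgroup.mem_inf.mpr
        ⟨mem_centralizer_singleton.mpr h3, mem_centralizer_singleton.mpr ?_⟩
      rw [← commutatorElement_inv g x, h4, inv_one]
    have hlt : centralizer ({y} : Set G) ⊓ centralizer ({g} : Set G) <
        centralizer ({y} : Set G) := by
      refine lt_of_le_of_ne inf_le_left ?_
      intro heq
      have : y ∈ centralizer ({y} : Set G) ⊓ centralizer ({g} : Set G) := by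
        rw [heq]
        exact self_mem_centralizer y
      exact hyg (mem_centralizer_singleton.mp (Subgroup.mem_inf.mp this).2)
    have h5 := minFac_mul_card_le_of_lt hlt
    have h6 := minFac_mul_card_le_of_ne_top (centralizer_ne_top hy)
    have h7 := Subgroup.card_le_of_le hle
    calc (Nat.card G).minFac ^ 2 * Nat.card (fixSub (β * MulAut.conj g))
        ≤ (Nat.card G).minFac ^ 2 *
          Nat.card ↥(centralizer ({y} : Set G) ⊓ centralizer ({g} : Set G)) :=
          Nat.mul_le_mul_left _ h7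
      _ = (Nat.card G).minFac * ((Nat.card G).minFac *
          Nat.card ↥(centralizer ({y} : Set G) ⊓ centralizer ({g} : Set G))) := by ring
      _ ≤ (Nat.card G).minFac * Nat.card (centralizer ({y} : Set G)) :=
          Nat.mul_le_mul_left _ h5
      _ ≤ Nat.card G := h6

/-- A twisted homomorphism `x ↦ x * E (n x)` which is injective is an automorphism. -/
theorem exists_aut_of_twist {p : ℕ} (n : G → ℕ) (E : ℕ → G)
    (hn_mul : ∀ a b, n (a * b) ≡ n a + n b [MOD p])
    (hn_one : n 1 ≡ 0 [MOD p])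
    (Eper : ∀ j k, j ≡ k [MOD p] → E j = E k)
    (E0 : E 0 = 1)
    (Emul : ∀ a b : G, a * E (n a) * (b * E (n b)) = a * b * E (n a + n b))
    (inj : ∀ x, x * E (n x) = 1 → x = 1) :
    ∃ β : MulAut G, ∀ x, β x = x * E (n x) := by
  let f : G →* G :=
    { toFun := fun x => x * E (n x)
      map_one' := by
        show 1 * E (n 1) = 1
        rw [Eper _ _ hn_one, E0, one_mul]
      map_mul' := fun a b => by
        show a * b * E (n (a * b)) = a * E (n a) * (b * E (n b))
        rw [Eper _ _ (hn_mul a b), Emul] }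
  have hinj : Function.Injective f := by
    rw [injective_iff_map_eq_one]
    intro x hx
    exact inj x hx
  exact ⟨MulEquiv.ofBijective f (Finite.injective_iff_bijective.mp hinj), fun x => rfl⟩

theorem nexp_mul (hZ : ∀ a b : G, ⁅a, b⁆ ∈ center G) {c h : G} {p : ℕ}
    (hc : orderOf c = p) {n : G → ℕ} (hn : ∀ x, c ^ n x = ⁅x, h⁆) (a b : G) :
    n (a * b) ≡ n a + n b [MOD p] := by
  rw [← hc, ← pow_eq_pow_iff_modEq, hn, comm_mul_left hZ, pow_add, hn, hn]

theorem nexp_zero_iff {c h : G} {p : ℕ} (hc : orderOf c = p) {n : G → ℕ}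
    (hn : ∀ x, c ^ n x = ⁅x, h⁆) (x : G) :
    n x ≡ 0 [MOD p] ↔ ⁅x, h⁆ = 1 := by
  rw [← hc, ← pow_eq_pow_iff_modEq, hn, pow_zero]

/-- Case B: a central element of order `p` outside `⟨c⟩` gives a central automorphism. -/
theorem caseB (hZ : ∀ a b : G, ⁅a, b⁆ ∈ center G) (hN1 : Nat.card G ≠ 1) {c : G}
    (hc : orderOf c = (Nat.card G).minFac) (hcz : ∀ a b : G, ⁅a, b⁆ ∈ zpowers c)
    {w : G} (hw : w ∈ center G) (hwp : w ^ (Nat.card G).minFac = 1) (hwc : w ∉ zpowers c)
    (h : G) :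
    ∃ β : MulAut G, (∀ ζ ∈ center G, β ζ = ζ) ∧
      ∀ g x : G, β x * ⁅g, x⁆ = x → ⁅x, h⁆ = 1 ∧ ⁅g, x⁆ = 1 := by
  have hpp := Nat.minFac_prime hN1
  have hex : ∀ x : G, ∃ k : ℕ, c ^ k = ⁅x, h⁆ := fun x =>
    (Submonoid.mem_powers_iff _ _).mp (mem_powers_iff_mem_zpowers.mpr (hcz x h))
  choose n hn using hex
  have hwcomm : ∀ (k : ℕ) (g : G), w ^ k * g = g * w ^ k := fun k g =>
    central_comm (pow_mem hw k) g
  have Eper : ∀ j k, j ≡ k [MOD (Nat.card G).minFac] → w ^ j = w ^ k := by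
    intro j k hjk
    rw [pow_eq_pow_iff_modEq]
    exact Nat.ModEq.of_dvd (orderOf_dvd_of_pow_eq_one hwp) hjk
  have hzero : ∀ x, ⁅x, h⁆ = 1 → w ^ n x = 1 := by
    intro x hx
    have := Eper _ _ ((nexp_zero_iff hc hn x).mpr hx)
    rwa [pow_zero] at this
  obtain ⟨β, hβ⟩ := exists_aut_of_twist (p := (Nat.card G).minFac) n (fun k => w ^ k)
    (nexp_mul hZ hc hn) ((nexp_zero_iff hc hn 1).mpr (commutatorElement_one_left h))
    Eper (pow_zero w)
    (fun a b => by
      show a * w ^ n a * (b * w ^ n b) = a * b * w ^ (n a + n b)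
      calc a * w ^ n a * (b * w ^ n b) = a * (w ^ n a * b) * w ^ n b := by
            simp only [mul_assoc]
        _ = a * (b * w ^ n a) * w ^ n b := by rw [hwcomm (n a) b]
        _ = a * b * w ^ (n a + n b) := by
            rw [pow_add]
            simp only [mul_assoc])
    (fun x hx => by
      have hxZ : x ∈ center G := by
        have : x = (w ^ n x)⁻¹ := eq_inv_of_mul_eq_one_left hx
        rw [this]
        exact inv_mem (pow_mem hw _)
      have := hzero x (comm_eq_one_of_mem_center_left hxZ h)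
      rw [this, mul_one] at hx
      exact hx)
  refine ⟨β, ?_, ?_⟩
  · intro ζ hζ
    rw [hβ, hzero ζ (comm_eq_one_of_mem_center_left hζ h), mul_one]
  · intro g x hx
    rw [hβ] at hx
    have h1 : w ^ n x * ⁅g, x⁆ = 1 := by
      have : x * (w ^ n x * ⁅g, x⁆) = x * 1 := by rw [← mul_assoc, hx, mul_one]
      exact mul_left_cancel this
    have h2 : w ^ n x ∈ zpowers c := by
      have : w ^ n x = ⁅g, x⁆⁻¹ := eq_inv_of_mul_eq_one_left h1
      rw [this]
      exact inv_mem (hcz g x)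
    have h3 : (Nat.card G).minFac ∣ n x := by
      by_contra hnd
      have hcop : Nat.Coprime (n x) (Nat.card G).minFac :=
        ((Nat.Prime.coprime_iff_not_dvd hpp).mpr hnd).symm
      obtain ⟨m, -, hm⟩ := Nat.exists_mul_mod_eq_one_of_coprime hcop hpp.one_lt
      apply hwc
      have : w = (w ^ n x) ^ m := by
        rw [← pow_mul]
        have := Eper (n x * m) (n x * m % (Nat.card G).minFac) (Nat.mod_modEq _ _).symm
        rw [this, hm, pow_one]
      rw [this]
      exact pow_mem h2 m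
    have h4 : n x ≡ 0 [MOD (Nat.card G).minFac] := (Nat.modEq_zero_iff_dvd).mpr h3
    have h5 : ⁅x, h⁆ = 1 := (nexp_zero_iff hc hn x).mp h4
    refine ⟨h5, ?_⟩
    rw [hzero x h5, one_mul] at h1
    exact h1

theorem central_right_comm {ζ : G} (hζ : ζ ∈ center G) (g h : G) : g * ζ * h = g * h * ζ := by
  rw [mul_assoc, central_comm hζ h, ← mul_assoc]

/-- Case A: the transvection `x ↦ x * y ^ n x * c ^ (-(n x).choose 2)`. -/
theorem caseA (hZ : ∀ a b : G, ⁅a, b⁆ ∈ center G) (hN1 : Nat.card G ≠ 1) {c : G}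
    (hc : orderOf c = (Nat.card G).minFac) (hcZ : c ∈ center G)
    (hcz : ∀ a b : G, ⁅a, b⁆ ∈ zpowers c)
    {y : G} (hy : y ∉ center G)
    (hyp : y ^ (Nat.card G).minFac = c ^ ((Nat.card G).minFac.choose 2)) :
    ∃ β : MulAut G, (∀ ζ ∈ center G, β ζ = ζ) ∧
      ∀ g x : G, β x * ⁅g, x⁆ = x → ⁅x, y⁆ = 1 ∧ ⁅g, x⁆ = 1 := by
  have hpp := Nat.minFac_prime hN1
  generalize (Nat.card G).minFac = p at hc hyp hpp
  have hex : ∀ x : G, ∃ k : ℕ, c ^ k = ⁅x, y⁆ := fun x =>
    (Submonoid.mem_powers_iff _ _).mp (mem_powers_iff_mem_zpowers.mpr (hcz x y))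
  choose n hn using hex
  have hcp : c ^ p = 1 := by
    rw [← hc]
    exact pow_orderOf_eq_one c
  have hcc : ∀ (m : ℤ) (g : G), c ^ m * g = g * c ^ m :=
    fun m g => central_comm (zpow_mem hcZ m) g
  obtain ⟨F, hF⟩ : ∃ F : ℕ → G, ∀ k, F k = y ^ k * c ^ (-((k.choose 2 : ℕ) : ℤ)) :=
    ⟨_, fun k => rfl⟩
  have hckp : ∀ k : ℕ, c ^ (-((k * p : ℕ) : ℤ)) = 1 := by
    intro k
    rw [zpow_neg, zpow_natCast, mul_comm, pow_mul, hcp, one_pow, inv_one]
  have Fstep : ∀ k, F (k + p) = F k := by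
    intro k
    rw [hF, hF, pow_add, hyp, ← zpow_natCast c (p.choose 2), mul_assoc, ← zpow_add,
      choose_two_add]
    have e : ((p.choose 2 : ℕ) : ℤ) + -((k.choose 2 + p.choose 2 + k * p : ℕ) : ℤ) =
        -((k.choose 2 : ℕ) : ℤ) + -((k * p : ℕ) : ℤ) := by
      push_cast
      ring
    rw [e, zpow_add, hckp, mul_one]
  have Fstep' : ∀ t k, F (k + p * t) = F k := by
    intro t
    induction t with
    | zero => intro k; simp
    | succ t ih =>
      intro k
      have : k + p * (t + 1) = (k + p * t) + p := by ring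
      rw [this, Fstep, ih]
  have Fper : ∀ j k, j ≡ k [MOD p] → F j = F k := by
    intro j k hjk
    have hj := Fstep' (j / p) (j % p)
    have hk := Fstep' (k / p) (k % p)
    rw [Nat.mod_add_div] at hj hk
    have hjk' : j % p = k % p := hjk
    rw [hj, hk, hjk']
  have F0 : F 0 = 1 := by simp [hF]
  have L1 : ∀ (j : ℕ) (b : G), y ^ j * b = b * y ^ j * c ^ (-((j * n b : ℕ) : ℤ)) := by
    intro j b
    rw [mul_comm_comm hZ (y ^ j) b, comm_pow_left hZ, ← commutatorElement_inv b y, ← hn b]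
    congr 1
    rw [inv_pow, ← pow_mul, zpow_neg, zpow_natCast, mul_comm]
  have L2 : ∀ (j : ℕ) (b : G), F j * b = b * F j * c ^ (-((j * n b : ℕ) : ℤ)) := by
    intro j b
    rw [hF, central_right_comm (zpow_mem hcZ _), L1,
      central_right_comm (zpow_mem hcZ _)]
    simp only [mul_assoc]
  have L3 : ∀ j k : ℕ, F (j + k) = F j * F k * c ^ (-((j * k : ℕ) : ℤ)) := by
    intro j k
    have e : (-(((j + k).choose 2 : ℕ) : ℤ)) =
        -((j.choose 2 : ℕ) : ℤ) + -((k.choose 2 : ℕ) : ℤ) + -((j * k : ℕ) : ℤ) := by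
      rw [choose_two_add]
      push_cast
      ring
    rw [hF, hF, hF, e, zpow_add, zpow_add, pow_add, ← mul_assoc (y ^ j * c ^ _),
      central_right_comm (zpow_mem hcZ _) (y ^ j) (y ^ k)]
    simp only [mul_assoc]
  have hFy : ∀ k, Commute (F k) y := by
    intro k
    show F k * y = y * F k
    rw [hF, central_right_comm (zpow_mem hcZ _), ← pow_succ, pow_succ', mul_assoc]
  have hzero : ∀ x, ⁅x, y⁆ = 1 → F (n x) = 1 := by
    intro x hx
    rw [Fper _ _ ((nexp_zero_iff hc hn x).mpr hx), F0]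
  obtain ⟨β, hβ⟩ := exists_aut_of_twist (p := p) n F
    (nexp_mul hZ hc hn) ((nexp_zero_iff hc hn 1).mpr (commutatorElement_one_left y))
    Fper F0
    (fun a b => by
      rw [← mul_assoc, mul_assoc a, L2, L3]
      simp only [mul_assoc]
      rw [hcc])
    (fun x hx => by
      have hxy : ⁅x, y⁆ = 1 := by
        have hxe : x = (F (n x))⁻¹ := eq_inv_of_mul_eq_one_left hx
        rw [commutatorElement_eq_one_iff_mul_comm, hxe]
        exact ((hFy (n x)).inv_left).eq
      rw [hzero x hxy, mul_one] at hx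
      exact hx)
  refine ⟨β, ?_, ?_⟩
  · intro ζ hζ
    rw [hβ, hzero ζ (comm_eq_one_of_mem_center_left hζ y), mul_one]
  · intro g x hx
    rw [hβ] at hx
    have h1 : F (n x) * ⁅g, x⁆ = 1 := by
      have : x * (F (n x) * ⁅g, x⁆) = x * 1 := by rw [← mul_assoc, hx, mul_one]
      exact mul_left_cancel this
    have h2 : F (n x) ∈ center G := by
      have : F (n x) = ⁅g, x⁆⁻¹ := eq_inv_of_mul_eq_one_left h1
      rw [this]
      exact inv_mem (hZ g x)
    have h3 : y ^ n x ∈ center G := by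
      have : y ^ n x = F (n x) * c ^ (((n x).choose 2 : ℕ) : ℤ) := by
        rw [hF, zpow_neg, inv_mul_cancel_right]
      rw [this]
      exact mul_mem h2 (zpow_mem hcZ _)
    have hyp' : y ^ p ∈ center G := by
      rw [hyp]
      exact pow_mem hcZ _
    have h4 : p ∣ n x := dvd_of_pow_mem_center hy hpp hyp' h3
    have h5 : ⁅x, y⁆ = 1 := (nexp_zero_iff hc hn x).mp ((Nat.modEq_zero_iff_dvd).mpr h4)
    refine ⟨h5, ?_⟩
    rw [hzero x h5, one_mul] at h1
    exact h1

theorem exists_comm_ne_one (hna : ¬ IsMulCommutative G) : ∃ a b : G, ⁅a, b⁆ ≠ 1 := by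
  by_contra hno
  apply hna
  refine isMulCommutative_iff.mpr (fun a b => ?_)
  rw [← commutatorElement_eq_one_iff_mul_comm]
  by_contra hab
  exact hno ⟨a, b, hab⟩

/-- Case A, odd `p`: a non-central element of order `p`. -/
theorem exists_y_odd (hna : ¬ IsMulCommutative G) (hZ : ∀ a b : G, ⁅a, b⁆ ∈ center G)
    {c : G} (hc : orderOf c = (Nat.card G).minFac) (hcz : ∀ a b : G, ⁅a, b⁆ ∈ zpowers c)
    (hA : ∀ ζ ∈ center G, ζ ^ (Nat.card G).minFac = 1 → ζ ∈ zpowers c)
    (hodd : (Nat.card G).minFac ≠ 2) :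
    ∃ y : G, y ∉ center G ∧
      y ^ (Nat.card G).minFac = c ^ ((Nat.card G).minFac.choose 2) := by
  have hN1 := card_ne_one_of_not_comm hna
  have hpp := Nat.minFac_prime hN1
  have h5 := sq_minFac_le_index_center hna
  generalize (Nat.card G).minFac = p at hc hA hodd hpp h5 ⊢
  have hp2 : 2 < p := lt_of_le_of_ne hpp.two_le (Ne.symm hodd)
  have hdvd : p ∣ p.choose 2 := hpp.dvd_choose_self (by norm_num) hp2
  have hcp : c ^ p = 1 := by
    rw [← hc]
    exact pow_orderOf_eq_one c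
  have hcomm_pow : ∀ a b : G, ⁅a, b⁆ ^ p = 1 := by
    intro a b
    obtain ⟨k, hk⟩ := Subgroup.mem_zpowers_iff.mp (hcz a b)
    rw [← hk, ← zpow_natCast, ← zpow_mul, mul_comm, zpow_mul, zpow_natCast, hcp, one_zpow]
  have hchoose : ∀ a b : G, ⁅a, b⁆ ^ (p.choose 2) = 1 := by
    intro a b
    obtain ⟨t, ht⟩ := hdvd
    rw [ht, pow_mul, hcomm_pow, one_pow]
  have hcchoose : c ^ (p.choose 2) = 1 := by
    obtain ⟨t, ht⟩ := hdvd
    rw [ht, pow_mul, hcp, one_pow]
  let π : G →* G :=
    { toFun := fun x => x ^ p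
      map_one' := one_pow p
      map_mul' := fun a b => by
        show (a * b) ^ p = a ^ p * b ^ p
        rw [mul_pow_class2 hZ, hchoose, mul_one] }
  have hrange : π.range ≤ center G := by
    rintro _ ⟨x, rfl⟩
    show x ^ p ∈ center G
    rw [Subgroup.mem_center_iff]
    intro g
    have : ⁅x ^ p, g⁆ = 1 := by rw [comm_pow_left hZ, hcomm_pow]
    exact (commutatorElement_eq_one_iff_mul_comm.mp this).symm
  by_contra hno
  have hker : π.ker ≤ zpowers c := by
    intro x hx
    have hx1 : x ^ p = 1 := hx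
    have hxZ : x ∈ center G := by
      by_contra hxZ
      exact hno ⟨x, hxZ, by rw [hx1, hcchoose]⟩
    exact hA x hxZ hx1
  have h1 := Subgroup.card_le_of_le hker
  rw [Nat.card_zpowers, hc] at h1
  have h2 := Subgroup.card_le_of_le hrange
  have h3 := Subgroup.card_mul_index π.ker
  rw [Subgroup.index_ker] at h3
  have h4 := Subgroup.card_mul_index (center G)
  have hzpos : 0 < Nat.card (center G) := Nat.card_pos
  have h6 : Nat.card (center G) * p ^ 2 ≤ p * Nat.card (center G) := by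
    calc Nat.card (center G) * p ^ 2 ≤ Nat.card (center G) * (center G).index :=
          Nat.mul_le_mul_left _ h5
      _ = Nat.card π.ker * Nat.card π.range := by rw [h4, h3]
      _ ≤ p * Nat.card (center G) := Nat.mul_le_mul h1 h2
  rw [mul_comm p] at h6
  have h7 : p ^ 2 ≤ p := Nat.le_of_mul_le_mul_left h6 hzpos
  nlinarith

/-- Case A, `p = 2`: a non-central element with square `c`. -/
theorem exists_y_two (hna : ¬ IsMulCommutative G) (hZ : ∀ a b : G, ⁅a, b⁆ ∈ center G)
    {c : G} (hc : orderOf c = (Nat.card G).minFac) (hcZ : c ∈ center G)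
    (hcz : ∀ a b : G, ⁅a, b⁆ ∈ zpowers c)
    (hA : ∀ ζ ∈ center G, ζ ^ (Nat.card G).minFac = 1 → ζ ∈ zpowers c)
    (h2 : (Nat.card G).minFac = 2) :
    ∃ y : G, y ∉ center G ∧
      y ^ (Nat.card G).minFac = c ^ ((Nat.card G).minFac.choose 2) := by
  rw [h2] at hc hA ⊢
  have hc2 : c ^ 2 = 1 := by
    rw [← hc]
    exact pow_orderOf_eq_one c
  have hcc2 : c * c = 1 := by rw [← sq]; exact hc2
  have hcinv : c⁻¹ = c := inv_eq_of_mul_eq_one_left hcc2
  have hzp : ∀ k : ℤ, c ^ k = 1 ∨ c ^ k = c := by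
    intro k
    rcases Int.emod_two_eq_zero_or_one k with h0 | h1
    · left
      have : k = 2 * (k / 2) := by omega
      rw [this, zpow_mul, zpow_ofNat, hc2, one_zpow]
    · right
      have : k = 2 * (k / 2) + 1 := by omega
      rw [this, zpow_add, zpow_mul, zpow_ofNat, hc2, one_zpow, one_mul, zpow_one]
  have hcomm2 : ∀ a b : G, ⁅a, b⁆ ≠ 1 → ⁅a, b⁆ = c := by
    intro a b hne
    obtain ⟨k, hk⟩ := Subgroup.mem_zpowers_iff.mp (hcz a b)
    rcases hzp k with h | h
    · exact absurd (hk ▸ h) hne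
    · rw [← hk, h]
  obtain ⟨a, b, hab1⟩ := exists_comm_ne_one hna
  have hab : ⁅a, b⁆ = c := hcomm2 a b hab1
  have hc1 : c ≠ 1 := hab ▸ hab1
  have hsqcomm : ∀ x g : G, ⁅x ^ 2, g⁆ = 1 := by
    intro x g
    rw [comm_pow_left hZ]
    obtain ⟨k, hk⟩ := Subgroup.mem_zpowers_iff.mp (hcz x g)
    rw [← hk, ← zpow_natCast, ← zpow_mul, mul_comm, zpow_mul]
    norm_num [hc2]
  have hsqZ : ∀ x : G, x ^ 2 ∈ center G := by
    intro x
    rw [Subgroup.mem_center_iff]
    intro g
    exact (commutatorElement_eq_one_iff_mul_comm.mp (hsqcomm x g)).symm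
  let σ : ↥(center G) →* ↥(center G) :=
    { toFun := fun ζ => ζ ^ 2
      map_one' := one_pow 2
      map_mul' := fun u v => by
        have huv : Commute u v := mul_comm' u v
        exact huv.mul_pow 2 }
  have hσ : ∀ ζ : ↥(center G), σ ζ = ζ ^ 2 := fun ζ => rfl
  have hker : σ.ker ≤ zpowers (⟨c, hcZ⟩ : ↥(center G)) := by
    intro ζ hζ
    have h1 : ζ ^ 2 = 1 := hζ
    have h2' : (ζ : G) ^ 2 = 1 := by
      have := congrArg Subtype.val h1
      simpa using this
    obtain ⟨k, hk⟩ := Subgroup.mem_zpowers_iff.mp (hA ζ ζ.2 h2')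
    refine Subgroup.mem_zpowers_iff.mpr ⟨k, Subtype.ext ?_⟩
    simpa using hk
  have hcard_ker : Nat.card σ.ker ≤ 2 := by
    have := Subgroup.card_le_of_le hker
    rwa [Nat.card_zpowers, Subgroup.orderOf_mk, hc] at this
  have hidx : σ.range.index ≤ 2 := by
    have e1 := Subgroup.card_mul_index σ.ker
    rw [Subgroup.index_ker] at e1
    have e2 := Subgroup.card_mul_index σ.range
    have hpos : 0 < Nat.card σ.range := Nat.card_pos
    have e3 : Nat.card σ.range * σ.range.index = Nat.card σ.range * Nat.card σ.ker := by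
      rw [e2, ← e1, mul_comm]
    have := Nat.eq_of_mul_eq_mul_left hpos e3
    omega
  obtain ⟨u, hu⟩ : ∃ u : ↥(center G), (u : G) = a ^ 2 := ⟨⟨a ^ 2, hsqZ a⟩, rfl⟩
  obtain ⟨v, hv⟩ : ∃ v : ↥(center G), (v : G) = b ^ 2 := ⟨⟨b ^ 2, hsqZ b⟩, rfl⟩
  obtain ⟨cz, hczv⟩ : ∃ cz : ↥(center G), (cz : G) = c := ⟨⟨c, hcZ⟩, rfl⟩
  have hcz2 : cz * cz = 1 := Subtype.ext (by
    show (cz : G) * (cz : G) = 1
    rw [hczv]
    exact hcc2)
  have hmem : u * cz ∈ σ.range ∨ v * cz ∈ σ.range ∨ u * v ∈ σ.range := by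
    by_cases h1 : u * cz ∈ σ.range
    · exact Or.inl h1
    by_cases h2' : v * cz ∈ σ.range
    · exact Or.inr (Or.inl h2')
    right; right
    have hidx2 : σ.range.index = 2 := by
      have h0 : σ.range.index ≠ 0 := Subgroup.index_ne_zero_of_finite
      have h1' : σ.range.index ≠ 1 := by
        intro h
        rw [Subgroup.index_eq_one] at h
        apply h1
        rw [h]
        trivial
      omega
    have h3 := (Subgroup.mul_mem_iff_of_index_two hidx2 (a := u * cz) (b := v * cz)).mpr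
      (iff_of_false h1 h2')
    have e : u * cz * (v * cz) = u * v := by
      calc u * cz * (v * cz) = u * v * (cz * cz) := by
            rw [mul_assoc u cz, ← mul_assoc cz v, mul_comm' cz v]
            simp only [mul_assoc]
        _ = u * v := by rw [hcz2, mul_one]
    rwa [e] at h3
  have haZ : a ∉ center G := fun h => hab1 (comm_eq_one_of_mem_center_left h b)
  have hbZ : b ∉ center G := fun h => hab1 (comm_eq_one_of_mem_center_right h a)
  have hfinal : ∃ x : G, x ∉ center G ∧ ∃ ζ ∈ center G, x ^ 2 = ζ ^ 2 * c := by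
    rcases hmem with h | h | h
    · obtain ⟨ζ, hζ⟩ := h
      refine ⟨a, haZ, ζ.1, ζ.2, ?_⟩
      have h1 := congrArg Subtype.val hζ
      rw [hσ] at h1
      have h2' : (ζ : G) ^ 2 = a ^ 2 * c := by
        rw [← hu, ← hczv]
        simpa using h1
      rw [h2', mul_assoc, hcc2, mul_one]
    · obtain ⟨ζ, hζ⟩ := h
      refine ⟨b, hbZ, ζ.1, ζ.2, ?_⟩
      have h1 := congrArg Subtype.val hζ
      rw [hσ] at h1
      have h2' : (ζ : G) ^ 2 = b ^ 2 * c := by
        rw [← hv, ← hczv]
        simpa using h1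
      rw [h2', mul_assoc, hcc2, mul_one]
    · obtain ⟨ζ, hζ⟩ := h
      refine ⟨a * b, ?_, ζ.1, ζ.2, ?_⟩
      · intro hmemZ
        have := comm_eq_one_of_mem_center_left hmemZ b
        rw [comm_mul_left hZ, commutatorElement_self, mul_one] at this
        exact hab1 this
      · have h1 := congrArg Subtype.val hζ
        rw [hσ] at h1
        have h2' : (ζ : G) ^ 2 = a ^ 2 * b ^ 2 := by
          rw [← hu, ← hv]
          simpa using h1
        have h3 : ⁅b, a⁆ = c := by rw [← commutatorElement_inv a b, hab, hcinv]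
        rw [mul_pow_class2 hZ, h3, h2']
        norm_num
  obtain ⟨x, hxZ, ζ, hζ, hxζ⟩ := hfinal
  refine ⟨x * ζ⁻¹, ?_, ?_⟩
  · intro h
    apply hxZ
    have := mul_mem h hζ
    rwa [inv_mul_cancel_right] at this
  · have hcomm : Commute x ζ⁻¹ := Subgroup.mem_center_iff.mp (inv_mem hζ) x
    rw [hcomm.mul_pow, hxζ, central_right_comm hcZ, inv_pow, mul_inv_cancel, one_mul]
    norm_num

/-- The `p` automorphisms with small fixed-point subgroups. -/
theorem exists_good_autos (hna : ¬ IsMulCommutative G) {c : G} (hcZ : c ∈ center G)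
    (hc : orderOf c = (Nat.card G).minFac) (hcz : ∀ a b : G, ⁅a, b⁆ ∈ zpowers c) :
    ∃ S : Finset (MulAut G), (Nat.card G).minFac ≤ S.card ∧
      ∀ α ∈ S, (Nat.card G).minFac ^ 2 * Nat.card (fixSub α) ≤ Nat.card G := by
  have hZ : ∀ a b : G, ⁅a, b⁆ ∈ center G :=
    fun a b => (Subgroup.zpowers_le.mpr hcZ) (hcz a b)
  have hN1 := card_ne_one_of_not_comm hna
  by_cases hB : ∃ w ∈ center G, w ^ (Nat.card G).minFac = 1 ∧ w ∉ zpowers c
  · obtain ⟨w, hw, hwp, hwc⟩ := hB
    obtain ⟨a, b, hab⟩ := exists_comm_ne_one hna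
    have hbZ : b ∉ center G := fun h => hab (comm_eq_one_of_mem_center_right h a)
    obtain ⟨β, h1, h2⟩ := caseB hZ hN1 hc hcz hw hwp hwc b
    exact exists_autos hZ β b hbZ h1 h2
  · have hA : ∀ ζ ∈ center G, ζ ^ (Nat.card G).minFac = 1 → ζ ∈ zpowers c := by
      intro ζ hζ hζp
      by_contra hne
      exact hB ⟨ζ, hζ, hζp, hne⟩
    obtain ⟨y, hy, hyp⟩ : ∃ y : G, y ∉ center G ∧
        y ^ (Nat.card G).minFac = c ^ ((Nat.card G).minFac.choose 2) := by
      by_cases h2 : (Nat.card G).minFac = 2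
      · exact exists_y_two hna hZ hc hcZ hcz hA h2
      · exact exists_y_odd hna hZ hc hcz hA h2
    obtain ⟨β, h1, h2⟩ := caseA hZ hN1 hc hcZ hcz hy hyp
    exact exists_autos hZ β y hy h1 h2

end Cfsg.Agent.Helper57.Transv
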