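import Mathlib
import Cfsg.Agent.Lib.Helper91.Hall

/-!
Finite groups whose maximal subgroups fall into at most two conjugacy classes are solvable
(elementary proof: Sylow intersections inside distinct conjugates are small, so the index of
one class representative divides the length of an orbit of the other one on its own cosets).
-/

set_option autoImplicit false
set_option linter.unusedSectionVars false

namespace Cfsg.Agent.Lib.Helper57.TwoClasses

open scoped Pointwise

universe u

section basics

variable {G : Type u} [Group G]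

theorem mem_conj (g x : G) (H : Subgroup G) : x ∈ MulAut.conj g • H ↔ g⁻¹ * x * g ∈ H :=
  Cfsg.Agent.Lib.Helper91.Hall.mem_conj_smul g x H

theorem card_conj (g : G) (H : Subgroup G) : Nat.card ↥(MulAut.conj g • H) = Nat.card H :=
  Cfsg.Agent.Lib.Helper91.Hall.card_conj_smul g H

theorem index_conj [Finite G] (g : G) (H : Subgroup G) :
    (MulAut.conj g • H).index = H.index := by
  have h1 := Subgroup.card_mul_index (MulAut.conj g • H)
  have h2 := Subgroup.card_mul_index H
  rw [card_conj] at h1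
  have h3 : 0 < Nat.card H := Nat.card_pos
  exact Nat.eq_of_mul_eq_mul_left h3 (h1.trans h2.symm)

theorem conj_conj (a b : G) (H : Subgroup G) :
    MulAut.conj a • MulAut.conj b • H = MulAut.conj (a * b) • H := by
  rw [smul_smul, ← map_mul]

theorem conj_eq_self_of_mem {H : Subgroup G} {g : G} (hg : g ∈ H) : MulAut.conj g • H = H := by
  ext x
  rw [mem_conj]
  constructor
  · intro h
    have h1 := H.mul_mem (H.mul_mem hg h) (H.inv_mem hg)
    have h2 : g * (g⁻¹ * x * g) * g⁻¹ = x := by group
    rwa [h2] at h1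
  · intro h
    exact H.mul_mem (H.mul_mem (H.inv_mem hg) h) hg

theorem conj_ne_top [Finite G] (g : G) {H : Subgroup G} (hH : H ≠ ⊤) :
    MulAut.conj g • H ≠ ⊤ := by
  intro h
  apply hH
  rw [← Subgroup.index_eq_one, ← index_conj g H, h, Subgroup.index_top]

theorem map_conj {G' : Type*} [Group G'] (f : G →* G') (g : G) (H : Subgroup G) :
    (MulAut.conj g • H).map f = MulAut.conj (f g) • H.map f := by
  ext y
  rw [mem_conj, Subgroup.mem_map, Subgroup.mem_map]
  constructor
  · rintro ⟨x, hx, rfl⟩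
    rw [mem_conj] at hx
    exact ⟨g⁻¹ * x * g, hx, by simp⟩
  · rintro ⟨h, hh, hy⟩
    refine ⟨g * h * g⁻¹, ?_, ?_⟩
    · rw [mem_conj]
      have h2 : g⁻¹ * (g * h * g⁻¹) * g = h := by group
      rwa [h2]
    · rw [map_mul, map_mul, hy, map_inv]
      group

theorem exists_coatom_ge [Finite G] (H : Subgroup G) (hH : H ≠ ⊤) :
    ∃ M : Subgroup G, IsCoatom M ∧ H ≤ M :=
  (eq_top_or_exists_le_coatom H).resolve_left hH

/-- If `K` contains the normalizer of a Sylow subgroup `P` and `P` lies in a conjugate of `K`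
by `h`, then `h ∈ K`. -/
theorem mem_of_sylow_le_conj [Finite G] {p : ℕ} [Fact p.Prime] (P : Sylow p G) (K : Subgroup G)
    (hN : Subgroup.normalizer ((P : Subgroup G) : Set G) ≤ K) (h : G)
    (hP : (P : Subgroup G) ≤ MulAut.conj h • K) : h ∈ K := by
  have hPK : (P : Subgroup G) ≤ K := Subgroup.le_normalizer.trans hN
  have hQK : ((h⁻¹ • P : Sylow p G) : Subgroup G) ≤ K := by
    intro x hx
    have hx' : x ∈ MulAut.conj h⁻¹ • (P : Subgroup G) := hx
    rw [mem_conj, inv_inv] at hx'
    have h1 := hP hx'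
    rw [mem_conj] at h1
    have h2 : h⁻¹ * (h * x * h⁻¹) * h = x := by group
    rwa [h2] at h1
  obtain ⟨m, hm⟩ := MulAction.exists_smul_eq K ((h⁻¹ • P : Sylow p G).subtype hQK) (P.subtype hPK)
  rw [Sylow.smul_subtype] at hm
  have hm' : (m : G) • (h⁻¹ • P : Sylow p G) = P := Sylow.subtype_injective hm
  have h3 : (m : G) * h⁻¹ ∈ Subgroup.normalizer ((P : Subgroup G) : Set G) := by
    apply Sylow.smul_eq_iff_mem_normalizer.mp
    rw [mul_smul]
    exact hm'
  have h4 := K.mul_mem (K.inv_mem m.2) (hN h3)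
  have h5 : (m : G)⁻¹ * ((m : G) * h⁻¹) = h⁻¹ := by group
  rw [h5] at h4
  exact K.inv_mem_iff.mp h4

end basics

section main

variable {G : Type u} [Group G] [Finite G]

/-- every maximal subgroup is conjugate to `M` or to `M'` -/
def Cover (M M' : Subgroup G) : Prop :=
  ∀ K : Subgroup G, IsCoatom K →
    (∃ g : G, K = MulAut.conj g • M) ∨ (∃ g : G, K = MulAut.conj g • M')

variable (G) in
/-- no nontrivial subgroup of prime power order is normal -/
def NoNormalP : Prop :=
  ∀ (q : ℕ), q.Prime → ∀ S : Subgroup G, IsPGroup q S → S ≠ ⊥ →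
    Subgroup.normalizer (S : Set G) ≠ ⊤

theorem Cover.symm {M M' : Subgroup G} (h : Cover M M') : Cover M' M :=
  fun K hK => (h K hK).symm

/-- A `p`-subgroup whose order does not divide `|M'|` lies in at most one conjugate of `M`. -/
theorem conj_eq_of_pgroup_le (M M' : Subgroup G) (hcov : Cover M M') (hC : NoNormalP G)
    (p : ℕ) [Fact p.Prime] (hp : ¬ p ∣ M.index) :
    ∀ (n : ℕ) (S : Subgroup G), Nat.card G - Nat.card S = n → IsPGroup p S →
      ¬ (Nat.card S ∣ Nat.card M') →
      ∀ a b : G, S ≤ MulAut.conj a • M → S ≤ MulAut.conj b • M →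
        MulAut.conj a • M = MulAut.conj b • M := by
  intro n
  induction n using Nat.strong_induction_on with
  | _ n ih =>
  intro S hn hS hdvd a b hSa hSb
  have hS1 : S ≠ ⊥ := by
    rintro rfl
    apply hdvd
    rw [Subgroup.card_bot]
    exact one_dvd _
  obtain ⟨K, hK, hNK⟩ := exists_coatom_ge _ (hC p Fact.out S hS hS1)
  have hSK : S ≤ K := Subgroup.le_normalizer.trans hNK
  rcases hcov K hK with ⟨c, rfl⟩ | ⟨c, rfl⟩
  swap
  · exfalso
    apply hdvd
    rw [← card_conj c M']
    exact Subgroup.card_dvd_of_le hSK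
  have key : ∀ a : G, S ≤ MulAut.conj a • M → MulAut.conj a • M = MulAut.conj c • M := by
    intro a hSa
    obtain ⟨T, hT⟩ := (hS.comap_subtype (K := MulAut.conj a • M)).exists_le_sylow
    have hP₁ : IsPGroup p
        ((T : Subgroup ↥(MulAut.conj a • M)).map (MulAut.conj a • M).subtype) := T.2.map _
    have hSP₁ : S ≤ (T : Subgroup ↥(MulAut.conj a • M)).map (MulAut.conj a • M).subtype := by
      intro x hx
      exact ⟨⟨x, hSa hx⟩, hT hx, rfl⟩
    have hP₁A : (T : Subgroup ↥(MulAut.conj a • M)).map (MulAut.conj a • M).subtype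
        ≤ MulAut.conj a • M := Subgroup.map_subtype_le _
    by_cases hSeq : S = (T : Subgroup ↥(MulAut.conj a • M)).map (MulAut.conj a • M).subtype
    · have hidx : ¬ p ∣ S.index := by
        rw [hSeq, Subgroup.index_map_subtype, index_conj]
        intro hd
        rcases (Nat.Prime.dvd_mul Fact.out).1 hd with hd | hd
        · exact T.not_dvd_index hd
        · exact hp hd
      have hac : a * c⁻¹ * c = a := by group
      have hmem := mem_of_sylow_le_conj (hS.toSylow hidx) (MulAut.conj c • M)
        (by rw [IsPGroup.toSylow_coe]; exact hNK) (a * c⁻¹)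
        (by rw [IsPGroup.toSylow_coe, conj_conj, hac]; exact hSa)
      have h2 := conj_eq_self_of_mem hmem
      rw [conj_conj, hac] at h2
      exact h2
    · have hlt : S < (T : Subgroup ↥(MulAut.conj a • M)).map (MulAut.conj a • M).subtype :=
        lt_of_le_of_ne hSP₁ hSeq
      generalize (T : Subgroup ↥(MulAut.conj a • M)).map (MulAut.conj a • M).subtype = P₁
        at hP₁ hSP₁ hP₁A hSeq hlt
      have : Group.IsNilpotent ↥P₁ := hP₁.isNilpotent
      have hnc : NormalizerCondition ↥P₁ := Group.normalizerCondition_of_isNilpotent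
      have hlt' : S.subgroupOf P₁ < ⊤ := by
        rw [lt_top_iff_ne_top]
        intro h
        rw [Subgroup.subgroupOf_eq_top] at h
        exact hSeq (le_antisymm hSP₁ h)
      have hgrow := hnc (S.subgroupOf P₁) hlt'
      rw [← Subgroup.subgroupOf_normalizer_eq hSP₁] at hgrow
      obtain ⟨y, hyN, hyS⟩ := SetLike.exists_of_lt hgrow
      have hS₁p : IsPGroup p (P₁ ⊓ Subgroup.normalizer (S : Set G) : Subgroup G) :=
        hP₁.to_le inf_le_left
      have hSS₁ : S ≤ P₁ ⊓ Subgroup.normalizer (S : Set G) := le_inf hSP₁ Subgroup.le_normalizer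
      have hyS₁ : (y : G) ∈ P₁ ⊓ Subgroup.normalizer (S : Set G) :=
        ⟨y.2, Subgroup.mem_subgroupOf.mp hyN⟩
      have hyS' : (y : G) ∉ S := fun h => hyS (Subgroup.mem_subgroupOf.mpr h)
      have hcard : Nat.card S < Nat.card ↥(P₁ ⊓ Subgroup.normalizer (S : Set G)) := by
        apply lt_of_le_of_ne (Subgroup.card_le_of_le hSS₁)
        intro heq
        have h3 := Subgroup.eq_of_le_of_card_ge hSS₁ heq.ge
        rw [← h3] at hyS₁
        exact hyS' hyS₁
      have hle : Nat.card ↥(P₁ ⊓ Subgroup.normalizer (S : Set G)) ≤ Nat.card G :=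
        Subgroup.card_le_card_group _
      refine ih (Nat.card G - Nat.card ↥(P₁ ⊓ Subgroup.normalizer (S : Set G))) (by omega) _ rfl
        hS₁p ?_ a c ?_ ?_
      · intro hd
        exact hdvd ((Subgroup.card_dvd_of_le hSS₁).trans hd)
      · exact inf_le_left.trans hP₁A
      · exact inf_le_right.trans hNK
  exact (key a hSa).trans (key b hSb).symm

/-- every Sylow normalizer lies in a maximal subgroup of index prime to `r` -/
theorem exists_coatom_normalizer_le (hC : NoNormalP G) (r : ℕ) [Fact r.Prime]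
    (hr : r ∣ Nat.card G) (R : Sylow r G) :
    ∃ K : Subgroup G, IsCoatom K ∧ Subgroup.normalizer ((R : Subgroup G) : Set G) ≤ K ∧
      ¬ r ∣ K.index := by
  obtain ⟨K, hK, hNK⟩ := exists_coatom_ge _ (hC r Fact.out R R.2 (R.ne_bot_of_dvd_card hr))
  refine ⟨K, hK, hNK, fun hd => ?_⟩
  exact R.not_dvd_index (hd.trans (Subgroup.index_dvd_of_le (Subgroup.le_normalizer.trans hNK)))

/-- The key inequality: the index of `M'` is smaller than that of `M`. -/
theorem index_lt (M M' : Subgroup G) (hcov : Cover M M') (hC : NoNormalP G) (hM : M ≠ ⊤) :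
    M'.index < M.index := by
  classical
  have hM1 : 1 < M.index := by
    have h0 : M.index ≠ 0 := Subgroup.index_ne_zero_of_finite
    have h1 : M.index ≠ 1 := fun h => hM (Subgroup.index_eq_one.mp h)
    omega
  by_cases hM' : M' = ⊤
  · rw [hM', Subgroup.index_top]
    exact hM1
  have hpr : ∀ p : ℕ, p.Prime → p ∣ M'.index → ¬ p ∣ M.index := by
    intro p hp hd
    have : Fact p.Prime := ⟨hp⟩
    obtain ⟨K, hK, -, hnd⟩ := exists_coatom_normalizer_le hC p
      (hd.trans (Subgroup.index_dvd_card M')) (default : Sylow p G)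
    rcases hcov K hK with ⟨g, rfl⟩ | ⟨g, rfl⟩
    · rwa [index_conj] at hnd
    · rw [index_conj] at hnd
      exact absurd hd hnd
  -- `M` is self-normalizing
  have hself : ∀ h : G, MulAut.conj h • M = M → h ∈ M := by
    have h1 : M'.index ≠ 1 := fun h => hM' (Subgroup.index_eq_one.mp h)
    obtain ⟨p₀, hp₀, hd₀⟩ := Nat.exists_prime_and_dvd h1
    have : Fact p₀.Prime := ⟨hp₀⟩
    obtain ⟨K, hK, hNK, hnd⟩ := exists_coatom_normalizer_le hC p₀
      (hd₀.trans (Subgroup.index_dvd_card M')) (default : Sylow p₀ G)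
    rcases hcov K hK with ⟨g₀, rfl⟩ | ⟨g₀, rfl⟩
    swap
    · rw [index_conj] at hnd
      exact absurd hd₀ hnd
    intro h hh
    have h2 : MulAut.conj (g₀ * h * g₀⁻¹) • MulAut.conj g₀ • M = MulAut.conj g₀ • M := by
      have h3 : g₀ * h * g₀⁻¹ * g₀ = g₀ * h := by group
      rw [conj_conj, h3, ← conj_conj, hh]
    have h4 := mem_of_sylow_le_conj (default : Sylow p₀ G) (MulAut.conj g₀ • M) hNK
      (g₀ * h * g₀⁻¹) (by rw [h2]; exact Subgroup.le_normalizer.trans hNK)
    rw [mem_conj] at h4
    have h5 : g₀⁻¹ * (g₀ * h * g₀⁻¹) * g₀ = h := by group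
    rwa [h5] at h4
  obtain ⟨g, -, hg⟩ := SetLike.exists_of_lt (lt_top_iff_ne_top.mpr hM)
  have hgM : MulAut.conj g • M ≠ M := fun h => hg (hself g h)
  -- the orbit of the coset `g M` under `M`
  have ho := MulAction.index_stabilizer (↥M) ((g : G) : G ⧸ M)
  have hcm := Subgroup.card_mul_index (MulAction.stabilizer (↥M) ((g : G) : G ⧸ M))
  -- the orbit misses the base point
  have hmiss : ((1 : G) : G ⧸ M) ∉ MulAction.orbit (↥M) ((g : G) : G ⧸ M) := by
    rintro ⟨m, hm⟩
    have h1 : ((((m : G) * g : G)) : G ⧸ M) = ((1 : G) : G ⧸ M) := hm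
    rw [QuotientGroup.eq, mul_one] at h1
    have h2 := M.mul_mem (M.inv_mem m.2) (M.inv_mem_iff.mp h1)
    rw [inv_mul_cancel_left] at h2
    exact hg h2
  have hle : (MulAction.orbit (↥M) ((g : G) : G ⧸ M)).ncard + 1 ≤ M.index := by
    rw [← Set.ncard_insert_of_notMem hmiss (Set.toFinite _), Subgroup.index_eq_card]
    exact Set.ncard_le_card _
  set W := MulAction.stabilizer (↥M) ((g : G) : G ⧸ M) with hWdef
  have hWpos : 0 < Nat.card W := Nat.card_pos
  have hWi : W.index ≠ 0 := Subgroup.index_ne_zero_of_finite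
  have hdiv : M'.index ∣ W.index := by
    rw [← Nat.factorization_prime_le_iff_dvd Subgroup.index_ne_zero_of_finite hWi]
    intro p hp
    by_cases hd : p ∣ M'.index
    swap
    · rw [Nat.factorization_eq_zero_of_not_dvd hd]
      exact Nat.zero_le _
    have : Fact p.Prime := ⟨hp⟩
    have hpM := hpr p hp hd
    obtain ⟨T⟩ : Nonempty (Sylow p ↥W) := inferInstance
    have hTcard : Nat.card T = p ^ (Nat.card W).factorization p := T.card_eq_multiplicity
    have hSp : IsPGroup p (((T : Subgroup ↥W).map W.subtype).map M.subtype) :=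
      (T.2.map _).map _
    have hScard : Nat.card ↥(((T : Subgroup ↥W).map W.subtype).map M.subtype) = Nat.card T := by
      rw [Subgroup.card_map_of_injective (Subgroup.subtype_injective _),
        Subgroup.card_map_of_injective (Subgroup.subtype_injective _)]
    have hSM : ((T : Subgroup ↥W).map W.subtype).map M.subtype ≤ M := Subgroup.map_subtype_le _
    have hSg : ((T : Subgroup ↥W).map W.subtype).map M.subtype ≤ MulAut.conj g • M := by
      rintro _ ⟨m, ⟨w, hw, rfl⟩, rfl⟩
      have h1 : (w : ↥M) • ((g : G) : G ⧸ M) = ((g : G) : G ⧸ M) := w.2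
      have h2 : ((((w : ↥M) : G) * g : G) : G ⧸ M) = ((g : G) : G ⧸ M) := h1
      rw [QuotientGroup.eq] at h2
      rw [mem_conj]
      have h3 := M.inv_mem h2
      have h4 : ((((w : ↥M) : G) * g)⁻¹ * g)⁻¹ = g⁻¹ * ((w : ↥M) : G) * g := by group
      rw [h4] at h3
      exact h3
    have hSdvd : Nat.card ↥(((T : Subgroup ↥W).map W.subtype).map M.subtype) ∣ Nat.card M' := by
      by_contra hnd
      have h1 := conj_eq_of_pgroup_le M M' hcov hC p hpM _ _ rfl hSp hnd 1 g
        (by rw [map_one, one_smul]; exact hSM) hSg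
      rw [map_one, one_smul] at h1
      exact hgM h1.symm
    rw [hScard, hTcard] at hSdvd
    have hM'pos : Nat.card M' ≠ 0 := Nat.card_pos.ne'
    have h1 : (Nat.card W).factorization p ≤ (Nat.card M').factorization p :=
      (hp.pow_dvd_iff_le_factorization hM'pos).mp hSdvd
    have f1 := congrArg (fun n => n.factorization p) hcm
    have f2 := congrArg (fun n => n.factorization p) (Subgroup.card_mul_index M)
    have f3 := congrArg (fun n => n.factorization p) (Subgroup.card_mul_index M')
    rw [Nat.factorization_mul hWpos.ne' hWi, Finsupp.add_apply] at f1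
    rw [Nat.factorization_mul Nat.card_pos.ne' Subgroup.index_ne_zero_of_finite,
      Finsupp.add_apply, Nat.factorization_eq_zero_of_not_dvd hpM] at f2
    rw [Nat.factorization_mul hM'pos Subgroup.index_ne_zero_of_finite, Finsupp.add_apply] at f3
    omega
  have h1 : M'.index ≤ W.index := Nat.le_of_dvd (Nat.pos_of_ne_zero hWi) hdiv
  rw [ho] at h1
  omega

/-- two covering classes of proper subgroups cannot exist without normal `p`-subgroups -/
theorem false_of_cover (M M' : Subgroup G) (hcov : Cover M M') (hC : NoNormalP G)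
    (hM : M ≠ ⊤) (hM' : M' ≠ ⊤) : False := by
  have h1 := index_lt M M' hcov hC hM
  have h2 := index_lt M' M hcov.symm hC hM'
  omega

end main

/-- A finite group whose maximal subgroups are all conjugate to one of two subgroups is
solvable. -/
theorem isSolvable_of_cover : ∀ (n : ℕ) (G : Type u) [Group G] [Finite G], Nat.card G = n →
    ∀ M₁ M₂ : Subgroup G, Cover M₁ M₂ → Group.IsSolvable G := by
  intro n
  induction n using Nat.strong_induction_on with
  | _ n ih =>
  intro G _ _ hn M₁ M₂ hcov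
  by_contra hns
  have hquot : ∀ (N : Subgroup G) [N.Normal], N ≠ ⊥ → Group.IsSolvable (G ⧸ N) := by
    intro N hN hN1
    have hlt : Nat.card (G ⧸ N) < n := by
      have h1 := Subgroup.card_mul_index N
      have h2 : 1 < Nat.card N := N.one_lt_card_iff_ne_bot.mpr hN1
      have h3 : N.index = Nat.card (G ⧸ N) := Subgroup.index_eq_card N
      have h4 : 0 < N.index := Nat.pos_of_ne_zero Subgroup.index_ne_zero_of_finite
      rw [← hn, ← h3, ← h1]
      nlinarith
    refine ih _ hlt (G ⧸ N) rfl (M₁.map (QuotientGroup.mk' N)) (M₂.map (QuotientGroup.mk' N)) ?_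
    intro K hK
    have hK' := Subgroup.isCoatom_comap_of_surjective (QuotientGroup.mk'_surjective N) hK
    have hKe : K = (K.comap (QuotientGroup.mk' N)).map (QuotientGroup.mk' N) :=
      (Subgroup.map_comap_eq_self_of_surjective (QuotientGroup.mk'_surjective N) K).symm
    rcases hcov _ hK' with ⟨g, hg⟩ | ⟨g, hg⟩
    · left
      refine ⟨QuotientGroup.mk' N g, ?_⟩
      rw [hKe, hg, map_conj]
    · right
      refine ⟨QuotientGroup.mk' N g, ?_⟩
      rw [hKe, hg, map_conj]
  have hsol : ∀ N : Subgroup G, N.Normal → Group.IsSolvable N → N = ⊥ := by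
    intro N hN hNs
    by_contra hN1
    have hq := @hquot N hN hN1
    apply hns
    exact Group.isSolvable_of_ker_le_range N.subtype (QuotientGroup.mk' N)
      (by rw [QuotientGroup.ker_mk', Subgroup.range_subtype])
  have hC : NoNormalP G := by
    intro q hq S hS hS1 htop
    have : Fact q.Prime := ⟨hq⟩
    have hN : S.Normal := Subgroup.normalizer_eq_top_iff.mp htop
    have : Group.IsNilpotent ↥S := hS.isNilpotent
    exact hS1 (hsol S hN inferInstance)
  have hnt : (⊥ : Subgroup G) ≠ ⊤ := by
    intro h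
    apply hns
    exact Group.isSolvable_of_top_eq_bot G h.symm
  obtain ⟨K₀, hK₀, -⟩ := exists_coatom_ge (⊥ : Subgroup G) hnt
  have hnotcoatom : ∀ (g : G) (K : Subgroup G), IsCoatom K →
      K ≠ MulAut.conj g • (⊤ : Subgroup G) := by
    intro g K hK h
    apply hK.1
    rw [h, ← Subgroup.index_eq_one, index_conj, Subgroup.index_top]
  rcases hcov K₀ hK₀ with ⟨g, hg⟩ | ⟨g, hg⟩
  · have hM₁ : M₁ ≠ ⊤ := by
      rintro rfl
      exact hnotcoatom g K₀ hK₀ hg
    by_cases hM₂ : M₂ = ⊤
    · subst hM₂
      refine false_of_cover M₁ M₁ ?_ hC hM₁ hM₁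
      intro K hK
      rcases hcov K hK with h | ⟨g', hg'⟩
      · exact Or.inl h
      · exact absurd hg' (hnotcoatom g' K hK)
    · exact false_of_cover M₁ M₂ hcov hC hM₁ hM₂
  · have hM₂ : M₂ ≠ ⊤ := by
      rintro rfl
      exact hnotcoatom g K₀ hK₀ hg
    by_cases hM₁ : M₁ = ⊤
    · subst hM₁
      refine false_of_cover M₂ M₂ ?_ hC hM₂ hM₂
      intro K hK
      rcases hcov K hK with ⟨g', hg'⟩ | h
      · exact absurd hg' (hnotcoatom g' K hK)
      · exact Or.inl h
    · exact false_of_cover M₁ M₂ hcov hC hM₁ hM₂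

/-- With exactly two classes of maximal subgroups in a solvable group, the order has exactly
two prime divisors. -/
theorem card_primeFactors_eq_two {G : Type u} [Group G] [Finite G] [Group.IsSolvable G]
    (M₁ M₂ : Subgroup G) (h1 : IsCoatom M₁) (h2 : IsCoatom M₂)
    (hne : ∀ g : G, M₂ ≠ MulAut.conj g • M₁) (hcov : Cover M₁ M₂) :
    (Nat.card G).primeFactors.card = 2 := by
  classical
  have hN0 : Nat.card G ≠ 0 := Nat.card_pos.ne'
  have hi1 : M₁.index ≠ 1 := fun h => h1.1 (Subgroup.index_eq_one.mp h)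
  have hi2 : M₂.index ≠ 1 := fun h => h2.1 (Subgroup.index_eq_one.mp h)
  have hex : ∀ r ∈ (Nat.card G).primeFactors,
      (∃ k, M₁.index = r ^ k) ∨ (∃ k, M₂.index = r ^ k) := by
    intro r hr
    have hrp : r.Prime := Nat.prime_of_mem_primeFactors hr
    have hrd : r ∣ Nat.card G := Nat.dvd_of_mem_primeFactors hr
    have hdvd : r ^ (Nat.card G).factorization r ∣ Nat.card G := Nat.ordProj_dvd _ _
    have hsplit : Nat.card G
        = (Nat.card G / r ^ (Nat.card G).factorization r) * r ^ (Nat.card G).factorization r :=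
      (Nat.div_mul_cancel hdvd).symm
    have hcop : (Nat.card G / r ^ (Nat.card G).factorization r).Coprime
        (r ^ (Nat.card G).factorization r) :=
      Nat.Coprime.pow_right _ (Nat.coprime_ordCompl hrp hN0).symm
    obtain ⟨H, hH⟩ := Cfsg.Agent.Lib.Helper91.Hall.hall_exists _ _ hsplit hcop
    have hpos : 0 < Nat.card G / r ^ (Nat.card G).factorization r :=
      Nat.div_pos (Nat.le_of_dvd (Nat.pos_of_ne_zero hN0) hdvd) (pow_pos hrp.pos _)
    have hHidx : H.index = r ^ (Nat.card G).factorization r := by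
      have h3 := Subgroup.card_mul_index H
      rw [hH] at h3
      exact Nat.eq_of_mul_eq_mul_left hpos (h3.trans hsplit)
    have ha1 : (Nat.card G).factorization r ≠ 0 :=
      (hrp.factorization_pos_of_dvd hN0 hrd).ne'
    have hHtop : H ≠ ⊤ := by
      intro h
      rw [h, Subgroup.index_top] at hHidx
      have h4 := Nat.one_lt_pow ha1 hrp.one_lt
      omega
    obtain ⟨K, hK, hHK⟩ := exists_coatom_ge H hHtop
    have hKd : K.index ∣ r ^ (Nat.card G).factorization r :=
      hHidx ▸ Subgroup.index_dvd_of_le hHK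
    obtain ⟨k, -, hk⟩ := (Nat.dvd_prime_pow hrp).mp hKd
    rcases hcov K hK with ⟨g, rfl⟩ | ⟨g, rfl⟩
    · left
      exact ⟨k, by rw [← hk, index_conj]⟩
    · right
      exact ⟨k, by rw [← hk, index_conj]⟩
  have huniq : ∀ n : ℕ, n ≠ 1 → ∀ r s : ℕ, r.Prime → s.Prime → (∃ k, n = r ^ k) →
      (∃ k, n = s ^ k) → r = s := by
    rintro n hn r s hr hs ⟨k, hk⟩ ⟨l, hl⟩
    have hk0 : k ≠ 0 := by
      rintro rfl
      exact hn (by simpa using hk)
    have h3 : r ∣ s ^ l := by
      rw [← hl, hk]
      exact dvd_pow_self r hk0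
    exact (Nat.prime_dvd_prime_iff_eq hr hs).mp (hr.dvd_of_dvd_pow h3)
  have hle : (Nat.card G).primeFactors.card ≤ 2 := by
    have h3 := Finset.card_le_card_of_injOn (s := (Nat.card G).primeFactors)
      (t := (Finset.univ : Finset Bool))
      (fun r => decide (∃ k, M₁.index = r ^ k)) (fun _ _ => Finset.mem_univ _) ?_
    · simpa using h3
    · intro r hr s hs hrs
      have hr' := Nat.prime_of_mem_primeFactors (Finset.mem_coe.mp hr)
      have hs' := Nat.prime_of_mem_primeFactors (Finset.mem_coe.mp hs)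
      have hrs' : (∃ k, M₁.index = r ^ k) ↔ (∃ k, M₁.index = s ^ k) := by
        simpa using hrs
      by_cases hA : ∃ k, M₁.index = r ^ k
      · exact huniq _ hi1 r s hr' hs' hA (hrs'.mp hA)
      · exact huniq _ hi2 r s hr' hs' ((hex r hr).resolve_left hA)
          ((hex s hs).resolve_left (fun hB => hA (hrs'.mpr hB)))
  have hge : 2 ≤ (Nat.card G).primeFactors.card := by
    by_contra hlt
    have hlt' : (Nat.card G).primeFactors.card ≤ 1 := by omega
    have hpg : ∃ p : ℕ, p.Prime ∧ ∃ a, Nat.card G = p ^ a := by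
      rcases (Nat.card G).primeFactors.eq_empty_or_nonempty with he | ⟨p, hp⟩
      · refine ⟨2, Nat.prime_two, _, Nat.eq_prime_pow_of_unique_prime_dvd hN0 ?_⟩
        intro d hd hdd
        have : d ∈ (Nat.card G).primeFactors := Nat.mem_primeFactors.mpr ⟨hd, hdd, hN0⟩
        rw [he] at this
        exact absurd this (Finset.notMem_empty _)
      · refine ⟨p, Nat.prime_of_mem_primeFactors hp, _,
          Nat.eq_prime_pow_of_unique_prime_dvd hN0 ?_⟩
        intro d hd hdd
        exact Finset.card_le_one.mp hlt' d (Nat.mem_primeFactors.mpr ⟨hd, hdd, hN0⟩) p hp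
    obtain ⟨p, hp, a, hpa⟩ := hpg
    have : Fact p.Prime := ⟨hp⟩
    have hG : IsPGroup p G := IsPGroup.of_card hpa
    have : Group.IsNilpotent G := hG.isNilpotent
    have hnc : NormalizerCondition G := Group.normalizerCondition_of_isNilpotent
    have hn1 : M₁.Normal := Subgroup.NormalizerCondition.normal_of_coatom M₁ hnc h1
    have hn2 : M₂.Normal := Subgroup.NormalizerCondition.normal_of_coatom M₂ hnc h2
    have hne12 : M₁ ≠ M₂ := by
      intro h
      exact hne 1 (by rw [map_one, one_smul]; exact h.symm)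
    have hx : ∃ x ∈ M₁, x ∉ M₂ := by
      by_contra hcon
      have hle12 : M₁ ≤ M₂ := fun x hx => by
        by_contra h
        exact hcon ⟨x, hx, h⟩
      exact hne12 (hle12.eq_or_lt.resolve_right (fun hlt => h2.1 (h1.2 _ hlt)))
    have hy : ∃ y ∈ M₂, y ∉ M₁ := by
      by_contra hcon
      have hle21 : M₂ ≤ M₁ := fun x hx => by
        by_contra h
        exact hcon ⟨x, hx, h⟩
      exact hne12 (hle21.eq_or_lt.resolve_right (fun hlt => h1.1 (h2.2 _ hlt))).symm
    obtain ⟨x, hx1, hx2⟩ := hx
    obtain ⟨y, hy2, hy1⟩ := hy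
    have hz1 : x * y ∉ M₁ := by
      intro h
      have h3 := M₁.mul_mem (M₁.inv_mem hx1) h
      rw [inv_mul_cancel_left] at h3
      exact hy1 h3
    have hz2 : x * y ∉ M₂ := by
      intro h
      have h3 := M₂.mul_mem h (M₂.inv_mem hy2)
      rw [mul_inv_cancel_right] at h3
      exact hx2 h3
    have hzt : Subgroup.zpowers (x * y) = ⊤ := by
      by_contra hzt
      obtain ⟨K, hK, hzK⟩ := exists_coatom_ge _ hzt
      have hzK' : x * y ∈ K := hzK (Subgroup.mem_zpowers _)
      rcases hcov K hK with ⟨g, rfl⟩ | ⟨g, rfl⟩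
      · rw [mem_conj] at hzK'
        have h3 := hn1.conj_mem _ hzK' g
        have h4 : g * (g⁻¹ * (x * y) * g) * g⁻¹ = x * y := by group
        rw [h4] at h3
        exact hz1 h3
      · rw [mem_conj] at hzK'
        have h3 := hn2.conj_mem _ hzK' g
        have h4 : g * (g⁻¹ * (x * y) * g) * g⁻¹ = x * y := by group
        rw [h4] at h3
        exact hz2 h3
    have hxz : x ∈ Subgroup.zpowers (x * y) := by
      rw [hzt]
      trivial
    have hyz : y ∈ Subgroup.zpowers (x * y) := by
      rw [hzt]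
      trivial
    obtain ⟨i, hi⟩ := Subgroup.mem_zpowers_iff.mp hxz
    obtain ⟨j, hj⟩ := Subgroup.mem_zpowers_iff.mp hyz
    have key : ∀ M : Subgroup G, M.Normal → x * y ∉ M → ∀ i : ℤ, (x * y) ^ i ∈ M →
        (p : ℤ) ∣ i := by
      intro M hMn hzM i hiM
      by_contra hpi
      obtain ⟨k, -, hk⟩ := (Nat.dvd_prime_pow hp).mp (hpa ▸ Subgroup.index_dvd_card M)
      have hcop : IsCoprime i ((p : ℤ) ^ k) := by
        have h3 : IsCoprime (p : ℤ) i :=
          (Nat.prime_iff_prime_int.mp hp).coprime_iff_not_dvd.mpr hpi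
        exact h3.symm.pow_right
      obtain ⟨u, v, huv⟩ := hcop
      have hpk : (x * y) ^ ((p : ℤ) ^ k) ∈ M := by
        have h5 : (x * y) ^ M.index ∈ M := Subgroup.pow_index_mem M (x * y)
        rw [hk] at h5
        have h6 : (x * y) ^ ((p : ℤ) ^ k) = (x * y) ^ (p ^ k) := by
          rw [← zpow_natCast]
          push_cast
          rfl
        rw [h6]
        exact h5
      apply hzM
      have h7 : x * y = ((x * y) ^ i) ^ u * ((x * y) ^ ((p : ℤ) ^ k)) ^ v := by
        rw [← zpow_mul, ← zpow_mul, ← zpow_add, mul_comm i u, mul_comm _ v, huv, zpow_one]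
      rw [h7]
      exact M.mul_mem (M.zpow_mem hiM u) (M.zpow_mem hpk v)
    have hpi : (p : ℤ) ∣ i := key M₁ hn1 hz1 i (by rw [hi]; exact hx1)
    have hpj : (p : ℤ) ∣ j := key M₂ hn2 hz2 j (by rw [hj]; exact hy2)
    have h8 : (x * y) ^ (i + j - 1) = 1 := by
      rw [zpow_sub, zpow_add, hi, hj, zpow_one, mul_inv_cancel]
    have h9 : (orderOf (x * y) : ℤ) ∣ i + j - 1 := orderOf_dvd_iff_zpow_eq_one.mpr h8
    have h10 : orderOf (x * y) = Nat.card G := by
      rw [← Nat.card_zpowers, hzt]
      exact Subgroup.card_top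
    have ha0 : a ≠ 0 := by
      rintro rfl
      apply hi1
      have h3 := Subgroup.index_dvd_card M₁
      rw [hpa, pow_zero] at h3
      exact Nat.dvd_one.mp h3
    have h11 : (p : ℤ) ∣ i + j - 1 := by
      refine Dvd.dvd.trans ?_ h9
      rw [h10, hpa]
      push_cast
      exact dvd_pow_self _ ha0
    have h12 : (p : ℤ) ∣ 1 := by
      have h3 := dvd_sub (dvd_add hpi hpj) h11
      simpa using h3
    have h13 := Int.eq_one_of_dvd_one (by positivity) h12
    have h14 := hp.one_lt
    omega
  omega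

end Cfsg.Agent.Lib.Helper57.TwoClasses
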