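import Mathlib
import Cfsg.Agent.Lib.Helper88.VFStmt

set_option autoImplicit false

/-! Shared lemma for the fusion pieces CBASE / CFWD / CBWD of S5286: transport of the
predicate `CF` along a map `ρ` of the fusion system. -/

namespace Cfsg.Agent.Lib.Helper57.VFC

open Cfsg Cfsg.Agent.Lib.Helper88.VFDefs

universe u

variable {Ω : Type u} [Group Ω] {S : Subgroup Ω}

theorem lam_injective : Function.Injective (lam S) := by
  intro s t h
  have h1 := congrArg (fun σ : Equiv.Perm S => σ 1) h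
  simpa [lam_apply] using h1

theorem lam_conj (s x : S) : lam S (s * x * s⁻¹) = lam S s * lam S x * (lam S s)⁻¹ := by
  rw [map_mul, map_mul, map_inv]

/-- if `ρ` is a map of the system on `P` and `b` intertwines `lam (ρ x)` with `lam (ψ x)`, then
`CF F R b` gives `ψ ∈ F.Hom P` -/
theorem transport (F : FusionSystem S) (R : Subgroup (Equiv.Perm S)) (b : Equiv.Perm S)
    (hb : CF F R b) (P : Subgroup Ω) (hP : P ≤ S) (ψ : P →* Ω) (hψ : ∀ x : P, ψ x ∈ S)
    (hR : ∀ x : P, lam S ⟨ψ x, hψ x⟩ ∈ R) (ρ : P →* Ω) (hρ : ρ ∈ F.Hom P)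
    (hrel : ∀ x : P, b * lam S ⟨ρ x, (F.le_of_mem hρ).2 x⟩ = lam S ⟨ψ x, hψ x⟩ * b) :
    ψ ∈ F.Hom P := by
  have hinj : Function.Injective ρ := F.injective_of_mem hρ
  obtain ⟨e, he⟩ : ∃ e : P ≃* ρ.range, ∀ x : P, ((e x : ρ.range) : Ω) = ρ x :=
    ⟨MonoidHom.ofInjective hinj, fun x => rfl⟩
  obtain ⟨ψ', hψ'def⟩ : ∃ ψ' : ρ.range →* Ω, ∀ y : ρ.range, ψ' y = ψ (e.symm y) :=
    ⟨ψ.comp e.symm.toMonoidHom, fun y => rfl⟩
  have hP' : ρ.range ≤ S := by
    rintro _ ⟨x, rfl⟩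
    exact (F.le_of_mem hρ).2 x
  have hψ' : ∀ y : ρ.range, ψ' y ∈ S := fun y => by
    rw [hψ'def]
    exact hψ (e.symm y)
  have hval : ∀ y : ρ.range, (⟨ψ' y, hψ' y⟩ : S) = ⟨ψ (e.symm y), hψ (e.symm y)⟩ :=
    fun y => Subtype.ext (hψ'def y)
  have h1 : ψ' ∈ F.Hom ρ.range := by
    apply hb ρ.range hP' ψ' hψ'
    · intro y
      rw [hval]
      exact hR (e.symm y)
    · intro y
      have h2 := hrel (e.symm y)
      have h3 : (⟨ρ (e.symm y), (F.le_of_mem hρ).2 (e.symm y)⟩ : S) = ⟨y, hP' y.2⟩ := by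
        apply Subtype.ext
        show ρ (e.symm y) = y
        rw [← he, MulEquiv.apply_symm_apply]
      rw [h3] at h2
      rw [hval]
      exact h2
  have h4 := F.comp_mem hρ h1 (fun x => ⟨x, rfl⟩)
  have h5 : ψ'.comp (ρ.codRestrict ρ.range (fun x => ⟨x, rfl⟩)) = ψ := by
    apply MonoidHom.ext
    intro x
    show ψ' (⟨ρ x, ⟨x, rfl⟩⟩) = ψ x
    rw [hψ'def]
    congr 1
    apply e.injective
    rw [MulEquiv.apply_symm_apply]
    exact Subtype.ext (he x).symm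
  rw [← h5]
  exact h4

end Cfsg.Agent.Lib.Helper57.VFC
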