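import Mathlib
import Cfsg.Agent.Lib.Helper57.VFC

set_option autoImplicit false

/-! Piece CBASE of S5286. -/

namespace Cfsg.Agent.Lib.Helper57.VFCBASE

open Cfsg Cfsg.Agent.Lib.Helper88.VFDefs Cfsg.Agent.Lib.Helper88.VFStmt

universe u

theorem main : CBaseP.{u} := by
  intro Ω _ S F
  refine ⟨?_, ?_⟩
  · intro R P hP ψ hψ hR hrel
    have h1 : ψ = conjHom P 1 := by
      apply MonoidHom.ext
      intro x
      have h2 := hrel x
      rw [one_mul, mul_one] at h2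
      have h3 := Cfsg.Agent.Lib.Helper57.VFC.lam_injective h2
      have h4 : (x : Ω) = ψ x := congrArg Subtype.val h3
      show ψ x = 1 * (x : Ω) * 1⁻¹
      rw [one_mul, inv_one, mul_one]
      exact h4.symm
    rw [h1]
    exact F.conj_mem hP S.one_mem
  · rintro R b s ⟨s₀, rfl⟩ hb P hP ψ hψ hR hrel
    apply Cfsg.Agent.Lib.Helper57.VFC.transport F R b hb P hP ψ hψ hR (conjHom P (s₀ : Ω))
      (F.conj_mem hP s₀.2)
    intro x
    have h2 := hrel x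
    have h3 : (⟨conjHom P (s₀ : Ω) x, (F.le_of_mem (F.conj_mem hP s₀.2)).2 x⟩ : S) =
        s₀ * ⟨x, hP x.2⟩ * s₀⁻¹ := Subtype.ext rfl
    rw [h3, Cfsg.Agent.Lib.Helper57.VFC.lam_conj]
    calc b * (lam S s₀ * lam S ⟨x, hP x.2⟩ * (lam S s₀)⁻¹)
        = (b * lam S s₀ * lam S ⟨x, hP x.2⟩) * (lam S s₀)⁻¹ := by group
      _ = (lam S ⟨ψ x, hψ x⟩ * (b * lam S s₀)) * (lam S s₀)⁻¹ := by rw [h2]
      _ = lam S ⟨ψ x, hψ x⟩ * b := by group

end Cfsg.Agent.Lib.Helper57.VFCBASE
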