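import Mathlib
import Cfsg.Agent.Lib.Helper57.VFC

set_option autoImplicit false

/-! Piece CBWD of S5286. -/

namespace Cfsg.Agent.Lib.Helper57.VFCBWD

open Cfsg Cfsg.Agent.Lib.Helper88.VFDefs Cfsg.Agent.Lib.Helper88.VFStmt

universe u

theorem main : CBwdP.{u} := by
  intro Ω _ S F sg hsg R i a hRa ha
  intro P hP ψ hψ hR hrel
  obtain ⟨χ, hχ, hχeq⟩ := F.inv_mem i.2.2
  have key : ∀ x : P, ∃ u : i.1, i.2.1 u = (x : Ω) := by
    intro x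
    have h1 := hRa _ (hR x)
    obtain ⟨t, ht, hteq⟩ := Subgroup.mem_map.1 h1
    obtain ⟨u, hu⟩ := Subgroup.mem_subgroupOf.1 ht
    have h4 := hrel x
    have h5 : lam S t = lam S ⟨x, hP x.2⟩ := by
      rw [hteq]
      calc a⁻¹ * lam S ⟨ψ x, hψ x⟩ * a = a⁻¹ * (lam S ⟨ψ x, hψ x⟩ * a) := by group
        _ = a⁻¹ * (a * lam S ⟨x, hP x.2⟩) := by rw [h4]
        _ = lam S ⟨x, hP x.2⟩ := by group
    have h6 := Cfsg.Agent.Lib.Helper57.VFC.lam_injective h5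
    exact ⟨u, hu.trans (congrArg Subtype.val h6)⟩
  have hincl : ∀ x : P, conjHom P 1 x ∈ i.2.1.range := by
    intro x
    obtain ⟨u, hu⟩ := key x
    show 1 * (x : Ω) * 1⁻¹ ∈ i.2.1.range
    rw [one_mul, inv_one, mul_one, ← hu]
    exact ⟨u, rfl⟩
  have hρ := F.comp_mem (F.conj_mem hP S.one_mem) hχ hincl
  apply Cfsg.Agent.Lib.Helper57.VFC.transport F R (a * sg i) ha P hP ψ hψ hR _ hρ
  intro x
  obtain ⟨u, hu⟩ := key x
  have h2 := hsg i u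
  have h4 := hrel x
  have h7 : (⟨(χ.comp ((conjHom P 1).codRestrict i.2.1.range hincl)) x,
      (F.le_of_mem hρ).2 x⟩ : S) = ⟨u, (F.le_of_mem i.2.2).1 u.2⟩ := by
    apply Subtype.ext
    show χ ⟨1 * (x : Ω) * 1⁻¹, _⟩ = u
    rw [← hχeq u]
    congr 1
    apply Subtype.ext
    show 1 * (x : Ω) * 1⁻¹ = i.2.1 u
    rw [one_mul, inv_one, mul_one, hu]
  have h8 : (⟨i.2.1 u, (F.le_of_mem i.2.2).2 u⟩ : S) = ⟨x, hP x.2⟩ := Subtype.ext hu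
  rw [h7]
  rw [h8] at h2
  calc a * sg i * lam S ⟨u, (F.le_of_mem i.2.2).1 u.2⟩
      = a * (sg i * lam S ⟨u, (F.le_of_mem i.2.2).1 u.2⟩) := by group
    _ = a * (lam S ⟨x, hP x.2⟩ * sg i) := by rw [h2]
    _ = a * lam S ⟨x, hP x.2⟩ * sg i := by group
    _ = lam S ⟨ψ x, hψ x⟩ * a * sg i := by rw [h4]
    _ = lam S ⟨ψ x, hψ x⟩ * (a * sg i) := by group

end Cfsg.Agent.Lib.Helper57.VFCBWD
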